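import Mathlib

/-!
# Binary integral lattices: reduced bases
-/

set_option autoImplicit false

namespace Cfsg.Agent.H6.BinLattice

variable {I : Type*} [Fintype I]

/-- the standard inner product -/
def dp (a b : I → ℤ) : ℤ := ∑ i, a i * b i

theorem dp_comm (a b : I → ℤ) : dp a b = dp b a := by
  unfold dp; exact Finset.sum_congr rfl fun i _ => mul_comm _ _

theorem dp_add_left (a b c : I → ℤ) : dp (a + b) c = dp a c + dp b c := by
  unfold dp; rw [← Finset.sum_add_distrib]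
  exact Finset.sum_congr rfl fun i _ => by rw [Pi.add_apply]; ring

theorem dp_add_right (a b c : I → ℤ) : dp a (b + c) = dp a b + dp a c := by
  rw [dp_comm, dp_add_left, dp_comm b, dp_comm c]

theorem dp_smul_left (x : ℤ) (a b : I → ℤ) : dp (x • a) b = x * dp a b := by
  unfold dp; rw [Finset.mul_sum]
  exact Finset.sum_congr rfl fun i _ => by rw [Pi.smul_apply, smul_eq_mul]; ring

theorem dp_smul_right (x : ℤ) (a b : I → ℤ) : dp a (x • b) = x * dp a b := by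
  rw [dp_comm, dp_smul_left, dp_comm]

theorem dp_neg_left (a b : I → ℤ) : dp (-a) b = - dp a b := by
  have := dp_smul_left (-1) a b
  simpa using this

theorem dp_neg_right (a b : I → ℤ) : dp a (-b) = - dp a b := by
  rw [dp_comm, dp_neg_left, dp_comm]

theorem dp_sub_left (a b c : I → ℤ) : dp (a - b) c = dp a c - dp b c := by
  rw [sub_eq_add_neg, dp_add_left, dp_neg_left]; ring

theorem dp_sub_right (a b c : I → ℤ) : dp a (b - c) = dp a b - dp a c := by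
  rw [dp_comm, dp_sub_left, dp_comm b, dp_comm c]

theorem dp_self_nonneg (a : I → ℤ) : 0 ≤ dp a a :=
  Finset.sum_nonneg fun i _ => mul_self_nonneg _

theorem dp_self_eq_zero {a : I → ℤ} (h : dp a a = 0) : a = 0 := by
  funext i
  have := (Finset.sum_eq_zero_iff_of_nonneg (fun i _ => mul_self_nonneg (a i))).mp h i
    (Finset.mem_univ i)
  exact mul_self_eq_zero.mp this

theorem dp_self_pos {a : I → ℤ} (h : a ≠ 0) : 0 < dp a a :=
  lt_of_le_of_ne (dp_self_nonneg a) fun h0 => h (dp_self_eq_zero h0.symm)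

/-- the discriminant of a pair -/
def disc (a b : I → ℤ) : ℤ := dp a a * dp b b - dp a b ^ 2

theorem smul_eq_of_disc_eq_zero {w a : I → ℤ} (h : disc w a = 0) :
    dp w w • a = dp w a • w := by
  have h1 : dp (dp w w • a - dp w a • w) (dp w w • a - dp w a • w) = dp w w * disc w a := by
    simp only [dp_sub_left, dp_sub_right, dp_smul_left, dp_smul_right, disc, dp_comm a w]
    ring
  rw [h, mul_zero] at h1
  exact sub_eq_zero.mp (dp_self_eq_zero h1)

theorem disc_nonneg (w a : I → ℤ) : 0 ≤ disc w a := by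
  by_cases hw : w = 0
  · subst hw
    simp [disc, dp]
  have h1 : dp (dp w w • a - dp w a • w) (dp w w • a - dp w a • w) = dp w w * disc w a := by
    simp only [dp_sub_left, dp_sub_right, dp_smul_left, dp_smul_right, disc, dp_comm a w]
    ring
  have h2 := dp_self_nonneg (dp w w • a - dp w a • w)
  rw [h1] at h2
  exact nonneg_of_mul_nonneg_right h2 (dp_self_pos hw)


theorem exists_min_nat {α : Type*} (S : Set α) (hS : S.Nonempty) (f : α → ℕ) :
    ∃ w ∈ S, ∀ v ∈ S, f w ≤ f v := by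
  obtain ⟨w, hw, hmin⟩ := WellFounded.has_min (InvImage.wf f Nat.lt_wfRel.wf) S hS
  exact ⟨w, hw, fun v hv => not_lt.mp (hmin v hv)⟩

theorem exists_min_int {α : Type*} (S : Set α) (hS : S.Nonempty) (f : α → ℤ)
    (hf : ∀ v, 0 ≤ f v) : ∃ w ∈ S, ∀ v ∈ S, f w ≤ f v := by
  obtain ⟨w, hw, hmin⟩ := exists_min_nat S hS (fun v => (f v).toNat)
  refine ⟨w, hw, fun v hv => ?_⟩
  have := hmin v hv
  have h1 := Int.toNat_of_nonneg (hf w)
  have h2 := Int.toNat_of_nonneg (hf v)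
  omega

theorem exists_round (m n : ℤ) (hn : 0 < n) : ∃ q : ℤ, 2 * |m - q * n| ≤ n := by
  refine ⟨(2 * m + n) / (2 * n), ?_⟩
  have h1 := Int.emod_add_mul_ediv (2 * m + n) (2 * n)
  have h2 := Int.emod_nonneg (2 * m + n) (show (2 * n) ≠ 0 by omega)
  have h3 := Int.emod_lt_of_pos (2 * m + n) (show 0 < 2 * n by omega)
  set q := (2 * m + n) / (2 * n)
  set t := (2 * m + n) % (2 * n)
  have h4 : 2 * (m - q * n) = t - n := by linarith
  rcases abs_cases (m - q * n) with ⟨h, _⟩ | ⟨h, _⟩ <;> rw [h] <;> linarith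


theorem disc_smul_smul (x y : ℤ) (u v : I → ℤ) :
    disc (x • u) (y • v) = x ^ 2 * y ^ 2 * disc u v := by
  simp only [disc, dp_smul_left, dp_smul_right]; ring

theorem disc_self_smul (s t : ℤ) (w : I → ℤ) : disc (s • w) (t • w) = 0 := by
  simp only [disc, dp_smul_left, dp_smul_right]; ring

theorem disc_add_smul (w v : I → ℤ) (x : ℤ) : disc w (v + x • w) = disc w v := by
  simp only [disc, dp_add_left, dp_add_right, dp_smul_left, dp_smul_right, dp_comm v w]; ring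

/-- a rank two lattice has a reduced basis -/
theorem exists_reduced (Λ : AddSubgroup (I → ℤ))
    (hex : ∃ a₁ ∈ Λ, ∃ a₂ ∈ Λ, disc a₁ a₂ ≠ 0)
    (H2 : ∀ w₁ ∈ Λ, ∀ w₂ ∈ Λ, disc w₁ w₂ ≠ 0 → ∀ u ∈ Λ, dp u w₁ = 0 → dp u w₂ = 0 → u = 0) :
    ∃ w₁ ∈ Λ, ∃ w₂ ∈ Λ, 0 < dp w₁ w₁ ∧ dp w₁ w₁ ≤ dp w₂ w₂ ∧ 2 * |dp w₁ w₂| ≤ dp w₁ w₁ ∧
      ∀ w ∈ Λ, ∃ x y : ℤ, w = x • w₁ + y • w₂ := by
  obtain ⟨a₁, ha₁, a₂, ha₂, hd⟩ := hex
  have ha₁0 : a₁ ≠ 0 := by
    rintro rfl
    apply hd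
    simp [disc, dp]
  obtain ⟨w₁, ⟨hw₁, hw₁0⟩, hmin₁⟩ := exists_min_int {w | w ∈ Λ ∧ w ≠ 0} ⟨a₁, ha₁, ha₁0⟩
    (fun w => dp w w) dp_self_nonneg
  have hapos : 0 < dp w₁ w₁ := dp_self_pos hw₁0
  have hex2 : ∃ v ∈ Λ, disc w₁ v ≠ 0 := by
    by_contra hcon
    push_neg at hcon
    have h1 := smul_eq_of_disc_eq_zero (hcon a₁ ha₁)
    have h2 := smul_eq_of_disc_eq_zero (hcon a₂ ha₂)
    have h3 := disc_smul_smul (dp w₁ w₁) (dp w₁ w₁) a₁ a₂
    rw [h1, h2, disc_self_smul] at h3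
    have : dp w₁ w₁ ^ 2 * dp w₁ w₁ ^ 2 ≠ 0 := by positivity
    exact (mul_ne_zero this hd) h3.symm
  obtain ⟨v0, hv0, hv0d⟩ := hex2
  obtain ⟨w₂, ⟨hw₂, hw₂d⟩, hmin₂⟩ := exists_min_int {w | w ∈ Λ ∧ disc w₁ w ≠ 0} ⟨v0, hv0, hv0d⟩
    (fun w => dp w w) dp_self_nonneg
  have hw₂0 : w₂ ≠ 0 := by
    rintro rfl
    apply hw₂d
    simp [disc, dp]
  have hac : dp w₁ w₁ ≤ dp w₂ w₂ := hmin₁ w₂ ⟨hw₂, hw₂0⟩
  have hb : 2 * |dp w₁ w₂| ≤ dp w₁ w₁ := by
    have h1 := hmin₂ (w₂ + (1 : ℤ) • w₁) ⟨Λ.add_mem hw₂ (Λ.zsmul_mem hw₁ _), by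
      rw [disc_add_smul]; exact hw₂d⟩
    have h2 := hmin₂ (w₂ + (-1 : ℤ) • w₁) ⟨Λ.add_mem hw₂ (Λ.zsmul_mem hw₁ _), by
      rw [disc_add_smul]; exact hw₂d⟩
    simp only [dp_add_left, dp_add_right, dp_smul_left, dp_smul_right, dp_comm w₂ w₁] at h1 h2
    rcases abs_cases (dp w₁ w₂) with ⟨h, _⟩ | ⟨h, _⟩ <;> rw [h] <;> linarith
  refine ⟨w₁, hw₁, w₂, hw₂, hapos, hac, hb, ?_⟩
  set a := dp w₁ w₁ with ha
  set b := dp w₁ w₂ with hbdef
  set c := dp w₂ w₂ with hc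
  have hΔ : disc w₁ w₂ = a * c - b ^ 2 := rfl
  have hΔpos : 0 < a * c - b ^ 2 := by
    rw [← hΔ]
    exact lt_of_le_of_ne (disc_nonneg _ _) (Ne.symm hw₂d)
  -- the key identity
  have key : ∀ w ∈ Λ, (a * c - b ^ 2) * dp w w =
      c * dp w w₁ ^ 2 - 2 * b * dp w w₁ * dp w w₂ + a * dp w w₂ ^ 2 := by
    intro w hw
    have hu : (a * c - b ^ 2) • w - (dp w w₁ * c - dp w w₂ * b) • w₁ -
        (dp w w₂ * a - dp w w₁ * b) • w₂ = 0 := by
      apply H2 w₁ hw₁ w₂ hw₂ hw₂d _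
        (Λ.sub_mem (Λ.sub_mem (Λ.zsmul_mem hw _) (Λ.zsmul_mem hw₁ _)) (Λ.zsmul_mem hw₂ _))
      · simp only [dp_sub_left, dp_smul_left, dp_comm w₂ w₁, ← ha, ← hbdef, ← hc]; ring
      · simp only [dp_sub_left, dp_smul_left, ← ha, ← hbdef, ← hc]; ring
    have h2 := congrArg (fun t => dp t w) hu
    simp only [dp_sub_left, dp_smul_left, dp_comm w₁ w, dp_comm w₂ w] at h2
    have h3 : dp (0 : I → ℤ) w = 0 := by simp [dp]
    rw [h3] at h2
    linarith
  intro w hw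
  obtain ⟨y, hy⟩ := exists_round (dp w w₂ * a - dp w w₁ * b) (a * c - b ^ 2) hΔpos
  obtain ⟨x, hx⟩ := exists_round (dp (w - y • w₂) w₁) a hapos
  set w'' := w - y • w₂ - x • w₁ with hw''
  have hw''Λ : w'' ∈ Λ := Λ.sub_mem (Λ.sub_mem hw (Λ.zsmul_mem hw₂ _)) (Λ.zsmul_mem hw₁ _)
  have hr : dp w'' w₁ = dp (w - y • w₂) w₁ - x * a := by
    rw [hw'', dp_sub_left, dp_smul_left]
  have hY : dp w'' w₂ * a - dp w'' w₁ * b =
      (dp w w₂ * a - dp w w₁ * b) - y * (a * c - b ^ 2) := by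
    simp only [hw'', dp_sub_left, dp_smul_left, dp_comm w₂ w₁, ← ha, ← hbdef, ← hc]; ring
  rw [← hr] at hx
  rw [← hY] at hy
  have hk := key w'' hw''Λ
  set r := dp w'' w₁
  set s := dp w'' w₂
  set N := dp w'' w'' with hN
  have hD : (a * c - b ^ 2) * (a * N - r ^ 2) = (s * a - r * b) ^ 2 := by
    have : (a * c - b ^ 2) * (a * N - r ^ 2) = a * ((a * c - b ^ 2) * N) - (a * c - b ^ 2) * r ^ 2 := by
      ring
    rw [this, hk]; ring
  have hdisc : disc w₁ w'' = a * N - r ^ 2 := by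
    simp only [disc, dp_comm w₁ w'']
    rfl
  have hy2 : 4 * (s * a - r * b) ^ 2 ≤ (a * c - b ^ 2) ^ 2 := by
    have h0 := abs_nonneg (s * a - r * b)
    have : (2 * |s * a - r * b|) ^ 2 ≤ (a * c - b ^ 2) ^ 2 := by
      apply pow_le_pow_left₀ (by positivity) hy
    rw [mul_pow, sq_abs] at this
    linarith
  have hx2 : 4 * r ^ 2 ≤ a ^ 2 := by
    have : (2 * |r|) ^ 2 ≤ a ^ 2 := pow_le_pow_left₀ (by positivity) hx 2
    rw [mul_pow, sq_abs] at this
    linarith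
  have hD4 : 4 * (a * N - r ^ 2) ≤ a * c - b ^ 2 := by
    have : (a * c - b ^ 2) * (4 * (a * N - r ^ 2)) ≤ (a * c - b ^ 2) * (a * c - b ^ 2) := by
      nlinarith
    exact le_of_mul_le_mul_left this hΔpos
  have hNc : N < c := by
    have h1 : 4 * (a * N) ≤ a ^ 2 + a * c := by nlinarith [sq_nonneg b]
    have h2 : a * (2 * N) ≤ a * c := by nlinarith
    have h3 := le_of_mul_le_mul_left h2 hapos
    have hcpos : 0 < c := lt_of_lt_of_le hapos hac
    linarith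
  have hD0 : a * N - r ^ 2 = 0 := by
    by_contra hne
    have := hmin₂ w'' ⟨hw''Λ, by rw [hdisc]; exact hne⟩
    exact absurd hNc (not_lt.mpr this)
  have hNa : N < a := by
    have h1 : a * (4 * N) ≤ a * a := by nlinarith
    have h3 := le_of_mul_le_mul_left h1 hapos
    have hN0 : 0 ≤ N := dp_self_nonneg _
    linarith
  have hw0 : w'' = 0 := by
    by_contra hne
    exact absurd hNa (not_lt.mpr (hmin₁ w'' ⟨hw''Λ, hne⟩))
  refine ⟨x, y, ?_⟩
  have : w = w'' + x • w₁ + y • w₂ := by rw [hw'']; abel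
  rw [this, hw0, zero_add]


/-- the arithmetic of a reduced form whose scaled inverse is integral -/
theorem reduced_bound {a b c P : ℤ} (ha : 0 < a) (hac : a ≤ c) (hb : 2 * |b| ≤ a) (hP : 0 < P)
    (h1 : (a * c - b ^ 2) ∣ P * a) (h2 : (a * c - b ^ 2) ∣ P * b)
    (h3 : (a * c - b ^ 2) ∣ P * c) :
    a + c - |b| ≤ P ∨ (b = 0 ∧ c = P ∧ a ∣ P) := by
  have hb0 := abs_nonneg b
  have hbsq : b ^ 2 = |b| ^ 2 := (sq_abs b).symm
  have hΔ : 0 < a * c - b ^ 2 := by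
    rw [hbsq]; nlinarith
  obtain ⟨a', ha'⟩ := h1
  obtain ⟨b', hb'⟩ := h2
  obtain ⟨c', hc'⟩ := h3
  set Δ := a * c - b ^ 2 with hΔdef
  have ha'pos : 0 < a' := by
    have : 0 < Δ * a' := by rw [← ha']; positivity
    exact (mul_pos_iff_of_pos_left hΔ).mp this
  have hac' : a' ≤ c' := by
    have : Δ * a' ≤ Δ * c' := by rw [← ha', ← hc']; exact mul_le_mul_of_nonneg_left hac hP.le
    exact le_of_mul_le_mul_left this hΔ
  have habs : P * |b| = Δ * |b'| := by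
    have := congrArg abs hb'
    rwa [abs_mul, abs_mul, abs_of_pos hP, abs_of_pos hΔ] at this
  have hbb' : 2 * |b'| ≤ a' := by
    have : Δ * (2 * |b'|) ≤ Δ * a' := by
      rw [← ha']
      calc Δ * (2 * |b'|) = P * (2 * |b|) := by rw [mul_left_comm, ← habs]; ring
        _ ≤ P * a := mul_le_mul_of_nonneg_left hb hP.le
    exact le_of_mul_le_mul_left this hΔ
  have hdual : Δ * (a' * c' - b' ^ 2) = P ^ 2 := by
    have : Δ * (Δ * (a' * c' - b' ^ 2)) = Δ * P ^ 2 := by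
      calc Δ * (Δ * (a' * c' - b' ^ 2)) = (Δ * a') * (Δ * c') - (Δ * b') ^ 2 := by ring
        _ = (P * a) * (P * c) - (P * b) ^ 2 := by rw [ha', hb', hc']
        _ = Δ * P ^ 2 := by rw [hΔdef]; ring
    exact mul_left_cancel₀ hΔ.ne' this
  have hb'0 := abs_nonneg b'
  have hb'sq : b' ^ 2 = |b'| ^ 2 := (sq_abs b').symm
  rcases (show a' = 1 ∨ 2 ≤ a' by omega) with h | h
  · right
    have hb'z : b' = 0 := by
      have : |b'| = 0 := by omega
      exact abs_eq_zero.mp this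
    have hbz : b = 0 := by
      rw [hb'z, mul_zero] at hb'
      rcases mul_eq_zero.mp hb' with h | h
      · exact absurd h hP.ne'
      · exact h
    have hΔac : Δ = a * c := by rw [hΔdef, hbz]; ring
    have hPc : c = P := by
      rw [h, mul_one, hΔac, mul_comm] at ha'
      exact (mul_left_cancel₀ ha.ne' ha').symm
    refine ⟨hbz, hPc, c', ?_⟩
    have hcpos : 0 < c := lt_of_lt_of_le ha hac
    rw [hΔac] at hc'
    have : c * P = c * (a * c') := by
      calc c * P = P * c := mul_comm _ _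
        _ = a * c * c' := hc'
        _ = c * (a * c') := by ring
    exact mul_left_cancel₀ hcpos.ne' this
  · left
    have hkey : a' + c' - |b'| ≤ a' * c' - b' ^ 2 := by
      rw [hb'sq]
      have e1 : 0 ≤ (a' - 2 * |b'|) * (a' + 2 * |b'| - 2) :=
        mul_nonneg (by linarith) (by linarith)
      have e2 : 0 ≤ (a' - 1) * (c' - a') := mul_nonneg (by linarith) (by linarith)
      have e3 : 0 ≤ a' * (a' - 2) := mul_nonneg (by linarith) (by linarith)
      nlinarith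
    have : P * (a + c - |b|) ≤ P * P := by
      calc P * (a + c - |b|) = Δ * (a' + c' - |b'|) := by
            rw [mul_sub, mul_add, ha', hc', habs]; ring
        _ ≤ Δ * (a' * c' - b' ^ 2) := mul_le_mul_of_nonneg_left hkey hΔ.le
        _ = P * P := by rw [hdual]; ring
    exact le_of_mul_le_mul_left this hP

end Cfsg.Agent.H6.BinLattice
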