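import Mathlib

/-!
# Vanishing of cyclotomic integers is Galois invariant
-/

set_option autoImplicit false

namespace Cfsg.Agent.H6.GalVanish

open Polynomial in
theorem gal_vanish {ι : Type*} [Fintype ι] (n : ℕ) [NeZero n] (N : ι → ℤ)
    (ρ : ι → ℂ) (hρ : ∀ i, ρ i ^ n = 1) {u v : ℕ} (hu : u.Coprime n) (hv : v.Coprime n)
    (h : ∑ i, (N i : ℂ) * ρ i ^ u = 0) : ∑ i, (N i : ℂ) * ρ i ^ v = 0 := by
  have hn0 : n ≠ 0 := NeZero.ne n
  have hζ := Complex.isPrimitiveRoot_exp n hn0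
  set ζ := Complex.exp (2 * Real.pi * Complex.I / n) with hζdef
  have hk : ∀ i, ∃ k : ℕ, ζ ^ k = ρ i := fun i => by
    obtain ⟨k, _, hk⟩ := hζ.eq_pow_of_pow_eq_one (hρ i)
    exact ⟨k, hk⟩
  choose k hk using hk
  set P : ℤ[X] := ∑ i, C (N i) * X ^ k i with hP
  have hev : ∀ w : ℕ, aeval (ζ ^ w) P = ∑ i, (N i : ℂ) * ρ i ^ w := by
    intro w
    rw [hP, map_sum]
    apply Finset.sum_congr rfl
    intro i _
    rw [map_mul, aeval_C, map_pow, aeval_X, ← hk i, ← pow_mul, ← pow_mul, mul_comm w]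
    simp
  have hint : ∀ w : ℕ, IsIntegral ℤ (ζ ^ w) := fun w =>
    (hζ.isIntegral (Nat.pos_of_ne_zero hn0)).pow w
  have h1 : minpoly ℤ (ζ ^ u) ∣ P := minpoly.isIntegrallyClosed_dvd (hint u) (by rw [hev, h])
  rw [← hζ.minpoly_eq_pow_coprime hu, hζ.minpoly_eq_pow_coprime hv] at h1
  obtain ⟨Q, hQ⟩ := h1
  rw [← hev, hQ, map_mul, minpoly.aeval, zero_mul]

end Cfsg.Agent.H6.GalVanish
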