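import Mathlib
import Cfsg.Agent.H6.PSocle
import Cfsg.Agent.BlockLib.KG.Defect

/-! Min-max statements for class sums and for `G_p^+ ε`. -/

set_option autoImplicit false

namespace Cfsg.Agent.H6.GpDefect

open Cfsg.Agent.BlockLib Cfsg.Agent.BlockLib.CA Cfsg.Agent.H6.PSocle

universe u v

variable {k : Type u} {G : Type v} [Field k] [Group G] [Fintype G] [Split k G]
  {p : ℕ} [Fact p.Prime] [CharP k p]

local notation "C(" P ")" => Subgroup.centralizer (SetLike.coe P)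
local notation "Ce(" g ")" => Subgroup.centralizer (Singleton.singleton g : Set _)

/-- if the central character of `ε` does not vanish on the class sum of `y`, a defect group of `ε`
is conjugate into a Sylow subgroup of the centralizer of `y` -/
theorem le_cjs_of_lam_ne_zero {ε : CA k G} (hε : IsBlk ⊤ ε) {D' D : Subgroup G}
    (hD' : IsDefGrp p ⊤ ε D') {y : G} (hD : IsSylIn p D Ce(y))
    (hlam : lam ⊤ ε (clsSum ⊤ y) ≠ 0) : ∃ c : G, D' ≤ cjs c D := by
  have h1 := br_ne_zero_of_lam_ne_zero hε (clsSum_mem_cen (Subgroup.mem_top y)) hlam hD'.isPGroup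
    le_top (hD'.br_ne_zero hε)
  have h1' : ∃ x ∈ C(D'), (clsSum ⊤ y : CA k G) x ≠ 0 :=
    (Cfsg.Agent.BlockLib.CA.br_ne_zero_iff (P := D') (a := (clsSum ⊤ y : CA k G))).mp h1
  obtain ⟨x, hxC, hx⟩ := h1'
  have hx' : ∃ h ∈ (⊤ : Subgroup G), h * y * h⁻¹ = x := (clsSum_ne_zero_iff (k := k)).mp hx
  obtain ⟨h, -, rfl⟩ := hx'
  have h2 : cjs h⁻¹ D' ≤ Ce(y) := by
    rw [← le_cjs_iff, cjs_centralizer_singleton, le_centralizer_singleton_iff]
    exact hxC
  obtain ⟨c, -, hle⟩ := hD.exists_conj_le (isPGroup_cjs hD'.isPGroup _) h2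
  refine ⟨h * c, ?_⟩
  rw [← cjs_cjs, le_cjs_iff]
  exact hle

/-- if `G_p^+ ε` does not vanish at `y`, every `p`-subgroup of the centralizer of `y` is conjugate
into a defect group of `ε` -/
theorem le_cjs_of_gp_mul_ne_zero {ε : CA k G} (hε : IsBlk ⊤ ε) {D' D : Subgroup G}
    (hD' : IsDefGrp p ⊤ ε D') {y : G} (hD : IsPGroup p D) (hDy : D ≤ Ce(y))
    (hne : (gp k p G * ε) y ≠ 0) : ∃ c : G, D ≤ cjs c D' := by
  have h1 := gp_mul_idem_pow (p := p) hε.mem hε.idem y (le_refl _)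
  have h2 : ε (y ^ (p ^ (Nat.card G).factorization p)) ≠ 0 := by
    rw [← h1]
    exact pow_ne_zero _ hne
  have h3 : br D ε ≠ 0 := by
    rw [Cfsg.Agent.BlockLib.CA.br_ne_zero_iff]
    refine ⟨_, ?_, h2⟩
    rw [← le_centralizer_singleton_iff]
    intro d hd
    have := Subgroup.mem_centralizer_singleton_iff.mp (hDy hd)
    rw [Subgroup.mem_centralizer_singleton_iff]
    exact ((show Commute d y from this).pow_right _).eq
  obtain ⟨c, -, hc⟩ := (hD'.br_ne_zero_iff hε hD le_top).mp h3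
  exact ⟨c, hc⟩

/-- both conditions together: `D` is a defect group -/
theorem isDefGrp_of_ne_zero {ε : CA k G} (hε : IsBlk ⊤ ε) {D : Subgroup G} {y y' : G}
    (hD : IsSylIn p D Ce(y)) (hlam : lam ⊤ ε (clsSum ⊤ y) ≠ 0) (hDy' : D ≤ Ce(y'))
    (hne : (gp k p G * ε) y' ≠ 0) : IsDefGrp p ⊤ ε D := by
  obtain ⟨D', hD'⟩ := exists_isDefGrp (p := p) hε
  obtain ⟨c, hc⟩ := le_cjs_of_lam_ne_zero hε hD' hD hlam
  obtain ⟨c', hc'⟩ := le_cjs_of_gp_mul_ne_zero hε hD' hD.1 hDy' hne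
  rw [eq_cjs_of_le_of_le hc' hc]
  exact hD'.cj hε (Subgroup.mem_top _)

end Cfsg.Agent.H6.GpDefect
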