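import Cfsg.Agent.H6.MajorSub2

/-!
# Heights and the number of major subsections (character side)
-/

set_option autoImplicit false
open Cfsg Cfsg.Agent.CharLib Cfsg.Agent.CharLib.L Cfsg.Agent.BlockLib Cfsg.Agent.Lib.Helper23
  Cfsg.Agent.Lib.Helper23.MinMax
  Cfsg.Agent.Lib.Helper23.Trunc Cfsg.Agent.H6.BlockSection Cfsg.Agent.Lib.Helper23.Sect
  Cfsg.Agent.Lib.Helper23.Subsect Cfsg.Agent.Lib.Helper23.Contrib Cfsg.Agent.H6.MajorSub
open scoped ComplexConjugate

namespace Cfsg.Agent.H6.HeightBound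

universe u
variable {G : Type u} [Group G] [Fintype G]

open Classical in
/-- the sum of the diagonal contributions of the subsections `(g, β)`, `β` a block of `H` -/
noncomputable def secSum (p : ℕ) (M : Ideal AlgInt) (B : Set (IrrCharacter G)) (χ : G → ℂ)
    (H : Subgroup G) [Fintype H] (g : G) : ℂ :=
  ∑ β ∈ (pblocks M H).filter (fun β => IsInducedBlock M H β B), contrib p β g χ χ

theorem secSum_congr (p : ℕ) (M : Ideal AlgInt) (B : Set (IrrCharacter G)) (χ : G → ℂ)
    {H H' : Subgroup G} [i : Fintype H] [i' : Fintype H'] (h : H = H') (g : G) :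
    secSum p M B χ H g = secSum p M B χ H' g := by
  subst h
  have : i = i' := Subsingleton.elim _ _
  subst this
  rfl

theorem contrib_self_eq_sum (p : ℕ) {H : Subgroup G} [Fintype H] (β : Set (IrrCharacter H))
    (x : G) (χ : G → ℂ) :
    contrib p β x χ χ = (Nat.card H : ℂ)⁻¹ * ∑ y : H, (if p ∣ orderOf y then 0 else
      blockPart β (fun c : H => χ (x * c)) y * conj (blockPart β (fun c : H => χ (x * c)) y)) := by
  rw [contrib, classInner]
  congr 1
  apply Finset.sum_congr rfl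
  intro y _
  rw [trunc_apply]
  split_ifs <;> simp

theorem sum_secSum {p : ℕ} [Fact p.Prime] {M : Ideal AlgInt} (hM : IsPModular p M)
    [∀ x : G, Fintype (Subgroup.centralizer ({x} : Set G))] (X : Finset G)
    (hX : ∀ x ∈ X, ∃ k : ℕ, orderOf x = p ^ k)
    (hXrep : ∀ g : G, (∃ k : ℕ, orderOf g = p ^ k) → ∃! x, x ∈ X ∧ IsConj g x)
    {B : Set (IrrCharacter G)} (hB : IsPBlock M B) {χ : IrrCharacter G} (hχ : χ ∈ B) :
    ∑ x ∈ X, secSum p M B (χ : G → ℂ) (Subgroup.centralizer ({x} : Set G)) x = 1 := by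
  classical
  have hcl : IsClassFunction G (fun g => (χ : G → ℂ) g * conj ((χ : G → ℂ) g)) := by
    intro g h
    simp only [isClassFunction_of_irr χ.2 g h]
  have h1 := sum_eq_sum_sections hM.1 X hX hXrep hcl
  have h2 := classInner_irr_self χ.2
  rw [classInner, h1] at h2
  rw [← h2, Finset.mul_sum]
  apply Finset.sum_congr rfl
  intro x hx
  obtain ⟨k, hk⟩ := hX x hx
  rw [sum_reg_sq_eq hM hk hB hχ, secSum]
  simp only [contrib_self_eq_sum]
  rw [← Finset.mul_sum, ← mul_assoc]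
  congr 1
  have h3 : (Nat.card G : ℂ) = ((Subgroup.centralizer ({x} : Set G)).index : ℂ) *
      (Nat.card (Subgroup.centralizer ({x} : Set G)) : ℂ) := by
    rw [← Nat.cast_mul, mul_comm, Subgroup.card_mul_index]
  have h4 : (Nat.card (Subgroup.centralizer ({x} : Set G)) : ℂ) ≠ 0 := card_ne_zero_complex
  have h5 : ((Subgroup.centralizer ({x} : Set G)).index : ℂ) ≠ 0 := by
    exact_mod_cast (Subgroup.centralizer ({x} : Set G)).index_ne_zero_of_finite
  rw [h3]
  field_simp

omit [Fintype G] in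
theorem pow_mul_eq_self {p s : ℕ} {g : G} (hg : g ^ (p ^ s) = 1) {v w : ℕ}
    (hvw : v * w ≡ 1 [MOD p ^ s]) : (g ^ v) ^ w = g := by
  rw [← pow_mul]
  conv_rhs => rw [← pow_one g]
  rw [pow_eq_pow_iff_modEq]
  exact hvw.of_dvd (orderOf_dvd_of_pow_eq_one hg)

omit [Fintype G] in
theorem isPElt_pow {p : ℕ} (hp : p.Prime) {g : G} (hg : ∃ k : ℕ, orderOf g = p ^ k) (v : ℕ) :
    ∃ k : ℕ, orderOf (g ^ v) = p ^ k := by
  obtain ⟨k, hk⟩ := hg
  obtain ⟨j, -, hj⟩ := (Nat.dvd_prime_pow hp).1 (hk ▸ orderOf_pow_dvd v)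
  exact ⟨j, hj⟩

omit [Fintype G] in
theorem isConj_pow {g h : G} (hc : IsConj g h) (n : ℕ) : IsConj (g ^ n) (h ^ n) := by
  obtain ⟨c, hc⟩ := isConj_iff.mp hc
  exact isConj_iff.mpr ⟨c, by rw [← hc, conj_pow]⟩

open Classical in
/-- raising a set of representatives of the classes of `p`-elements to a power prime to `p` -/
theorem rep_pow {p : ℕ} (hp : p.Prime) {s : ℕ}
    (hs : ∀ g : G, (∃ k : ℕ, orderOf g = p ^ k) → g ^ (p ^ s) = 1) (X : Finset G)
    (hX : ∀ x ∈ X, ∃ k : ℕ, orderOf x = p ^ k)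
    (hXrep : ∀ g : G, (∃ k : ℕ, orderOf g = p ^ k) → ∃! x, x ∈ X ∧ IsConj g x)
    {v w : ℕ} (hvw : v * w ≡ 1 [MOD p ^ s]) :
    (∀ x ∈ X.image (· ^ v), ∃ k : ℕ, orderOf x = p ^ k) ∧
    (∀ g : G, (∃ k : ℕ, orderOf g = p ^ k) → ∃! x, x ∈ X.image (· ^ v) ∧ IsConj g x) ∧
    Set.InjOn (fun x : G => x ^ v) X := by
  have hwv : w * v ≡ 1 [MOD p ^ s] := by rwa [mul_comm]
  refine ⟨?_, ?_, ?_⟩
  · intro x hx
    obtain ⟨y, hy, rfl⟩ := Finset.mem_image.mp hx
    exact isPElt_pow hp (hX y hy) v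
  · intro g hg
    obtain ⟨x, ⟨hxX, hxc⟩, huniq⟩ := hXrep (g ^ w) (isPElt_pow hp hg w)
    refine ⟨x ^ v, ⟨Finset.mem_image.mpr ⟨x, hxX, rfl⟩, ?_⟩, ?_⟩
    · have := isConj_pow hxc v
      rwa [pow_mul_eq_self (hs g hg) hwv] at this
    · rintro y ⟨hy, hyc⟩
      obtain ⟨x', hx', rfl⟩ := Finset.mem_image.mp hy
      have h1 := isConj_pow hyc w
      rw [pow_mul_eq_self (hs x' (hX x' hx')) hvw] at h1
      rw [huniq x' ⟨hx', h1⟩]
  · intro x hx y hy hxy
    have h1 : (x ^ v) ^ w = (y ^ v) ^ w := by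
      have : x ^ v = y ^ v := hxy
      rw [this]
    rwa [pow_mul_eq_self (hs x (hX x hx)) hvw, pow_mul_eq_self (hs y (hX y hy)) hvw] at h1

/-- a totally positive cyclotomic integer all of whose conjugates are divisible by `p^c` -/
theorem card_units_mul_le_sum_of_pos {p : ℕ} {M : Ideal AlgInt} (hM : IsPModular p M)
    {ι : Type*} [Fintype ι] (n : ℕ) [NeZero n] (N : ι → ℤ)
    (ρ : ι → ℂ) (hρ : ∀ i, ρ i ^ n = 1) (r : (ZMod n)ˣ → ℝ) (hr : ∀ u, 0 < r u)
    (h : ∀ u : (ZMod n)ˣ, ∑ i, (N i : ℂ) * ρ i ^ (u : ZMod n).val = (r u : ℂ)) (c : ℕ)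
    (hloc : ∀ u, MemLocalRing M ((r u : ℂ) / (p : ℂ) ^ c)) :
    (Fintype.card (ZMod n)ˣ : ℝ) * (p : ℝ) ^ c ≤ ∑ u, r u := by
  have hMp := isPrime_of_isPModular hM
  have hp0 : (0 : ℝ) < (p : ℝ) ^ c := pow_pos (by exact_mod_cast hM.1.pos) c
  obtain ⟨k, hk⟩ := exists_int_prod n N ρ hρ
  simp only [h] at hk
  have hk' : ∏ u, r u = (k : ℝ) := by
    have : ((∏ u, r u : ℝ) : ℂ) = ((k : ℝ) : ℂ) := by
      push_cast
      exact hk
    exact_mod_cast this
  have hpos : 0 < ∏ u, r u := Finset.prod_pos fun u _ => hr u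
  have hkpos : 0 < k := by
    rw [hk'] at hpos
    exact_mod_cast hpos
  obtain ⟨K, rfl⟩ : ∃ K : ℕ, k = K := ⟨k.toNat, (Int.toNat_of_nonneg hkpos.le).symm⟩
  have hdvd : p ^ (c * Fintype.card (ZMod n)ˣ) ∣ K := by
    apply pow_dvd_of_memLocalRing hM
    have h1 := memLocalRing_prod Finset.univ (fun u => (r u : ℂ) / (p : ℂ) ^ c)
      (fun u _ => hloc u)
    rw [Finset.prod_div_distrib, hk, Finset.prod_const, Finset.card_univ, ← pow_mul] at h1
    simpa using h1
  have hKpos : 0 < K := by exact_mod_cast hkpos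
  have hle : p ^ (c * Fintype.card (ZMod n)ˣ) ≤ K := Nat.le_of_dvd hKpos hdvd
  have key := card_le_sum_of_one_le_prod (fun u => r u / (p : ℝ) ^ c)
    (fun u => div_pos (hr u) hp0) (by
      rw [Finset.prod_div_distrib, hk', Finset.prod_const, Finset.card_univ, ← pow_mul,
        one_le_div (pow_pos (by exact_mod_cast hM.1.pos) _)]
      exact_mod_cast hle)
  rw [← Finset.sum_div, le_div_iff₀ hp0] at key
  exact key

theorem memLocalRing_scaled_contrib {p : ℕ} {M : Ideal AlgInt} (hM : IsPModular p M) {z : G}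
    {k : ℕ} (hz : orderOf z = p ^ k) {H : Subgroup G} [Fintype H]
    (hH : H = Subgroup.centralizer ({z} : Set G)) {b : Set (IrrCharacter H)}
    (hb : IsPBlock M b) (χ ψ : IrrCharacter G) :
    MemLocalRing M
      ((Nat.card G : ℂ) * contrib p b z (χ : G → ℂ) (ψ : G → ℂ) / (χ : G → ℂ) 1) := by
  have hMp := isPrime_of_isPModular hM
  have hzH : z ∈ H := by rw [hH, Subgroup.mem_centralizer_singleton_iff]
  have hzc : ∀ h ∈ H, z * h = h * z := by
    intro h hh
    rw [hH, Subgroup.mem_centralizer_singleton_iff] at hh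
    exact hh.symm
  have hzk : z ^ (p ^ k) = 1 := by rw [← hz, pow_orderOf_eq_one]
  have hcl := isClassFunction_transp H z (cpart p b z (ψ : G → ℂ))
  have hR := memLocalRing_transp hM hz hH (isClassFunction_cpart p b z (ψ : G → ℂ))
    (cpart_singular p b z (ψ : G → ℂ)) (memLocalRing_cpart hM b hzH hzc hzk ψ)
  rw [← omega_transp_cpart hM hb hzc χ ψ]
  exact memLocalRing_omega χ.2 hcl hR

theorem memLocalRing_sdeg_div {p : ℕ} {M : Ideal AlgInt} (hM : IsPModular p M)
    {B : Set (IrrCharacter G)} {χ : IrrCharacter G} (hχ : χ ∈ B) :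
    MemLocalRing M (sdeg p B (χ : G → ℂ) /
      (p : ℂ) ^ ((charDegree (χ : G → ℂ)).factorization p - minExp p B)) := by
  have hMp := isPrime_of_isPModular hM
  have htop := ne_top_of_isPModular hM
  have hp0 : (p : ℂ) ≠ 0 := by exact_mod_cast hM.1.ne_zero
  rw [sdeg_eq hM.1 hχ]
  have hle := minExp_le (p := p) hχ
  obtain ⟨m, hm⟩ : p ^ (charDegree (χ : G → ℂ)).factorization p ∣ charDegree (χ : G → ℂ) :=
    Nat.ordProj_dvd _ _
  have h1 : charDegree (χ : G → ℂ) / p ^ minExp p B =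
      p ^ ((charDegree (χ : G → ℂ)).factorization p - minExp p B) * m := by
    conv_lhs => rw [hm]
    rw [← Nat.sub_add_cancel hle, pow_add, Nat.add_sub_cancel, mul_comm (p ^ _) (p ^ minExp p B),
      mul_assoc, Nat.mul_div_cancel_left _ (pow_pos hM.1.pos _)]
  rw [h1]
  have h2 : ((p ^ ((charDegree (χ : G → ℂ)).factorization p - minExp p B) * m : ℕ) : ℂ) *
      ((Nat.card G / p ^ (Nat.card G).factorization p : ℕ) : ℂ)⁻¹ /
      (p : ℂ) ^ ((charDegree (χ : G → ℂ)).factorization p - minExp p B) =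
      (m : ℂ) * ((Nat.card G / p ^ (Nat.card G).factorization p : ℕ) : ℂ)⁻¹ := by
    push_cast
    field_simp
  rw [h2]
  exact memLocalRing_mul (memLocalRing_natCast htop _)
    (memLocalRing_natCast_inv hM (Nat.not_dvd_ordCompl hM.1 Nat.card_pos.ne'))

open Classical in
/-- the number of major subsections times `p^h` is at most `p^d` -/
theorem card_major_mul_le {p : ℕ} [Fact p.Prime] {M : Ideal AlgInt} (hM : IsPModular p M)
    [∀ x : G, Fintype (Subgroup.centralizer ({x} : Set G))] (X : Finset G)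
    (hX : ∀ x ∈ X, ∃ k : ℕ, orderOf x = p ^ k)
    (hXrep : ∀ g : G, (∃ k : ℕ, orderOf g = p ^ k) → ∃! x, x ∈ X ∧ IsConj g x)
    {B : Set (IrrCharacter G)} (hB : IsPBlock M B) {χ : IrrCharacter G} (hχ : χ ∈ B) :
    (∑ x ∈ X, ((pblocks M (Subgroup.centralizer ({x} : Set G))).filter (fun β =>
      IsInducedBlock M (Subgroup.centralizer ({x} : Set G)) β B ∧
        blockDefect p β = blockDefect p B)).card) *
      p ^ ((charDegree (χ : G → ℂ)).factorization p - minExp p B) ≤ p ^ blockDefect p B := by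
  have hp : p.Prime := hM.1
  have hMp := isPrime_of_isPModular hM
  have htop := ne_top_of_isPModular hM
  obtain ⟨s, hsdef⟩ : ∃ s, s = (Nat.card G).factorization p := ⟨_, rfl⟩
  have hs : ∀ g : G, (∃ k : ℕ, orderOf g = p ^ k) → g ^ (p ^ s) = 1 := by
    rintro g ⟨k, hk⟩
    apply orderOf_dvd_iff_pow_eq_one.mp
    rw [hk]
    apply pow_dvd_pow
    rw [hsdef]
    exact (hp.pow_dvd_iff_le_factorization Nat.card_pos.ne').mp (hk ▸ orderOf_dvd_natCard g)
  have hn0 : p ^ s ≠ 0 := pow_ne_zero _ hp.ne_zero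
  have : NeZero (p ^ s) := ⟨hn0⟩
  obtain ⟨ψ, hψ, hmin⟩ := exists_minExp (p := p) (nonempty_of_isPBlock htop hB)
  set h := (charDegree (χ : G → ℂ)).factorization p - minExp p B with hh
  set d := blockDefect p B with hd
  have hcop : ∀ x ∈ X, ∀ v : (ZMod (p ^ s))ˣ, ((v : ZMod (p ^ s)).val).Coprime (orderOf x) := by
    intro x hx v
    exact Nat.Coprime.coprime_dvd_right (orderOf_dvd_of_pow_eq_one (hs x (hX x hx)))
      (ZMod.val_coe_unit_coprime v)
  have hord : ∀ x ∈ X, ∀ v : (ZMod (p ^ s))ˣ, ∃ k : ℕ,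
      orderOf (x ^ (v : ZMod (p ^ s)).val) = p ^ k := fun x hx v => isPElt_pow hp (hX x hx) _
  have hcen : ∀ x ∈ X, ∀ v : (ZMod (p ^ s))ˣ, Subgroup.centralizer ({x} : Set G) =
      Subgroup.centralizer ({x ^ (v : ZMod (p ^ s)).val} : Set G) :=
    fun x hx v => (centralizer_pow_of_coprime x (hcop x hx v)).symm
  -- step 1
  have step1 : ∀ v : (ZMod (p ^ s))ˣ, ∑ x ∈ X, secSum p M B (χ : G → ℂ)
      (Subgroup.centralizer ({x} : Set G)) (x ^ (v : ZMod (p ^ s)).val) = 1 := by
    intro v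
    have hvw : (v : ZMod (p ^ s)).val * ((v⁻¹ : (ZMod (p ^ s))ˣ) : ZMod (p ^ s)).val ≡ 1
        [MOD p ^ s] := by
      rw [← ZMod.natCast_eq_natCast_iff]
      push_cast
      rw [ZMod.natCast_zmod_val, ZMod.natCast_zmod_val, Units.mul_inv]
    obtain ⟨h1, h2, h3⟩ := rep_pow hp hs X hX hXrep hvw
    have h4 := sum_secSum hM _ h1 h2 hB hχ
    rw [Finset.sum_image h3] at h4
    rw [← h4]
    apply Finset.sum_congr rfl
    intro x hx
    exact secSum_congr p M B _ (hcen x hx v) _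
  -- the real contributions
  set R : ∀ x : G, Set (IrrCharacter (Subgroup.centralizer ({x} : Set G))) →
      (ZMod (p ^ s))ˣ → ℝ := fun x β v => ∑ ψ ∈ Finset.univ.filter (· ∈ B),
    Complex.normSq (contrib p β (x ^ (v : ZMod (p ^ s)).val) (χ : G → ℂ) (ψ : G → ℂ)) with hR
  have hRnn : ∀ x β v, 0 ≤ R x β v := fun x β v =>
    Finset.sum_nonneg fun ψ _ => Complex.normSq_nonneg _
  have hReq : ∀ x ∈ X, ∀ β, IsInducedBlock M (Subgroup.centralizer ({x} : Set G)) β B →
      ∀ v : (ZMod (p ^ s))ˣ,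
      contrib p β (x ^ (v : ZMod (p ^ s)).val) (χ : G → ℂ) (χ : G → ℂ) = (R x β v : ℂ) := by
    intro x hx β hβ v
    obtain ⟨k, hk⟩ := hord x hx v
    exact contrib_self_eq hM hk (hcen x hx v) hβ χ
  have step2 : ∀ v : (ZMod (p ^ s))ˣ, ∑ x ∈ X,
      ∑ β ∈ (pblocks M (Subgroup.centralizer ({x} : Set G))).filter (fun β =>
        IsInducedBlock M (Subgroup.centralizer ({x} : Set G)) β B), R x β v = 1 := by
    intro v
    have h1 := step1 v
    have h2 : ((∑ x ∈ X,
      ∑ β ∈ (pblocks M (Subgroup.centralizer ({x} : Set G))).filter (fun β =>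
        IsInducedBlock M (Subgroup.centralizer ({x} : Set G)) β B), R x β v : ℝ) : ℂ) = 1 := by
      rw [← h1]
      push_cast
      apply Finset.sum_congr rfl
      intro x hx
      rw [secSum]
      apply Finset.sum_congr rfl
      intro β hβ
      rw [hReq x hx β (Finset.mem_filter.mp hβ).2 v]
    exact_mod_cast h2
  -- step 3
  have step3 : ∀ x ∈ X, ∀ β, IsInducedBlock M (Subgroup.centralizer ({x} : Set G)) β B →
      blockDefect p β = d →
      (Fintype.card (ZMod (p ^ s))ˣ : ℝ) * (p : ℝ) ^ h ≤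
        ∑ v : (ZMod (p ^ s))ˣ, (p : ℝ) ^ d * R x β v := by
    intro x hx β hβ hβd
    have hyH : x ∈ Subgroup.centralizer ({x} : Set G) :=
      Subgroup.mem_centralizer_singleton_iff.2 rfl
    have hyc : ∀ c ∈ Subgroup.centralizer ({x} : Set G), x * c = c * x := fun c hc =>
      (Subgroup.mem_centralizer_singleton_iff.1 hc).symm
    obtain ⟨N, hN⟩ := exists_galois_form hp β χ χ hyH hyc
    refine card_units_mul_le_sum_of_pos hM (p ^ s) N
      (fun i => lam (i.1 : Subgroup.centralizer ({x} : Set G) → ℂ) ⟨x, hyH⟩ *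
        conj (lam (i.2 : Subgroup.centralizer ({x} : Set G) → ℂ) ⟨x, hyH⟩)) ?_
      (fun v => (p : ℝ) ^ d * R x β v) ?_ ?_ h ?_
    · intro i
      rw [mul_pow, ← map_pow, lam_pow_eq_one hyH hyc (hs x (hX x hx)),
        lam_pow_eq_one hyH hyc (hs x (hX x hx)), map_one, one_mul]
    · intro v
      apply mul_pos (pow_pos (by exact_mod_cast hp.pos) _)
      obtain ⟨k, hk⟩ := hord x hx v
      have h1 := (contrib_major hM hk (hcen x hx v) hβ hβd hχ hψ hmin).2
      have h2 : contrib p β (x ^ (v : ZMod (p ^ s)).val) (χ : G → ℂ) (ψ : G → ℂ) ≠ 0 := by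
        intro h0
        apply h1
        rw [h0, mul_zero, zero_div]
        exact memLocalIdeal_zero htop
      calc 0 < Complex.normSq (contrib p β (x ^ (v : ZMod (p ^ s)).val) (χ : G → ℂ)
            (ψ : G → ℂ)) := Complex.normSq_pos.mpr h2
        _ ≤ R x β v := Finset.single_le_sum
            (f := fun ψ : IrrCharacter G =>
              Complex.normSq (contrib p β (x ^ (v : ZMod (p ^ s)).val) (χ : G → ℂ) (ψ : G → ℂ)))
            (fun ψ _ => Complex.normSq_nonneg _) (Finset.mem_filter.2 ⟨Finset.mem_univ _, hψ⟩)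
    · intro v
      rw [← hN, hβd, hReq x hx β hβ v]
      push_cast
      rfl
    · intro v
      obtain ⟨k, hk⟩ := hord x hx v
      have h1 := memLocalRing_mul (memLocalRing_sdeg_div hM hχ)
        (memLocalRing_scaled_contrib hM hk (hcen x hx v) hβ.1 χ χ)
      have h2 : sdeg p B (χ : G → ℂ) / (p : ℂ) ^ h * ((Nat.card G : ℂ) *
          contrib p β (x ^ (v : ZMod (p ^ s)).val) (χ : G → ℂ) (χ : G → ℂ) / (χ : G → ℂ) 1) =
          (((p : ℝ) ^ d * R x β v : ℝ) : ℂ) / (p : ℂ) ^ h := by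
        rw [hReq x hx β hβ v, sdeg]
        have h4 : (Nat.card G : ℂ) ≠ 0 := card_ne_zero_complex
        have h5 := irr_apply_one_ne_zero χ
        have h6 : (p : ℂ) ^ h ≠ 0 := pow_ne_zero _ (by exact_mod_cast hp.ne_zero)
        push_cast
        field_simp
        rw [mul_comm]
      rwa [h2] at h1
  -- combine
  have hφ : (0 : ℝ) < (Fintype.card (ZMod (p ^ s))ˣ : ℝ) := by
    exact_mod_cast Fintype.card_pos
  have hsub : ∀ x : G, (pblocks M (Subgroup.centralizer ({x} : Set G))).filter (fun β =>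
      IsInducedBlock M (Subgroup.centralizer ({x} : Set G)) β B ∧ blockDefect p β = d) ⊆
      (pblocks M (Subgroup.centralizer ({x} : Set G))).filter (fun β =>
      IsInducedBlock M (Subgroup.centralizer ({x} : Set G)) β B) := by
    intro x β hβ
    obtain ⟨h1, h2, -⟩ := Finset.mem_filter.mp hβ
    exact Finset.mem_filter.mpr ⟨h1, h2⟩
  have key : ((∑ x ∈ X, ((pblocks M (Subgroup.centralizer ({x} : Set G))).filter (fun β =>
      IsInducedBlock M (Subgroup.centralizer ({x} : Set G)) β B ∧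
        blockDefect p β = d)).card : ℕ) : ℝ) * ((Fintype.card (ZMod (p ^ s))ˣ : ℝ) * (p : ℝ) ^ h) ≤
      (Fintype.card (ZMod (p ^ s))ˣ : ℝ) * (p : ℝ) ^ d := by
    calc ((∑ x ∈ X, ((pblocks M (Subgroup.centralizer ({x} : Set G))).filter (fun β =>
          IsInducedBlock M (Subgroup.centralizer ({x} : Set G)) β B ∧
          blockDefect p β = d)).card : ℕ) : ℝ) *
          ((Fintype.card (ZMod (p ^ s))ˣ : ℝ) * (p : ℝ) ^ h)
        = ∑ x ∈ X, ∑ _β ∈ (pblocks M (Subgroup.centralizer ({x} : Set G))).filter (fun β =>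
          IsInducedBlock M (Subgroup.centralizer ({x} : Set G)) β B ∧ blockDefect p β = d),
          ((Fintype.card (ZMod (p ^ s))ˣ : ℝ) * (p : ℝ) ^ h) := by
          push_cast
          rw [Finset.sum_mul]
          apply Finset.sum_congr rfl
          intro x _
          rw [Finset.sum_const, nsmul_eq_mul]
      _ ≤ ∑ x ∈ X, ∑ β ∈ (pblocks M (Subgroup.centralizer ({x} : Set G))).filter (fun β =>
          IsInducedBlock M (Subgroup.centralizer ({x} : Set G)) β B ∧ blockDefect p β = d),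
          ∑ v : (ZMod (p ^ s))ˣ, (p : ℝ) ^ d * R x β v := by
          apply Finset.sum_le_sum
          intro x hx
          apply Finset.sum_le_sum
          intro β hβ
          obtain ⟨-, h2, h3⟩ := Finset.mem_filter.mp hβ
          exact step3 x hx β h2 h3
      _ ≤ ∑ x ∈ X, ∑ β ∈ (pblocks M (Subgroup.centralizer ({x} : Set G))).filter (fun β =>
          IsInducedBlock M (Subgroup.centralizer ({x} : Set G)) β B),
          ∑ v : (ZMod (p ^ s))ˣ, (p : ℝ) ^ d * R x β v := by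
          apply Finset.sum_le_sum
          intro x _
          apply Finset.sum_le_sum_of_subset_of_nonneg (hsub x)
          intro β _ _
          exact Finset.sum_nonneg fun v _ =>
            mul_nonneg (pow_nonneg (by exact_mod_cast hp.pos.le) _) (hRnn x β v)
      _ = ∑ v : (ZMod (p ^ s))ˣ, (p : ℝ) ^ d * ∑ x ∈ X,
          ∑ β ∈ (pblocks M (Subgroup.centralizer ({x} : Set G))).filter (fun β =>
          IsInducedBlock M (Subgroup.centralizer ({x} : Set G)) β B), R x β v := by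
          simp only [Finset.mul_sum]
          rw [Finset.sum_comm]
          apply Finset.sum_congr rfl
          intro x _
          rw [Finset.sum_comm]
      _ = _ := by
          simp only [step2, mul_one, Finset.sum_const, nsmul_eq_mul, Finset.card_univ]
  have key2 : ((∑ x ∈ X, ((pblocks M (Subgroup.centralizer ({x} : Set G))).filter (fun β =>
      IsInducedBlock M (Subgroup.centralizer ({x} : Set G)) β B ∧
        blockDefect p β = d)).card : ℕ) : ℝ) * (p : ℝ) ^ h ≤ (p : ℝ) ^ d := by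
    have : (Fintype.card (ZMod (p ^ s))ˣ : ℝ) * (((∑ x ∈ X,
      ((pblocks M (Subgroup.centralizer ({x} : Set G))).filter (fun β =>
      IsInducedBlock M (Subgroup.centralizer ({x} : Set G)) β B ∧
        blockDefect p β = d)).card : ℕ) : ℝ) * (p : ℝ) ^ h) ≤
        (Fintype.card (ZMod (p ^ s))ˣ : ℝ) * (p : ℝ) ^ d := by
      calc _ = _ := by ring
        _ ≤ _ := key
    exact le_of_mul_le_mul_left this hφ
  exact_mod_cast key2

end Cfsg.Agent.H6.HeightBound
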