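import Cfsg.Agent.Lib.Helper23.Contrib4

/-!
# Major subsections: all contribution numbers against a character of height zero are nonzero
-/

set_option autoImplicit false
open Cfsg Cfsg.Agent.CharLib Cfsg.Agent.BlockLib Cfsg.Agent.Lib.Helper23 Cfsg.Agent.Lib.Helper23.MinMax
  Cfsg.Agent.Lib.Helper23.Trunc Cfsg.Agent.H6.BlockSection Cfsg.Agent.Lib.Helper23.Sect
  Cfsg.Agent.Lib.Helper23.Subsect Cfsg.Agent.Lib.Helper23.Contrib
open scoped ComplexConjugate

namespace Cfsg.Agent.H6.MajorSub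

universe u
variable {G : Type u} [Group G] [Fintype G]

open Classical in
/-- extension by zero, shifted by `z` -/
noncomputable def shiftExt (H : Subgroup G) (z : G) (θ : H → ℂ) : G → ℂ :=
  fun y => if h : z⁻¹ * y ∈ H then θ ⟨z⁻¹ * y, h⟩ else 0

/-- transplant of a function on `H = C(z)` to the `p`-section of `z` -/
noncomputable def transp (H : Subgroup G) (z : G) (θ : H → ℂ) : G → ℂ :=
  fun g => (Nat.card H : ℂ)⁻¹ * ∑ x : G, shiftExt H z θ (x⁻¹ * g * x)

theorem isClassFunction_transp (H : Subgroup G) (z : G) (θ : H → ℂ) :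
    IsClassFunction G (transp H z θ) := by
  intro g a
  unfold transp
  congr 1
  rw [← Equiv.sum_comp (Equiv.mulLeft a)]
  apply Finset.sum_congr rfl
  intro x _
  congr 1
  simp only [Equiv.coe_mulLeft]
  group

theorem sum_shiftExt_mul (H : Subgroup G) [Fintype H] (z : G) (θ : H → ℂ) (χ : G → ℂ) :
    ∑ y : G, shiftExt H z θ y * χ y = ∑ c : H, θ c * χ (z * c) := by
  classical
  rw [← Equiv.sum_comp (Equiv.mulLeft z)]
  have h1 : ∀ y : G, shiftExt H z θ ((Equiv.mulLeft z) y) * χ ((Equiv.mulLeft z) y) =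
      if h : y ∈ H then θ ⟨y, h⟩ * χ (z * y) else 0 := by
    intro y
    simp only [Equiv.coe_mulLeft, shiftExt, inv_mul_cancel_left]
    split_ifs <;> simp
  simp only [h1]
  rw [Finset.sum_dite, Finset.sum_const_zero, add_zero]
  symm
  refine Finset.sum_bij (fun (c : H) _ => (⟨(c : G), Finset.mem_filter.2 ⟨Finset.mem_univ _, c.2⟩⟩ :
    {x // x ∈ Finset.univ.filter (fun y : G => y ∈ H)})) ?_ ?_ ?_ ?_
  · intro c _; exact Finset.mem_attach _ _
  · intro c _ c' _ h
    exact Subtype.ext (congrArg (fun t : {x // x ∈ Finset.univ.filter (fun y : G => y ∈ H)} =>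
      (t : G)) h)
  · intro y _
    exact ⟨⟨y.1, (Finset.mem_filter.1 y.2).2⟩, Finset.mem_univ _, rfl⟩
  · intro c _; rfl

theorem omega_transp (H : Subgroup G) [Fintype H] (z : G) (θ : H → ℂ) {χ : G → ℂ}
    (hχ : IsClassFunction G χ) :
    omega χ (transp H z θ) =
      (Nat.card G : ℂ) * ((Nat.card H : ℂ)⁻¹ * ∑ c : H, θ c * χ (z * c)) / χ 1 := by
  rw [omega]
  congr 1
  unfold transp
  have h1 : ∀ g : G, (Nat.card H : ℂ)⁻¹ * (∑ x : G, shiftExt H z θ (x⁻¹ * g * x)) * χ g =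
      (Nat.card H : ℂ)⁻¹ * ∑ x : G, shiftExt H z θ (x⁻¹ * g * x) * χ (x⁻¹ * g * x) := by
    intro g
    rw [mul_assoc, Finset.sum_mul]
    congr 1
    apply Finset.sum_congr rfl
    intro x _
    have := hχ g x⁻¹
    rw [inv_inv] at this
    rw [this]
  simp only [h1]
  rw [← Finset.mul_sum, Finset.sum_comm]
  have h2 : ∀ x : G, ∑ g : G, shiftExt H z θ (x⁻¹ * g * x) * χ (x⁻¹ * g * x) =
      ∑ c : H, θ c * χ (z * c) := by
    intro x
    rw [← sum_shiftExt_mul]
    exact Equiv.sum_comp (MulAut.conj x⁻¹).toEquiv (fun y => shiftExt H z θ y * χ y) |>.symm ▸ (by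
      apply Finset.sum_congr rfl
      intro g _
      simp [MulAut.conj_apply])
  simp only [h2]
  rw [Finset.sum_const, Finset.card_univ, nsmul_eq_mul, Nat.card_eq_fintype_card (α := G)]
  ring

theorem transp_eq_of_ne {p : ℕ} (hp : p.Prime) {z : G} {k : ℕ} (hz : orderOf z = p ^ k)
    {H : Subgroup G} (hH : H = Subgroup.centralizer ({z} : Set G)) {θ : H → ℂ}
    (hθ : IsClassFunction H θ) (hsing : ∀ c : H, p ∣ orderOf c → θ c = 0) (g x0 : G)
    (h0 : z⁻¹ * (x0⁻¹ * g * x0) ∈ H) (hne : θ ⟨_, h0⟩ ≠ 0) :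
    transp H z θ g = θ ⟨_, h0⟩ := by
  classical
  haveI : Fintype H := Fintype.ofFinite H
  have hcomm : ∀ h ∈ H, z * h = h * z := by
    intro h hh
    rw [hH, Subgroup.mem_centralizer_singleton_iff] at hh
    exact hh.symm
  have hpp : ∀ x : G, ∀ hx : z⁻¹ * (x⁻¹ * g * x) ∈ H, θ ⟨_, hx⟩ ≠ 0 →
      IsPPart p g (x * z * x⁻¹) := by
    intro x hx hne'
    have hreg : ¬ p ∣ orderOf (z⁻¹ * (x⁻¹ * g * x)) := by
      intro hd
      apply hne'
      apply hsing
      rwa [Subgroup.orderOf_mk]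
    refine ⟨x * (z⁻¹ * (x⁻¹ * g * x)) * x⁻¹, by group, ?_, ⟨k, ?_⟩, ?_⟩
    · have := hcomm _ hx
      show (x * z * x⁻¹) * (x * (z⁻¹ * (x⁻¹ * g * x)) * x⁻¹) =
        (x * (z⁻¹ * (x⁻¹ * g * x)) * x⁻¹) * (x * z * x⁻¹)
      calc (x * z * x⁻¹) * (x * (z⁻¹ * (x⁻¹ * g * x)) * x⁻¹)
          = x * (z * (z⁻¹ * (x⁻¹ * g * x))) * x⁻¹ := by group
        _ = x * ((z⁻¹ * (x⁻¹ * g * x)) * z) * x⁻¹ := by rw [this]
        _ = _ := by group
    · rw [orderOf_conj', hz]
    · rwa [orderOf_conj']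
  have key : ∀ x : G, shiftExt H z θ (x⁻¹ * g * x) =
      if x0⁻¹ * x ∈ H then θ ⟨_, h0⟩ else 0 := by
    intro x
    split_ifs with hx
    · have e : z⁻¹ * (x⁻¹ * g * x) =
          (x0⁻¹ * x)⁻¹ * (z⁻¹ * (x0⁻¹ * g * x0)) * (x0⁻¹ * x)⁻¹⁻¹ := by
        have h1 := hcomm _ (H.inv_mem hx)
        have h2 : z⁻¹ * (x0⁻¹ * x)⁻¹ = (x0⁻¹ * x)⁻¹ * z⁻¹ := by
          have : Commute z (x0⁻¹ * x)⁻¹ := h1
          exact this.inv_left.eq
        calc z⁻¹ * (x⁻¹ * g * x) = (z⁻¹ * (x0⁻¹ * x)⁻¹) * (x0⁻¹ * g * x0) * (x0⁻¹ * x) := by group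
          _ = ((x0⁻¹ * x)⁻¹ * z⁻¹) * (x0⁻¹ * g * x0) * (x0⁻¹ * x) := by rw [h2]
          _ = _ := by group
      have hmem : z⁻¹ * (x⁻¹ * g * x) ∈ H := by
        rw [e]
        exact H.mul_mem (H.mul_mem (H.inv_mem hx) h0) (H.inv_mem (H.inv_mem hx))
      rw [shiftExt, dif_pos hmem]
      have := hθ ⟨_, h0⟩ (⟨x0⁻¹ * x, hx⟩ : H)⁻¹
      rw [← this]
      congr 1
      exact Subtype.ext e
    · rw [shiftExt]
      split_ifs with hmem
      · by_contra hne'
        apply hx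
        have h1 := Cfsg.Agent.H6.isPPart_unique hp (hpp x hmem hne') (hpp x0 h0 hne)
        rw [hH, Subgroup.mem_centralizer_singleton_iff]
        calc x0⁻¹ * x * z = x0⁻¹ * (x * z * x⁻¹) * x := by group
          _ = x0⁻¹ * (x0 * z * x0⁻¹) * x := by rw [h1]
          _ = _ := by group
      · rfl
  unfold transp
  simp only [key]
  have hre : (∑ x : G, if x0⁻¹ * x ∈ H then θ ⟨_, h0⟩ else 0) =
      ∑ y : G, if y ∈ H then θ ⟨_, h0⟩ else 0 :=
    Equiv.sum_comp (Equiv.mulLeft x0⁻¹) (fun y => if y ∈ H then θ ⟨_, h0⟩ else 0)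
  rw [hre,
    ← Finset.sum_filter, Finset.sum_const, nsmul_eq_mul, ← Fintype.card_subtype,
    Nat.card_eq_fintype_card]
  have hc : (Fintype.card H : ℂ) ≠ 0 := by
    exact_mod_cast Fintype.card_ne_zero
  have e : Fintype.card { x // x ∈ H } = Fintype.card H := by
    apply Fintype.card_congr
    exact Equiv.refl _
  rw [e, inv_mul_cancel_left₀ hc]

theorem memLocalRing_transp {p : ℕ} {M : Ideal AlgInt} (hM : IsPModular p M) {z : G} {k : ℕ}
    (hz : orderOf z = p ^ k)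
    {H : Subgroup G} (hH : H = Subgroup.centralizer ({z} : Set G)) {θ : H → ℂ}
    (hθ : IsClassFunction H θ) (hsing : ∀ c : H, p ∣ orderOf c → θ c = 0)
    (hR : ∀ c, MemLocalRing M (θ c)) (g : G) : MemLocalRing M (transp H z θ g) := by
  classical
  have htop := ne_top_of_isPModular hM
  by_cases hex : ∃ x0 : G, ∃ h0 : z⁻¹ * (x0⁻¹ * g * x0) ∈ H, θ ⟨_, h0⟩ ≠ 0
  · obtain ⟨x0, h0, hne⟩ := hex
    rw [transp_eq_of_ne hM.1 hz hH hθ hsing g x0 h0 hne]
    exact hR _
  · push Not at hex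
    have : transp H z θ g = 0 := by
      unfold transp
      apply mul_eq_zero_of_right
      apply Finset.sum_eq_zero
      intro x _
      rw [shiftExt]
      split_ifs with h
      · exact hex x h
      · rfl
    rw [this]
    exact memLocalRing_zero htop

theorem contrib_conj (p : ℕ) {H : Subgroup G} [Fintype H] (b : Set (IrrCharacter H)) (z : G)
    (χ ψ : G → ℂ) : conj (contrib p b z ψ χ) = contrib p b z χ ψ := by
  rw [contrib, contrib, classInner, classInner, map_mul, map_inv₀, Complex.conj_natCast, map_sum]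
  congr 1
  apply Finset.sum_congr rfl
  intro c _
  rw [map_mul, Complex.conj_conj, trunc_apply, trunc_apply]
  split_ifs <;> simp [mul_comm]

/-- the conjugate of the truncated `b`-part of `ψ(z ·)` -/
noncomputable def cpart (p : ℕ) {H : Subgroup G} (b : Set (IrrCharacter H)) (z : G)
    (ψ : G → ℂ) : H → ℂ :=
  fun c => conj (trunc p 1 (blockPart b (fun c : H => ψ (z * c))) c)

theorem isClassFunction_cpart (p : ℕ) {H : Subgroup G} [Fintype H] (b : Set (IrrCharacter H))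
    (z : G) (ψ : G → ℂ) : IsClassFunction H (cpart p b z ψ) := by
  intro c d
  unfold cpart
  rw [isClassFunction_trunc p 1 (isClassFunction_blockPart b _) c d]

theorem cpart_singular (p : ℕ) {H : Subgroup G} (b : Set (IrrCharacter H))
    (z : G) (ψ : G → ℂ) (c : H) (hc : p ∣ orderOf c) : cpart p b z ψ c = 0 := by
  unfold cpart
  rw [trunc_apply, if_pos hc, map_zero]

theorem memLocalRing_cpart {p : ℕ} {M : Ideal AlgInt} (hM : IsPModular p M) {H : Subgroup G}
    [Fintype H] (b : Set (IrrCharacter H)) {z : G} (hzH : z ∈ H)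
    (hz : ∀ h ∈ H, z * h = h * z) {k : ℕ} (hzk : z ^ (p ^ k) = 1) (ψ : IrrCharacter G) (c : H) :
    MemLocalRing M (cpart p b z (ψ : G → ℂ) c) := by
  classical
  have hMp := isPrime_of_isPModular hM
  have htop := ne_top_of_isPModular hM
  unfold cpart
  rw [trunc_apply]
  split_ifs with hc
  · rw [map_zero]; exact memLocalRing_zero htop
  · rw [one_mul, blockPart_eq_sum_smul, Finset.sum_apply, map_sum]
    apply memLocalRing_sum
    intro ξ _
    rw [Pi.smul_apply, smul_eq_mul, map_mul, conj_coef ψ hzH hz,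
      ← isCharacter_inv (isCharacter_of_irr ξ.2)]
    have hz' : ∀ h ∈ H, z⁻¹ * h = h * z⁻¹ := fun h hh =>
      ((show Commute z h from hz h hh).inv_left).eq
    exact memLocalRing_mul (memLocalRing_coef ψ (H.inv_mem hzH) hz' (pow_pos hM.1.pos k)
      (by rw [inv_pow, hzk, inv_one]) ξ)
      (memLocalRing_of_isIntegral htop (isCharacter_isIntegral (isCharacter_of_irr ξ.2) _))

theorem omega_transp_cpart {p : ℕ} {M : Ideal AlgInt} (hM : IsPModular p M) {H : Subgroup G}
    [Fintype H] {b : Set (IrrCharacter H)} (hb : IsPBlock M b) {z : G}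
    (hz : ∀ h ∈ H, z * h = h * z) (χ ψ : IrrCharacter G) :
    omega (χ : G → ℂ) (transp H z (cpart p b z (ψ : G → ℂ))) =
      (Nat.card G : ℂ) * contrib p b z (χ : G → ℂ) (ψ : G → ℂ) / (χ : G → ℂ) 1 := by
  rw [omega_transp H z _ (isClassFunction_of_irr χ.2), ← contrib_conj, contrib,
    classInner_trunc_blockPart_eq hM hb _ (isClassFunction_shift' (isClassFunction_of_irr χ.2) hz),
    classInner, map_mul, map_inv₀, Complex.conj_natCast, map_sum]
  congr 3
  apply Finset.sum_congr rfl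
  intro c _
  rw [map_mul, Complex.conj_conj]
  rfl

/-- **Brauer**: for a major subsection `(z, b)`, `χ ∈ B` and `ψ ∈ B` of height zero, the number
`|G| m_{χψ} / χ(1)` is a local unit. -/
theorem contrib_major {p : ℕ} {M : Ideal AlgInt} (hM : IsPModular p M) {z : G} {k : ℕ}
    (hz : orderOf z = p ^ k) {H : Subgroup G} [Fintype H]
    (hH : H = Subgroup.centralizer ({z} : Set G)) {b : Set (IrrCharacter H)}
    {B : Set (IrrCharacter G)} (hind : IsInducedBlock M H b B)
    (hd : blockDefect p b = blockDefect p B) {χ ψ : IrrCharacter G} (hχ : χ ∈ B) (hψ : ψ ∈ B)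
    (hh : (charDegree (ψ : G → ℂ)).factorization p = minExp p B) :
    MemLocalRing M ((Nat.card G : ℂ) * contrib p b z (χ : G → ℂ) (ψ : G → ℂ) / (χ : G → ℂ) 1) ∧
    ¬ MemLocalIdeal M
      ((Nat.card G : ℂ) * contrib p b z (χ : G → ℂ) (ψ : G → ℂ) / (χ : G → ℂ) 1) := by
  have hMp := isPrime_of_isPModular hM
  have htop := ne_top_of_isPModular hM
  have hzH : z ∈ H := by rw [hH, Subgroup.mem_centralizer_singleton_iff]
  have hzc : ∀ h ∈ H, z * h = h * z := by
    intro h hh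
    rw [hH, Subgroup.mem_centralizer_singleton_iff] at hh
    exact hh.symm
  have hzk : z ^ (p ^ k) = 1 := by rw [← hz, pow_orderOf_eq_one]
  have hcl := isClassFunction_transp H z (cpart p b z (ψ : G → ℂ))
  have hR := memLocalRing_transp hM hz hH (isClassFunction_cpart p b z (ψ : G → ℂ))
    (cpart_singular p b z (ψ : G → ℂ)) (memLocalRing_cpart hM b hzH hzc hzk ψ)
  rw [← omega_transp_cpart hM hind.1 hzc χ ψ]
  refine ⟨memLocalRing_omega χ.2 hcl hR, ?_⟩
  intro hcon
  have hsub := memLocalIdeal_omega_sub (isClassFunction_of_irr χ.2) (isClassFunction_of_irr ψ.2)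
    (sameBlock_of_mem hind.2.1 hχ hψ) hcl hR
  have h1 : MemLocalIdeal M (omega (ψ : G → ℂ) (transp H z (cpart p b z (ψ : G → ℂ)))) := by
    have := memLocalIdeal_sub hcon hsub
    rwa [sub_sub_cancel] at this
  rw [omega_transp_cpart hM hind.1 hzc ψ ψ] at h1
  apply contrib_unit hM hind hψ hh hψ hh hzH hzc hzk
  have h2 := memLocalIdeal_mul_left (memLocalRing_sdeg hM hψ) h1
  have h3 : sdeg p B (ψ : G → ℂ) *
      ((Nat.card G : ℂ) * contrib p b z (ψ : G → ℂ) (ψ : G → ℂ) / (ψ : G → ℂ) 1) =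
      (p : ℂ) ^ blockDefect p b * contrib p b z (ψ : G → ℂ) (ψ : G → ℂ) := by
    rw [sdeg, hd]
    have h4 : (Nat.card G : ℂ) ≠ 0 := card_ne_zero_complex
    have h5 := irr_apply_one_ne_zero ψ
    field_simp
  rwa [h3] at h2

end Cfsg.Agent.H6.MajorSub
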