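import Cfsg.Agent.H6.MajorSub

/-!
# Major subsections: `k(B) ≤ p^d l(b)`
-/

set_option autoImplicit false
open Cfsg Cfsg.Agent.CharLib Cfsg.Agent.CharLib.L Cfsg.Agent.BlockLib Cfsg.Agent.Lib.Helper23
  Cfsg.Agent.Lib.Helper23.MinMax
  Cfsg.Agent.Lib.Helper23.Trunc Cfsg.Agent.H6.BlockSection Cfsg.Agent.Lib.Helper23.Sect
  Cfsg.Agent.Lib.Helper23.Subsect Cfsg.Agent.Lib.Helper23.Contrib
open scoped ComplexConjugate

namespace Cfsg.Agent.H6.MajorSub

/-- the norm of a cyclotomic integer is a rational integer -/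
theorem exists_int_prod {ι : Type*} [Fintype ι] (n : ℕ) [NeZero n] (N : ι → ℤ)
    (ρ : ι → ℂ) (hρ : ∀ i, ρ i ^ n = 1) :
    ∃ k : ℤ, ∏ u : (ZMod n)ˣ, ∑ i, (N i : ℂ) * ρ i ^ (u : ZMod n).val = k := by
  classical
  have hn0 : 0 < n := Nat.pos_of_ne_zero (NeZero.ne n)
  let r : ι → QBar := fun i => ⟨ρ i, mem_QBar_of_pow_eq_one hn0 (hρ i)⟩
  have hr : ∀ i, r i ^ n = 1 := fun i => Subtype.ext (by simpa [r] using hρ i)
  let y : (ZMod n)ˣ → QBar := fun u => ∑ i, (N i : QBar) * r i ^ (u : ZMod n).val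
  have hy : ∀ u, (y u : ℂ) = ∑ i, (N i : ℂ) * ρ i ^ (u : ZMod n).val := by
    intro u
    simp [y, r]
  let P : QBar := ∏ u, y u
  have hPc : (P : ℂ) = ∏ u : (ZMod n)ˣ, ∑ i, (N i : ℂ) * ρ i ^ (u : ZMod n).val := by
    simp only [P]
    rw [← Finset.prod_congr rfl (fun u _ => hy u)]
    simp
  have hfix : ∀ φ : QBar →ₐ[ℚ] ℂ, φ P = (P : ℂ) := by
    intro φ
    obtain ⟨m, hm, hφ⟩ := exists_pow_of_algHom n hn0 φ
    let um : (ZMod n)ˣ := ZMod.unitOfCoprime m hm
    have h1 : ∀ u : (ZMod n)ˣ, φ (y u) =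
        ∑ i, (N i : ℂ) * ρ i ^ ((u * um : (ZMod n)ˣ) : ZMod n).val := by
      intro u
      simp only [y, map_sum, map_mul, map_pow, map_intCast]
      apply Finset.sum_congr rfl
      intro i _
      rw [hφ (r i) (hr i)]
      congr 1
      show (ρ i ^ m) ^ (u : ZMod n).val = _
      rw [← pow_mul, Units.val_mul, ZMod.val_mul, ZMod.coe_unitOfCoprime, ZMod.val_natCast,
        GalAvg.pow_eq_pow_mod' (hρ i), ← GalAvg.pow_eq_pow_mod' (hρ i) (m * _),
        ← GalAvg.pow_eq_pow_mod' (hρ i) (_ * (m % n)), Nat.mul_mod, Nat.mul_mod _ (m % n),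
        Nat.mod_mod, mul_comm]
    rw [hPc]
    simp only [P, map_prod, h1]
    exact Fintype.prod_equiv (Equiv.mulRight um) _ _ (fun u => rfl)
  obtain ⟨q, hq⟩ := exists_rat_of_fixed P hfix
  have hint : IsIntegral ℤ (P : ℂ) := by
    rw [hPc]
    refine IsIntegral.prod _ fun u _ => IsIntegral.sum _ fun i _ => IsIntegral.mul ?_ ?_
    · exact isIntegral_algebraMap (R := ℤ) (A := ℂ) (x := N i) |> fun h => by simpa using h
    · exact IsIntegral.pow (IsIntegral.of_pow hn0 (by rw [hρ i]; exact isIntegral_one)) _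
  obtain ⟨k, hk⟩ := exists_int_of_isIntegral_of_rat hint hq
  exact ⟨k, by rw [← hPc, hk]⟩

/-- a totally positive cyclotomic integer has trace at least its degree -/
theorem card_units_le_sum_of_pos {ι : Type*} [Fintype ι] (n : ℕ) [NeZero n] (N : ι → ℤ)
    (ρ : ι → ℂ) (hρ : ∀ i, ρ i ^ n = 1) (r : (ZMod n)ˣ → ℝ) (hr : ∀ u, 0 < r u)
    (h : ∀ u : (ZMod n)ˣ, ∑ i, (N i : ℂ) * ρ i ^ (u : ZMod n).val = (r u : ℂ)) :
    (Fintype.card (ZMod n)ˣ : ℝ) ≤ ∑ u, r u := by
  refine card_le_sum_of_one_le_prod _ hr ?_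
  obtain ⟨k, hk⟩ := exists_int_prod n N ρ hρ
  simp only [h] at hk
  have hk' : ∏ u, r u = (k : ℝ) := by
    have : ((∏ u, r u : ℝ) : ℂ) = ((k : ℝ) : ℂ) := by
      push_cast
      exact hk
    exact_mod_cast this
  have hpos : 0 < ∏ u, r u := Finset.prod_pos fun u _ => hr u
  rw [hk'] at hpos ⊢
  have : 0 < k := by exact_mod_cast hpos
  exact_mod_cast this

universe u
variable {G : Type u} [Group G] [Fintype G]

open Classical in
/-- `k(B) ≤ p^d l(b)` for every major subsection `(y, b)` of `B` -/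
theorem card_le_of_major {p : ℕ} [Fact p.Prime] {M : Ideal AlgInt} (hM : IsPModular p M)
    {y : G} {s : ℕ} (hy : orderOf y = p ^ s) [Fintype (Subgroup.centralizer ({y} : Set G))]
    {b : Set (IrrCharacter (Subgroup.centralizer ({y} : Set G)))}
    {B : Set (IrrCharacter G)}
    (hind : IsInducedBlock M (Subgroup.centralizer ({y} : Set G)) b B)
    (hd : blockDefect p b = blockDefect p B) :
    Nat.card B ≤ p ^ blockDefect p B * blockRank p b := by
  have hp : p.Prime := hM.1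
  have htop := ne_top_of_isPModular hM
  set F := Finset.univ.filter (fun χ : IrrCharacter G => χ ∈ B) with hF
  have hn0 : p ^ s ≠ 0 := pow_ne_zero _ hp.ne_zero
  have : NeZero (p ^ s) := ⟨hn0⟩
  have hyH : y ∈ Subgroup.centralizer ({y} : Set G) := Subgroup.mem_centralizer_singleton_iff.2 rfl
  have hyc : ∀ h ∈ Subgroup.centralizer ({y} : Set G), y * h = h * y := fun h hh =>
    (Subgroup.mem_centralizer_singleton_iff.1 hh).symm
  have hys : y ^ (p ^ s) = 1 := by rw [← hy, pow_orderOf_eq_one]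
  obtain ⟨ψ, hψ, hmin⟩ := exists_minExp (p := p) (nonempty_of_isPBlock htop hind.2.1)
  have hord : ∀ v : (ZMod (p ^ s))ˣ, orderOf (y ^ (v : ZMod (p ^ s)).val) = p ^ s := by
    intro v
    have hcop : ((v : ZMod (p ^ s)).val).Coprime (orderOf y) := by
      rw [hy]; exact ZMod.val_coe_unit_coprime v
    rw [Nat.Coprime.orderOf_pow hcop.symm, hy]
  have hcen : ∀ v : (ZMod (p ^ s))ˣ, Subgroup.centralizer ({y} : Set G) =
      Subgroup.centralizer ({y ^ (v : ZMod (p ^ s)).val} : Set G) := by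
    intro v
    have hcop : ((v : ZMod (p ^ s)).val).Coprime (orderOf y) := by
      rw [hy]; exact ZMod.val_coe_unit_coprime v
    exact (centralizer_pow_of_coprime y hcop).symm
  set R : IrrCharacter G → (ZMod (p ^ s))ˣ → ℝ := fun χ v => ∑ ψ ∈ F,
    Complex.normSq (contrib p b (y ^ (v : ZMod (p ^ s)).val) (χ : G → ℂ) (ψ : G → ℂ)) with hR
  have hRpos : ∀ χ ∈ F, ∀ v, 0 < R χ v := by
    intro χ hχ v
    have hχB : χ ∈ B := (Finset.mem_filter.1 hχ).2
    have h1 := (contrib_major hM (hord v) (hcen v) hind hd hχB hψ hmin).2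
    have h2 : contrib p b (y ^ (v : ZMod (p ^ s)).val) (χ : G → ℂ) (ψ : G → ℂ) ≠ 0 := by
      intro h0
      apply h1
      rw [h0, mul_zero, zero_div]
      exact memLocalIdeal_zero htop
    calc 0 < Complex.normSq (contrib p b (y ^ (v : ZMod (p ^ s)).val) (χ : G → ℂ) (ψ : G → ℂ)) :=
          Complex.normSq_pos.mpr h2
      _ ≤ R χ v := Finset.single_le_sum
          (f := fun ψ : IrrCharacter G =>
            Complex.normSq (contrib p b (y ^ (v : ZMod (p ^ s)).val) (χ : G → ℂ) (ψ : G → ℂ)))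
          (fun ψ _ => Complex.normSq_nonneg _) (Finset.mem_filter.2 ⟨Finset.mem_univ _, hψ⟩)
  have hlow : ∀ χ ∈ F, (Fintype.card (ZMod (p ^ s))ˣ : ℝ) ≤
      ∑ v : (ZMod (p ^ s))ˣ, (p : ℝ) ^ blockDefect p b * R χ v := by
    intro χ hχ
    obtain ⟨N, hN⟩ := exists_galois_form hp b χ χ hyH hyc
    apply card_units_le_sum_of_pos (p ^ s) N _ _ _
      (fun v => mul_pos (pow_pos (by exact_mod_cast hp.pos) _) (hRpos χ hχ v))
    · intro v
      rw [← hN, contrib_self_eq hM (hord v) (hcen v) hind χ]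
      simp only [hR, hF]
      push_cast
      rfl
    · intro i
      rw [mul_pow, ← map_pow, lam_pow_eq_one hyH hyc hys, lam_pow_eq_one hyH hyc hys, map_one,
        one_mul]
  have hup : ∀ v : (ZMod (p ^ s))ˣ, ∑ χ ∈ F, (p : ℝ) ^ blockDefect p b * R χ v =
      (p : ℝ) ^ blockDefect p b * (blockRank p b : ℝ) := by
    intro v
    rw [← Finset.mul_sum, ← sum_normSq_contrib hM (hord v) (hcen v) hind]
  have hφ : (0 : ℝ) < (Fintype.card (ZMod (p ^ s))ˣ : ℝ) := by
    exact_mod_cast Fintype.card_pos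
  have h1 : (F.card : ℝ) * (Fintype.card (ZMod (p ^ s))ˣ : ℝ) ≤
      (Fintype.card (ZMod (p ^ s))ˣ : ℝ) * ((p : ℝ) ^ blockDefect p b * (blockRank p b : ℝ)) := by
    calc (F.card : ℝ) * (Fintype.card (ZMod (p ^ s))ˣ : ℝ)
        = ∑ χ ∈ F, (Fintype.card (ZMod (p ^ s))ˣ : ℝ) := by
          simp only [Finset.sum_const, nsmul_eq_mul]
      _ ≤ ∑ χ ∈ F, ∑ v : (ZMod (p ^ s))ˣ, (p : ℝ) ^ blockDefect p b * R χ v :=
          Finset.sum_le_sum fun χ hχ => hlow χ hχ
      _ = ∑ v : (ZMod (p ^ s))ˣ, ∑ χ ∈ F, (p : ℝ) ^ blockDefect p b * R χ v := Finset.sum_comm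
      _ = ∑ _v : (ZMod (p ^ s))ˣ, (p : ℝ) ^ blockDefect p b * (blockRank p b : ℝ) :=
          Finset.sum_congr rfl fun v _ => hup v
      _ = _ := by simp only [Finset.sum_const, nsmul_eq_mul, Finset.card_univ]
  have h2 : (F.card : ℝ) ≤ (p : ℝ) ^ blockDefect p b * (blockRank p b : ℝ) := by
    rw [mul_comm] at h1
    exact le_of_mul_le_mul_left h1 hφ
  have h3 : Nat.card B = F.card := by
    rw [Nat.card_eq_fintype_card, hF, ← Fintype.card_subtype]
  rw [h3, ← hd]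
  exact_mod_cast h2

end Cfsg.Agent.H6.MajorSub
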