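import Mathlib

/-! A matrix with a right inverse has a nonsingular maximal minor. -/

set_option autoImplicit false

namespace Cfsg.Agent.H6.MinorLemma

open Matrix

theorem exists_minor {k : Type*} [Field k] {r : ℕ} {β : Type*} [Fintype β] [DecidableEq β]
    (Λ : Matrix (Fin r) β k) (C : Matrix β (Fin r) k) (h : Λ * C = 1) :
    ∃ f : Fin r → β, Function.Injective f ∧ (Λ.submatrix id f).det ≠ 0 := by
  classical
  let col : β → (Fin r → k) := fun b j => Λ j b
  have hspan : Submodule.span k (Set.range col) = ⊤ := by
    rw [eq_top_iff]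
    intro v _
    have h1 : v = Λ *ᵥ (C *ᵥ v) := by
      rw [Matrix.mulVec_mulVec, h, Matrix.one_mulVec]
    have h2 : Λ *ᵥ (C *ᵥ v) = ∑ b, (C *ᵥ v) b • col b := by
      funext j
      simp only [Matrix.mulVec, dotProduct, Finset.sum_apply, Pi.smul_apply, smul_eq_mul, col]
      exact Finset.sum_congr rfl fun b _ => mul_comm _ _
    rw [h1, h2]
    exact Submodule.sum_mem _ fun b _ => Submodule.smul_mem _ _ (Submodule.subset_span ⟨b, rfl⟩)
  obtain ⟨s, hs, hss, hli⟩ := exists_linearIndependent k (Set.range col)
  rw [hspan] at hss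
  let bas : Module.Basis s k (Fin r → k) := Module.Basis.mk hli (by
    rw [Subtype.range_coe_subtype, Set.setOf_mem_eq, hss])
  haveI : Fintype s := FiniteDimensional.fintypeBasisIndex bas
  have hcard : Fintype.card s = r := by
    rw [← Module.finrank_eq_card_basis bas, Module.finrank_fin_fun]
  let e : Fin r ≃ s := (Fintype.equivFinOfCardEq hcard).symm
  have hex : ∀ i : Fin r, ∃ b : β, col b = (e i : Fin r → k) := fun i => hs (e i).2
  choose f hf using hex
  refine ⟨f, ?_, ?_⟩
  · intro i i' hii
    have : (e i : Fin r → k) = e i' := by rw [← hf i, ← hf i', hii]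
    exact e.injective (Subtype.ext this)
  · have h3 : LinearIndependent k (Λ.submatrix id f).col := by
      have h4 : (Λ.submatrix id f).col = fun i => (e i : Fin r → k) := by
        funext i
        rw [← hf i]
        rfl
      rw [h4]
      exact hli.comp e e.injective
    have h5 := Matrix.linearIndependent_cols_iff_isUnit.mp h3
    exact ((Matrix.isUnit_iff_isUnit_det _).mp h5).ne_zero

end Cfsg.Agent.H6.MinorLemma
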