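import Cfsg.Agent.H6.HeightBound1
import Cfsg.Agent.H6.BinLattice

/-!
# The lattice of generalized characters of a block vanishing on `p`-singular elements
-/

set_option autoImplicit false
open Cfsg Cfsg.Agent.CharLib Cfsg.Agent.CharLib.L Cfsg.Agent.BlockLib Cfsg.Agent.Lib.Helper23
  Cfsg.Agent.Lib.Helper23.MinMax
  Cfsg.Agent.Lib.Helper23.Trunc Cfsg.Agent.H6.BlockSection Cfsg.Agent.Lib.Helper23.Sect
  Cfsg.Agent.Lib.Helper23.Subsect Cfsg.Agent.Lib.Helper23.Contrib Cfsg.Agent.H6.MajorSub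
  Cfsg.Agent.H6.BinLattice
open scoped ComplexConjugate

namespace Cfsg.Agent.H6.ProjLat

universe u
variable {K : Type u} [Group K] [Fintype K]

/-- the generalized character with given multiplicities -/
noncomputable def io (a : IrrCharacter K → ℤ) : K → ℂ :=
  ∑ ξ : IrrCharacter K, (a ξ : ℂ) • (ξ : K → ℂ)

theorem io_add (a a' : IrrCharacter K → ℤ) : io (a + a') = io a + io a' := by
  unfold io
  rw [← Finset.sum_add_distrib]
  exact Finset.sum_congr rfl fun ξ _ => by rw [Pi.add_apply, Int.cast_add, add_smul]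

theorem io_smul (x : ℤ) (a : IrrCharacter K → ℤ) : io (x • a) = (x : ℂ) • io a := by
  unfold io
  rw [Finset.smul_sum]
  exact Finset.sum_congr rfl fun ξ _ => by
    rw [Pi.smul_apply, smul_eq_mul, Int.cast_mul, mul_smul]

theorem io_zero : io (0 : IrrCharacter K → ℤ) = 0 := by
  unfold io
  simp

theorem io_neg (a : IrrCharacter K → ℤ) : io (-a) = - io a := by
  have := io_smul (-1) a
  simpa using this

theorem isClassFunction_io (a : IrrCharacter K → ℤ) : IsClassFunction K (io a) :=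
  isClassFunction_sum _ _ fun ξ _ => isClassFunction_smul _ (isClassFunction_of_irr ξ.2)

theorem classInner_io_right (f : K → ℂ) (a : IrrCharacter K → ℤ) :
    classInner f (io a) = ∑ ξ : IrrCharacter K, (a ξ : ℂ) * classInner f (ξ : K → ℂ) := by
  unfold io
  rw [classInner_sum_right]
  exact Finset.sum_congr rfl fun ξ _ => by rw [classInner_smul_right, map_intCast]

theorem classInner_io_io (a a' : IrrCharacter K → ℤ) :
    classInner (io a) (io a') = (dp a a' : ℂ) := by
  unfold io dp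
  rw [classInner_sum_sum]
  push_cast
  exact Finset.sum_congr rfl fun ξ _ => by rw [map_intCast]

theorem classInner_io_irr (a : IrrCharacter K → ℤ) (ξ : IrrCharacter K) :
    classInner (io a) (ξ : K → ℂ) = a ξ := by
  unfold io
  rw [classInner_sum_smul_irr]

/-- the lattice -/
noncomputable def lat (p : ℕ) (b : Set (IrrCharacter K)) : AddSubgroup (IrrCharacter K → ℤ) where
  carrier := {a | (∀ ξ, ξ ∉ b → a ξ = 0) ∧ ∀ c : K, p ∣ orderOf c → io a c = 0}
  add_mem' := by
    rintro a a' ⟨h1, h2⟩ ⟨h1', h2'⟩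
    refine ⟨fun ξ hξ => by rw [Pi.add_apply, h1 ξ hξ, h1' ξ hξ, add_zero], fun c hc => ?_⟩
    rw [io_add, Pi.add_apply, h2 c hc, h2' c hc, add_zero]
  zero_mem' := ⟨fun _ _ => rfl, fun c _ => by rw [io_zero]; rfl⟩
  neg_mem' := by
    rintro a ⟨h1, h2⟩
    refine ⟨fun ξ hξ => by rw [Pi.neg_apply, h1 ξ hξ, neg_zero], fun c hc => ?_⟩
    rw [io_neg, Pi.neg_apply, h2 c hc, neg_zero]

theorem mem_lat {p : ℕ} {b : Set (IrrCharacter K)} {a : IrrCharacter K → ℤ} :
    a ∈ lat p b ↔ (∀ ξ, ξ ∉ b → a ξ = 0) ∧ ∀ c : K, p ∣ orderOf c → io a c = 0 := Iff.rfl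

theorem trunc_io {p : ℕ} {b : Set (IrrCharacter K)} {a : IrrCharacter K → ℤ} (ha : a ∈ lat p b) :
    trunc p 1 (io a) = io a := by
  funext c
  rw [trunc_apply]
  split_ifs with h
  · rw [ha.2 c h]
  · rw [one_mul]

/-- the scaled truncations of the members of the block lie in the lattice -/
theorem exists_tau {p : ℕ} {M : Ideal AlgInt} (hM : IsPModular p M) {b : Set (IrrCharacter K)}
    (hb : IsPBlock M b) {ξ : IrrCharacter K} (hξ : ξ ∈ b) :
    ∃ τ ∈ lat p b, io τ = ((p : ℂ) ^ blockDefect p b) • trunc p 1 (ξ : K → ℂ) := by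
  have hj : (Nat.card K).factorization p ≤
      blockDefect p b + (charDegree (ξ : K → ℂ)).factorization p := by
    have := minExp_le (p := p) hξ
    rw [blockDefect_eq]
    omega
  choose z hz using fun ξ' => exists_int_classInner_trunc hM.1 ξ ξ' (blockDefect p b) hj
  have h1 : io z = trunc p ((p : ℂ) ^ blockDefect p b) (ξ : K → ℂ) :=
    (trunc_eq_sum_int ξ _ hz).symm
  refine ⟨z, ⟨fun ξ' hξ' => ?_, fun c hc => ?_⟩, ?_⟩
  · have := hz ξ'
    rw [classInner_trunc_eq_zero hM hb _ hξ hξ'] at this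
    exact_mod_cast this.symm
  · rw [h1, trunc_singular _ _ _ hc]
  · rw [h1, ← trunc_smul, mul_one]

theorem classInner_io_trunc {p : ℕ} {b : Set (IrrCharacter K)} {v : IrrCharacter K → ℤ}
    (hv : v ∈ lat p b) (f : K → ℂ) :
    classInner (io v) (trunc p 1 f) = classInner (io v) f := by
  rw [classInner, classInner]
  congr 1
  apply Finset.sum_congr rfl
  intro c _
  rw [trunc_apply]
  split_ifs with h
  · rw [hv.2 c h, zero_mul, zero_mul]
  · rw [one_mul]

theorem classInner_trunc_io {p : ℕ} {b : Set (IrrCharacter K)} {v : IrrCharacter K → ℤ}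
    (hv : v ∈ lat p b) (f : K → ℂ) :
    classInner (trunc p 1 f) (io v) = classInner f (io v) := by
  rw [← classInner_conj_symm, classInner_io_trunc hv, classInner_conj_symm]

theorem dp_tau {p : ℕ} {b : Set (IrrCharacter K)} {v τ : IrrCharacter K → ℤ}
    (hv : v ∈ lat p b) {ξ : IrrCharacter K}
    (hτ : io τ = ((p : ℂ) ^ blockDefect p b) • trunc p 1 (ξ : K → ℂ)) :
    dp v τ = (p : ℤ) ^ blockDefect p b * v ξ := by
  have h : (dp v τ : ℂ) = (((p : ℤ) ^ blockDefect p b * v ξ : ℤ) : ℂ) := by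
    rw [← classInner_io_io, hτ, classInner_smul_right, classInner_io_trunc hv, classInner_io_irr]
    simp
  exact_mod_cast h

theorem io_mem_span {p : ℕ} {b : Set (IrrCharacter K)} {v : IrrCharacter K → ℤ}
    (hv : v ∈ lat p b) :
    io v ∈ Submodule.span ℂ ((fun χ : IrrCharacter K => pRegularPart p (χ : K → ℂ)) '' b) := by
  rw [← trunc_io hv]
  unfold io
  rw [trunc_sum]
  apply Submodule.sum_mem
  intro ξ _
  by_cases hξ : ξ ∈ b
  · apply Submodule.smul_mem
    apply Submodule.subset_span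
    exact ⟨ξ, hξ, pRegularPart_eq_trunc p _⟩
  · rw [hv.1 ξ hξ, Int.cast_zero, zero_smul]
    exact Submodule.zero_mem _

end Cfsg.Agent.H6.ProjLat
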