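import Cfsg.Agent.H6.ProjLat

/-!
# The lattice of a block of rank two
-/

set_option autoImplicit false
open Cfsg Cfsg.Agent.CharLib Cfsg.Agent.CharLib.L Cfsg.Agent.BlockLib Cfsg.Agent.Lib.Helper23
  Cfsg.Agent.Lib.Helper23.MinMax
  Cfsg.Agent.Lib.Helper23.Trunc Cfsg.Agent.H6.BlockSection Cfsg.Agent.Lib.Helper23.Sect
  Cfsg.Agent.Lib.Helper23.Subsect Cfsg.Agent.Lib.Helper23.Contrib Cfsg.Agent.H6.MajorSub
  Cfsg.Agent.H6.BinLattice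
open scoped ComplexConjugate

namespace Cfsg.Agent.H6.ProjLat

universe u
variable {K : Type u} [Group K] [Fintype K]

theorem lat_H2 {p : ℕ} {b : Set (IrrCharacter K)} (hrank : blockRank p b ≤ 2) :
    ∀ w₁ ∈ lat p b, ∀ w₂ ∈ lat p b, disc w₁ w₂ ≠ 0 → ∀ u ∈ lat p b, dp u w₁ = 0 → dp u w₂ = 0 →
      u = 0 := by
  intro w₁ hw₁ w₂ hw₂ hd u hu h1 h2
  by_contra hu0
  have hli : LinearIndependent ℂ ![io w₁, io w₂, io u] := by
    rw [Fintype.linearIndependent_iff]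
    intro g hg
    simp only [Fin.sum_univ_three, Matrix.cons_val_zero, Matrix.cons_val_one,
      Matrix.cons_val_two, Matrix.head_cons, Matrix.tail_cons] at hg
    have e1 := congrArg (fun t => classInner t (io w₁)) hg
    have e2 := congrArg (fun t => classInner t (io w₂)) hg
    have e3 := congrArg (fun t => classInner t (io u)) hg
    simp only [classInner_add_left, classInner_smul_left, classInner_io_io,
      classInner_zero_left, h1, h2, dp_comm w₁ u, dp_comm w₂ u, dp_comm w₂ w₁, Int.cast_zero,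
      mul_zero, add_zero, zero_add] at e1 e2 e3
    have hu1 : (dp u u : ℂ) ≠ 0 := by exact_mod_cast (dp_self_pos hu0).ne'
    have g2 : g 2 = 0 := by
      rcases mul_eq_zero.mp e3 with h | h
      · exact h
      · exact absurd h hu1
    have hdC : ((disc w₁ w₂ : ℤ) : ℂ) ≠ 0 := by exact_mod_cast hd
    have hdE : ((disc w₁ w₂ : ℤ) : ℂ) = (dp w₁ w₁ : ℂ) * (dp w₂ w₂ : ℂ) - (dp w₁ w₂ : ℂ) ^ 2 := by
      simp only [disc]; push_cast; ring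
    have g0 : g 0 = 0 := by
      have : g 0 * ((disc w₁ w₂ : ℤ) : ℂ) = 0 := by
        rw [hdE]
        linear_combination (dp w₂ w₂ : ℂ) * e1 - (dp w₁ w₂ : ℂ) * e2
      rcases mul_eq_zero.mp this with h | h
      · exact h
      · exact absurd h hdC
    have g1 : g 1 = 0 := by
      have : g 1 * ((disc w₁ w₂ : ℤ) : ℂ) = 0 := by
        rw [hdE]
        linear_combination (dp w₁ w₁ : ℂ) * e2 - (dp w₁ w₂ : ℂ) * e1
      rcases mul_eq_zero.mp this with h | h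
      · exact h
      · exact absurd h hdC
    intro i
    fin_cases i
    · exact g0
    · exact g1
    · exact g2
  have h3 := finrank_span_eq_card hli
  have hle : Submodule.span ℂ (Set.range ![io w₁, io w₂, io u]) ≤
      Submodule.span ℂ ((fun χ : IrrCharacter K => pRegularPart p (χ : K → ℂ)) '' b) := by
    rw [Submodule.span_le]
    rintro _ ⟨i, rfl⟩
    fin_cases i
    · exact io_mem_span hw₁
    · exact io_mem_span hw₂
    · exact io_mem_span hu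
  have h4 := Submodule.finrank_mono hle
  rw [h3] at h4
  unfold blockRank at hrank
  simp at h4
  omega

theorem lat_hex {p : ℕ} {M : Ideal AlgInt} (hM : IsPModular p M) {b : Set (IrrCharacter K)}
    (hb : IsPBlock M b) (hrank : 2 ≤ blockRank p b) :
    ∃ a₁ ∈ lat p b, ∃ a₂ ∈ lat p b, disc a₁ a₂ ≠ 0 := by
  by_contra hcon
  push_neg at hcon
  have hp0 : ((p : ℂ) ^ blockDefect p b) ≠ 0 := pow_ne_zero _ (by exact_mod_cast hM.1.ne_zero)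
  obtain ⟨e, he⟩ : ∃ e : K → ℂ, ∀ ξ ∈ b, trunc p 1 (ξ : K → ℂ) ∈ Submodule.span ℂ {e} := by
    by_cases h : ∃ v₀ ∈ lat p b, v₀ ≠ 0
    · obtain ⟨v₀, hv₀, hne⟩ := h
      refine ⟨io v₀, fun ξ hξ => ?_⟩
      obtain ⟨τ, hτ, hτe⟩ := exists_tau hM hb hξ
      have h1 := congrArg io (smul_eq_of_disc_eq_zero (hcon v₀ hv₀ τ hτ))
      rw [io_smul, io_smul, hτe, smul_smul] at h1
      have hn : ((dp v₀ v₀ : ℤ) : ℂ) * (p : ℂ) ^ blockDefect p b ≠ 0 :=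
        mul_ne_zero (by exact_mod_cast (dp_self_pos hne).ne') hp0
      rw [Submodule.mem_span_singleton]
      refine ⟨(((dp v₀ v₀ : ℤ) : ℂ) * (p : ℂ) ^ blockDefect p b)⁻¹ * ((dp v₀ τ : ℤ) : ℂ), ?_⟩
      rw [mul_smul, ← h1, smul_smul, inv_mul_cancel₀ hn, one_smul]
    · push_neg at h
      refine ⟨0, fun ξ hξ => ?_⟩
      obtain ⟨τ, hτ, hτe⟩ := exists_tau hM hb hξ
      rw [h τ hτ, io_zero] at hτe
      have : trunc p 1 (ξ : K → ℂ) = 0 := by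
        rcases smul_eq_zero.mp hτe.symm with h | h
        · exact absurd h hp0
        · exact h
      rw [this]
      exact Submodule.zero_mem _
  have hle : Submodule.span ℂ ((fun χ : IrrCharacter K => pRegularPart p (χ : K → ℂ)) '' b) ≤
      Submodule.span ℂ {e} := by
    rw [Submodule.span_le]
    rintro _ ⟨ξ, hξ, rfl⟩
    show pRegularPart p (ξ : K → ℂ) ∈ _
    rw [pRegularPart_eq_trunc]
    exact he ξ hξ
  have h4 := Submodule.finrank_mono hle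
  have h5 := finrank_span_le_card (R := ℂ) ({e} : Set (K → ℂ))
  simp at h5
  unfold blockRank at hrank
  omega

theorem lat_saturated {p : ℕ} {b : Set (IrrCharacter K)} {n : ℤ} (hn : n ≠ 0)
    {v : IrrCharacter K → ℤ} (h : n • v ∈ lat p b) : v ∈ lat p b := by
  refine ⟨fun ξ hξ => ?_, fun c hc => ?_⟩
  · have := h.1 ξ hξ
    rw [Pi.smul_apply, smul_eq_mul] at this
    exact (mul_eq_zero.mp this).resolve_left hn
  · have := h.2 c hc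
    rw [io_smul, Pi.smul_apply, smul_eq_mul] at this
    exact (mul_eq_zero.mp this).resolve_left (by exact_mod_cast hn)

theorem indep {I : Type*} [Fintype I] {w₁ w₂ : I → ℤ} (hd : disc w₁ w₂ ≠ 0) {x y : ℤ}
    (h : x • w₁ + y • w₂ = 0) : x = 0 ∧ y = 0 := by
  have e1 := congrArg (fun t => dp t w₁) h
  have e2 := congrArg (fun t => dp t w₂) h
  have h0 : ∀ w : I → ℤ, dp (0 : I → ℤ) w = 0 := fun w => by simp [dp]
  simp only [dp_add_left, dp_smul_left, h0, dp_comm w₂ w₁] at e1 e2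
  constructor
  · have : x * disc w₁ w₂ = 0 := by
      simp only [disc]
      linear_combination dp w₂ w₂ * e1 - dp w₁ w₂ * e2
    exact (mul_eq_zero.mp this).resolve_right hd
  · have : y * disc w₁ w₂ = 0 := by
      simp only [disc]
      linear_combination dp w₁ w₁ * e2 - dp w₁ w₂ * e1
    exact (mul_eq_zero.mp this).resolve_right hd


theorem coords_tau {p : ℕ} {b : Set (IrrCharacter K)} {w₁ w₂ τ : IrrCharacter K → ℤ}
    (hw₁ : w₁ ∈ lat p b) (hw₂ : w₂ ∈ lat p b) {ξ : IrrCharacter K}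
    (hτ : io τ = ((p : ℂ) ^ blockDefect p b) • trunc p 1 (ξ : K → ℂ)) {x y : ℤ}
    (hxy : τ = x • w₁ + y • w₂) :
    (p : ℤ) ^ blockDefect p b * w₁ ξ = x * dp w₁ w₁ + y * dp w₁ w₂ ∧
    (p : ℤ) ^ blockDefect p b * w₂ ξ = x * dp w₁ w₂ + y * dp w₂ w₂ := by
  have h1 := dp_tau hw₁ hτ
  have h2 := dp_tau hw₂ hτ
  rw [hxy] at h1 h2
  simp only [dp_add_right, dp_smul_right, dp_comm w₂ w₁] at h1 h2
  exact ⟨h1.symm, h2.symm⟩

theorem dvd_of_comb {p : ℕ} {b : Set (IrrCharacter K)} {w₁ w₂ : IrrCharacter K → ℤ}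
    (hw₁ : w₁ ∈ lat p b) (hw₂ : w₂ ∈ lat p b) (hd : disc w₁ w₂ ≠ 0)
    (hgen : ∀ w ∈ lat p b, ∃ x y : ℤ, w = x • w₁ + y • w₂) (P α β : ℤ)
    (h : ∀ ξ ∈ b, disc w₁ w₂ ∣ P * (α * w₁ ξ + β * w₂ ξ)) :
    disc w₁ w₂ ∣ P * α ∧ disc w₁ w₂ ∣ P * β := by
  have h' : ∀ ξ, disc w₁ w₂ ∣ P * (α * w₁ ξ + β * w₂ ξ) := by
    intro ξ
    by_cases hξ : ξ ∈ b
    · exact h ξ hξ
    · rw [hw₁.1 ξ hξ, hw₂.1 ξ hξ]; simp
  choose v' hv' using h'
  have e : disc w₁ w₂ • v' = P • (α • w₁ + β • w₂) := by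
    funext ξ
    simp only [Pi.smul_apply, Pi.add_apply, smul_eq_mul]
    exact (hv' ξ).symm
  have hv'L : v' ∈ lat p b := by
    apply lat_saturated hd
    rw [e]
    exact (lat p b).zsmul_mem ((lat p b).add_mem ((lat p b).zsmul_mem hw₁ _)
      ((lat p b).zsmul_mem hw₂ _)) _
  obtain ⟨x, y, hxy⟩ := hgen v' hv'L
  have e2 : (P * α - disc w₁ w₂ * x) • w₁ + (P * β - disc w₁ w₂ * y) • w₂ = 0 := by
    have : (P * α - disc w₁ w₂ * x) • w₁ + (P * β - disc w₁ w₂ * y) • w₂ =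
        P • (α • w₁ + β • w₂) - disc w₁ w₂ • (x • w₁ + y • w₂) := by
      funext ξ
      simp only [Pi.smul_apply, Pi.add_apply, Pi.sub_apply, smul_eq_mul]
      ring
    rw [this, ← hxy, e, sub_self]
  obtain ⟨k1, k2⟩ := indep hd e2
  exact ⟨⟨x, by linarith⟩, ⟨y, by linarith⟩⟩

theorem dvd_of_basis {p : ℕ} {M : Ideal AlgInt} (hM : IsPModular p M) {b : Set (IrrCharacter K)}
    (hb : IsPBlock M b) {w₁ w₂ : IrrCharacter K → ℤ}
    (hw₁ : w₁ ∈ lat p b) (hw₂ : w₂ ∈ lat p b) (hd : disc w₁ w₂ ≠ 0)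
    (hgen : ∀ w ∈ lat p b, ∃ x y : ℤ, w = x • w₁ + y • w₂) :
    disc w₁ w₂ ∣ (p : ℤ) ^ blockDefect p b * dp w₁ w₁ ∧
    disc w₁ w₂ ∣ (p : ℤ) ^ blockDefect p b * dp w₁ w₂ ∧
    disc w₁ w₂ ∣ (p : ℤ) ^ blockDefect p b * dp w₂ w₂ := by
  have A := dvd_of_comb hw₁ hw₂ hd hgen ((p : ℤ) ^ blockDefect p b) (dp w₂ w₂) (- dp w₁ w₂) (by
    intro ξ hξ
    obtain ⟨τ, hτ, hτe⟩ := exists_tau hM hb hξ
    obtain ⟨x, y, hxy⟩ := hgen τ hτ
    obtain ⟨c1, c2⟩ := coords_tau hw₁ hw₂ hτe hxy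
    refine ⟨x, ?_⟩
    simp only [disc]
    linear_combination dp w₂ w₂ * c1 - dp w₁ w₂ * c2)
  have B := dvd_of_comb hw₁ hw₂ hd hgen ((p : ℤ) ^ blockDefect p b) (- dp w₁ w₂) (dp w₁ w₁) (by
    intro ξ hξ
    obtain ⟨τ, hτ, hτe⟩ := exists_tau hM hb hξ
    obtain ⟨x, y, hxy⟩ := hgen τ hτ
    obtain ⟨c1, c2⟩ := coords_tau hw₁ hw₂ hτe hxy
    refine ⟨y, ?_⟩
    simp only [disc]
    linear_combination dp w₁ w₁ * c2 - dp w₁ w₂ * c1)
  refine ⟨B.2, ?_, A.1⟩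
  have := A.2
  rwa [mul_neg, dvd_neg] at this

/-- `p^d` is an elementary divisor of multiplicity one -/
theorem not_both_full {p : ℕ} {M : Ideal AlgInt} (hM : IsPModular p M)
    {b : Set (IrrCharacter K)}
    (hb : IsPBlock M b) {w₁ w₂ : IrrCharacter K → ℤ}
    (hw₁ : w₁ ∈ lat p b) (hw₂ : w₂ ∈ lat p b)
    (hgen : ∀ w ∈ lat p b, ∃ x y : ℤ, w = x • w₁ + y • w₂)
    (h0 : dp w₁ w₂ = 0) (h1 : dp w₁ w₁ = (p : ℤ) ^ blockDefect p b)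
    (h2 : dp w₂ w₂ = (p : ℤ) ^ blockDefect p b) : False := by
  have hMp := isPrime_of_isPModular hM
  have htop := ne_top_of_isPModular hM
  have hp := hM.1
  have hP0 : (p : ℤ) ^ blockDefect p b ≠ 0 := pow_ne_zero _ (by exact_mod_cast hp.ne_zero)
  have hd : disc w₁ w₂ ≠ 0 := by
    simp only [disc, h0, h1, h2]
    simpa using hP0
  have hg : ∀ ξ ∈ b, ∀ η : IrrCharacter K, ((w₁ ξ * w₁ η + w₂ ξ * w₂ η : ℤ) : ℂ) =
      sdeg p b (η : K → ℂ) * omega (η : K → ℂ) (cf p (ξ : K → ℂ)) := by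
    intro ξ hξ η
    obtain ⟨τ, hτ, hτe⟩ := exists_tau hM hb hξ
    obtain ⟨x, y, hxy⟩ := hgen τ hτ
    obtain ⟨c1, c2⟩ := coords_tau hw₁ hw₂ hτe hxy
    rw [h0, h1, mul_zero, add_zero, mul_comm] at c1
    rw [h0, h2, mul_zero, zero_add, mul_comm] at c2
    have hx : x = w₁ ξ := (mul_right_cancel₀ hP0 c1).symm
    have hy : y = w₂ ξ := (mul_right_cancel₀ hP0 c2).symm
    have e1 : τ η = w₁ ξ * w₁ η + w₂ ξ * w₂ η := by
      rw [hxy, hx, hy]; rfl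
    rw [← e1, ← classInner_io_irr, hτe, classInner_smul_left, sdeg]
    have e2 := card_mul_classInner_trunc hp ξ η
    have hK : (Nat.card K : ℂ) ≠ 0 := card_ne_zero_complex
    field_simp
    linear_combination (p : ℂ) ^ blockDefect p b * e2
  have hD : ∀ ξ₁ ∈ b, ∀ ξ₂ ∈ b, (p : ℤ) ∣ w₁ ξ₁ * w₂ ξ₂ - w₁ ξ₂ * w₂ ξ₁ := by
    intro ξ₁ hξ₁ ξ₂ hξ₂
    have hsq : (p : ℤ) ∣ (w₁ ξ₁ * w₂ ξ₂ - w₁ ξ₂ * w₂ ξ₁) ^ 2 := by
      rw [← memLocalIdeal_intCast_iff hM]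
      have e : (((w₁ ξ₁ * w₂ ξ₂ - w₁ ξ₂ * w₂ ξ₁) ^ 2 : ℤ) : ℂ) =
          ((w₁ ξ₁ * w₁ ξ₁ + w₂ ξ₁ * w₂ ξ₁ : ℤ) : ℂ) * ((w₁ ξ₂ * w₁ ξ₂ + w₂ ξ₂ * w₂ ξ₂ : ℤ) : ℂ) -
          ((w₁ ξ₁ * w₁ ξ₂ + w₂ ξ₁ * w₂ ξ₂ : ℤ) : ℂ) * ((w₁ ξ₂ * w₁ ξ₁ + w₂ ξ₂ * w₂ ξ₁ : ℤ) : ℂ) := by
        push_cast; ring
      rw [e, hg ξ₁ hξ₁ ξ₁, hg ξ₂ hξ₂ ξ₂, hg ξ₁ hξ₁ ξ₂, hg ξ₂ hξ₂ ξ₁]
      have m1 := omega_cf_congr hM hb hξ₂ hξ₁ ξ₁
      have m2 := omega_cf_congr hM hb hξ₂ hξ₁ ξ₂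
      have e' : sdeg p b (ξ₁ : K → ℂ) * omega (ξ₁ : K → ℂ) (cf p (ξ₁ : K → ℂ)) *
          (sdeg p b (ξ₂ : K → ℂ) * omega (ξ₂ : K → ℂ) (cf p (ξ₂ : K → ℂ))) -
          sdeg p b (ξ₂ : K → ℂ) * omega (ξ₂ : K → ℂ) (cf p (ξ₁ : K → ℂ)) *
          (sdeg p b (ξ₁ : K → ℂ) * omega (ξ₁ : K → ℂ) (cf p (ξ₂ : K → ℂ))) =
          (sdeg p b (ξ₁ : K → ℂ) * sdeg p b (ξ₂ : K → ℂ)) *
          (omega (ξ₁ : K → ℂ) (cf p (ξ₁ : K → ℂ)) *
            (omega (ξ₂ : K → ℂ) (cf p (ξ₂ : K → ℂ)) - omega (ξ₁ : K → ℂ) (cf p (ξ₂ : K → ℂ))) -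
           omega (ξ₁ : K → ℂ) (cf p (ξ₂ : K → ℂ)) *
            (omega (ξ₂ : K → ℂ) (cf p (ξ₁ : K → ℂ)) - omega (ξ₁ : K → ℂ) (cf p (ξ₁ : K → ℂ)))) := by
        ring
      rw [e']
      exact memLocalIdeal_mul_left
        (memLocalRing_mul (memLocalRing_sdeg hM hξ₁) (memLocalRing_sdeg hM hξ₂))
        (memLocalIdeal_sub (memLocalIdeal_mul_left (memLocalRing_omega_cf hM _ _) m2)
          (memLocalIdeal_mul_left (memLocalRing_omega_cf hM _ _) m1))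
    exact (Nat.prime_iff_prime_int.mp hp).dvd_of_dvd_pow hsq
  obtain ⟨l, m, hlm, hdiv⟩ : ∃ l m : ℤ, ¬ ((p : ℤ) ∣ l ∧ (p : ℤ) ∣ m) ∧
      ∀ ξ, (p : ℤ) ∣ l * w₁ ξ + m * w₂ ξ := by
    by_cases hall : ∀ ξ, (p : ℤ) ∣ w₁ ξ
    · refine ⟨1, 0, fun h => ?_, fun ξ => by simpa using hall ξ⟩
      exact (Nat.prime_iff_prime_int.mp hp).not_unit (isUnit_of_dvd_one h.1)
    · push_neg at hall
      obtain ⟨ξ₁, hξ₁⟩ := hall
      have hξ₁b : ξ₁ ∈ b := by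
        by_contra hn
        apply hξ₁
        rw [hw₁.1 ξ₁ hn]
        exact dvd_zero _
      refine ⟨- w₂ ξ₁, w₁ ξ₁, fun h => hξ₁ h.2, fun ξ => ?_⟩
      by_cases hξ : ξ ∈ b
      · have := hD ξ₁ hξ₁b ξ hξ
        have e : - w₂ ξ₁ * w₁ ξ + w₁ ξ₁ * w₂ ξ = w₁ ξ₁ * w₂ ξ - w₁ ξ * w₂ ξ₁ := by ring
        rw [e]; exact this
      · rw [hw₁.1 ξ hξ, hw₂.1 ξ hξ]; simp
  choose v' hv' using hdiv
  have hpz : (p : ℤ) ≠ 0 := by exact_mod_cast hp.ne_zero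
  have e : (p : ℤ) • v' = l • w₁ + m • w₂ := by
    funext ξ
    simp only [Pi.smul_apply, Pi.add_apply, smul_eq_mul]
    exact (hv' ξ).symm
  have hv'L : v' ∈ lat p b := by
    apply lat_saturated hpz
    rw [e]
    exact (lat p b).add_mem ((lat p b).zsmul_mem hw₁ _) ((lat p b).zsmul_mem hw₂ _)
  obtain ⟨x, y, hxy⟩ := hgen v' hv'L
  have e2 : (l - p * x) • w₁ + (m - p * y) • w₂ = 0 := by
    have : (l - p * x) • w₁ + (m - p * y) • w₂ =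
        (l • w₁ + m • w₂) - (p : ℤ) • (x • w₁ + y • w₂) := by
      funext ξ
      simp only [Pi.smul_apply, Pi.add_apply, Pi.sub_apply, smul_eq_mul]
      ring
    rw [this, ← hxy, e, sub_self]
  obtain ⟨k1, k2⟩ := indep hd e2
  exact hlm ⟨⟨x, by linarith⟩, ⟨y, by linarith⟩⟩


/-- the reduced basis of the lattice of a block of rank two -/
theorem exists_basis {p : ℕ} {M : Ideal AlgInt} (hM : IsPModular p M)
    {b : Set (IrrCharacter K)} (hb : IsPBlock M b) (hrank : blockRank p b = 2) :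
    ∃ w₁ ∈ lat p b, ∃ w₂ ∈ lat p b, 0 < dp w₁ w₁ ∧ disc w₁ w₂ ≠ 0 ∧
      (∀ w ∈ lat p b, ∃ x y : ℤ, w = x • w₁ + y • w₂) ∧
      (dp w₁ w₁ + dp w₂ w₂ - |dp w₁ w₂| ≤ (p : ℤ) ^ blockDefect p b ∨
        (dp w₁ w₂ = 0 ∧ dp w₂ w₂ = (p : ℤ) ^ blockDefect p b ∧
          ∃ i < blockDefect p b, dp w₁ w₁ = (p : ℤ) ^ i)) := by
  have hp := hM.1
  obtain ⟨w₁, hw₁, w₂, hw₂, ha, hac, hbb, hgen⟩ := exists_reduced (lat p b)
    (lat_hex hM hb hrank.ge) (lat_H2 hrank.le)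
  have hd : disc w₁ w₂ ≠ 0 := by
    have h0 := abs_nonneg (dp w₁ w₂)
    have : 0 < disc w₁ w₂ := by
      simp only [disc]
      rw [← sq_abs (dp w₁ w₂)]
      nlinarith
    exact this.ne'
  refine ⟨w₁, hw₁, w₂, hw₂, ha, hd, hgen, ?_⟩
  obtain ⟨d1, d2, d3⟩ := dvd_of_basis hM hb hw₁ hw₂ hd hgen
  have hP : (0 : ℤ) < (p : ℤ) ^ blockDefect p b := pow_pos (by exact_mod_cast hp.pos) _
  rcases reduced_bound ha hac hbb hP d1 d2 d3 with h | ⟨h0, h2, h1⟩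
  · exact Or.inl h
  · right
    refine ⟨h0, h2, ?_⟩
    obtain ⟨i, hi, hai⟩ := (dvd_prime_pow (Nat.prime_iff_prime_int.mp hp) _).mp h1
    have hai' : dp w₁ w₁ = (p : ℤ) ^ i := by
      have h3 := Int.associated_iff.mp hai
      rcases h3 with h3 | h3
      · exact h3
      · have : (0 : ℤ) < (p : ℤ) ^ i := pow_pos (by exact_mod_cast hp.pos) _
        linarith
    refine ⟨i, lt_of_le_of_ne hi ?_, hai'⟩
    rintro rfl
    exact not_both_full hM hb hw₁ hw₂ hgen h0 hai' h2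

end Cfsg.Agent.H6.ProjLat
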