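import Cfsg.Agent.H6.ProjLat2
import Cfsg.Agent.H6.GalVanish

/-!
# Major subsections of rank two: generalized decomposition numbers
-/

set_option autoImplicit false
open Cfsg Cfsg.Agent.CharLib Cfsg.Agent.CharLib.L Cfsg.Agent.BlockLib Cfsg.Agent.Lib.Helper23
  Cfsg.Agent.Lib.Helper23.MinMax
  Cfsg.Agent.Lib.Helper23.Trunc Cfsg.Agent.H6.BlockSection Cfsg.Agent.Lib.Helper23.Sect
  Cfsg.Agent.Lib.Helper23.Subsect Cfsg.Agent.Lib.Helper23.Contrib Cfsg.Agent.H6.MajorSub
  Cfsg.Agent.H6.BinLattice Cfsg.Agent.H6.ProjLat Cfsg.Agent.H6.GalVanish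
open scoped ComplexConjugate

namespace Cfsg.Agent.H6.RankTwo

universe u
variable {G : Type u} [Group G] [Fintype G] {H : Subgroup G} [Fintype H]

/-- the generalized decomposition number of `χ` at `x` along the lattice vector `a` -/
noncomputable def X (x : G) (χ : G → ℂ) (a : IrrCharacter H → ℤ) : ℂ :=
  classInner (fun c : H => χ (x * c)) (io a)

theorem X_comb (x : G) (χ : G → ℂ) (s t : ℤ) (a a' : IrrCharacter H → ℤ) :
    X x χ (s • a + t • a') = s * X x χ a + t * X x χ a' := by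
  unfold X
  rw [io_add, io_smul, io_smul, classInner_add_right, classInner_smul_right,
    classInner_smul_right, map_intCast, map_intCast]

theorem X_eq_sum (x : G) (χ : G → ℂ) (a : IrrCharacter H → ℤ) :
    X x χ a = ∑ ξ : IrrCharacter H, (a ξ : ℂ) * classInner (fun c : H => χ (x * c)) (ξ : H → ℂ) :=
  classInner_io_right _ _

theorem conj_X (χ : IrrCharacter G) {z : G} (hzH : z ∈ H) (hz : ∀ h ∈ H, z * h = h * z)
    (a : IrrCharacter H → ℤ) : conj (X z (χ : G → ℂ) a) = X z⁻¹ (χ : G → ℂ) a := by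
  rw [X_eq_sum, X_eq_sum, map_sum]
  exact Finset.sum_congr rfl fun ξ _ => by rw [map_mul, map_intCast, conj_coef χ hzH hz]

theorem memLocalRing_X {M : Ideal AlgInt} [M.IsPrime] (χ : IrrCharacter G) {z : G}
    (hzH : z ∈ H) (hz : ∀ h ∈ H, z * h = h * z) {n : ℕ} (hn : 0 < n) (hzn : z ^ n = 1)
    (a : IrrCharacter H → ℤ) : MemLocalRing M (X z (χ : G → ℂ) a) := by
  rw [X_eq_sum]
  exact memLocalRing_sum _ _ fun ξ _ => memLocalRing_mul
    (memLocalRing_intCast (Ideal.IsPrime.ne_top ‹_›) _) (memLocalRing_coef χ hzH hz hn hzn ξ)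

theorem X_galois (χ : IrrCharacter G) {y : G} (hyH : y ∈ H) (hy : ∀ h ∈ H, y * h = h * y)
    (a : IrrCharacter H → ℤ) :
    ∃ N : IrrCharacter H → ℤ, ∀ u : ℕ, X (y ^ u) (χ : G → ℂ) a =
      ∑ ξ : IrrCharacter H, (N ξ : ℂ) * lam (ξ : H → ℂ) ⟨y, hyH⟩ ^ u := by
  have hm : ∀ (ξ : IrrCharacter H), ∃ m : ℕ,
      classInner (fun c : H => (χ : G → ℂ) c) (ξ : H → ℂ) = m := fun ξ =>
    classInner_char_nat (isCharacter_restrict (isCharacter_of_irr χ.2) H) (isCharacter_of_irr ξ.2)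
  choose m hm using hm
  refine ⟨fun ξ => a ξ * m ξ, fun u => ?_⟩
  have hyuH : y ^ u ∈ H := H.pow_mem hyH u
  have hyu : ∀ h ∈ H, y ^ u * h = h * y ^ u := fun h hh =>
    ((show Commute y h from hy h hh).pow_left u).eq
  have hlam : ∀ ξ : IrrCharacter H, lam (ξ : H → ℂ) ⟨y ^ u, hyuH⟩ = lam (ξ : H → ℂ) ⟨y, hyH⟩ ^ u := by
    intro ξ
    rw [← lam_pow ξ (mem_center_mk hyH hy)]
    rfl
  rw [X_eq_sum]
  apply Finset.sum_congr rfl
  intro ξ _
  rw [coef_eq χ hyuH hyu, hlam, hm]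
  push_cast
  ring

/-- the columns of generalized decomposition numbers have the norm of the lattice vector -/
theorem sum_X_sq {p : ℕ} (hp : p.Prime) {x : G} {k : ℕ} (hx : orderOf x = p ^ k)
    (hH : H = Subgroup.centralizer ({x} : Set G)) {b : Set (IrrCharacter H)}
    {a : IrrCharacter H → ℤ} (ha : a ∈ lat p b) :
    ∑ χ : IrrCharacter G, Complex.normSq (X x (χ : G → ℂ) a) = (dp a a : ℝ) := by
  classical
  subst hH
  have hw : ∀ ϑ : Subgroup.centralizer ({x} : Set G) → ℂ,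
      classInner ϑ (io a) * conj (classInner ϑ (io a)) =
      (∑ c, ((Nat.card (Subgroup.centralizer ({x} : Set G)) : ℂ)⁻¹ * conj (io a c)) * ϑ c) *
      conj (∑ c, ((Nat.card (Subgroup.centralizer ({x} : Set G)) : ℂ)⁻¹ * conj (io a c)) * ϑ c) := by
    intro ϑ
    have e : classInner ϑ (io a) =
        (∑ c, ((Nat.card (Subgroup.centralizer ({x} : Set G)) : ℂ)⁻¹ * conj (io a c)) * ϑ c) := by
      rw [classInner, Finset.mul_sum]
      apply Finset.sum_congr rfl
      intro c _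
      ring
    rw [e]
  have key : ∑ χ : IrrCharacter G, X x (χ : G → ℂ) a * conj (X x (χ : G → ℂ) a) =
      (dp a a : ℂ) := by
    unfold X
    simp only [hw]
    rw [quad_identity (fun c : Subgroup.centralizer ({x} : Set G) => ¬ p ∣ orderOf c)
      (fun c => (Nat.card (Subgroup.centralizer ({x} : Set G)) : ℂ)⁻¹ * conj (io a c))
      (fun c hc => by
        simp only [ha.2 c (not_not.1 hc), map_zero, mul_zero])
      (fun (ψ : IrrCharacter G) (c : Subgroup.centralizer ({x} : Set G)) => (ψ : G → ℂ) (x * c))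
      (fun (ζ : IrrCharacter (Subgroup.centralizer ({x} : Set G))) c => (ζ : _ → ℂ) c)
      (fun c c' hc hc' => sum_irr_section hp hx c c' hc hc')]
    simp only [← hw]
    unfold dp
    push_cast
    apply Finset.sum_congr rfl
    intro ξ _
    rw [classInner_conj_symm, classInner_io_irr, ← classInner_conj_symm, classInner_io_irr,
      map_intCast]
  simp only [Complex.mul_conj] at key
  exact_mod_cast key

theorem classInner_blockPart_io {p : ℕ} {b : Set (IrrCharacter H)} {w : IrrCharacter H → ℤ}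
    (hw : w ∈ lat p b) (f : H → ℂ) :
    classInner (blockPart b f) (io w) = classInner f (io w) := by
  classical
  rw [classInner_io_right, classInner_io_right]
  apply Finset.sum_congr rfl
  intro ξ _
  by_cases hξ : ξ ∈ b
  · congr 1
    rw [blockPart_eq_sum_smul, classInner_sum_left, Finset.sum_eq_single ξ]
    · rw [classInner_smul_left, classInner_irr_self ξ.2, mul_one]
    · intro ξ' _ hne
      rw [classInner_smul_left, classInner_irr_ne ξ'.2 ξ.2 (fun e => hne (Subtype.ext e)), mul_zero]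
    · intro h
      exact absurd (Finset.mem_filter.2 ⟨Finset.mem_univ _, hξ⟩) h
  · rw [hw.1 ξ hξ, Int.cast_zero, zero_mul, zero_mul]

/-- the contributions in terms of a basis of the lattice -/
theorem disc_mul_contrib {p : ℕ} {M : Ideal AlgInt} (hM : IsPModular p M) {x : G}
    (hxc : ∀ h ∈ H, x * h = h * x) {b : Set (IrrCharacter H)} (hb : IsPBlock M b)
    {w₁ w₂ : IrrCharacter H → ℤ} (hw₁ : w₁ ∈ lat p b) (hw₂ : w₂ ∈ lat p b)
    (hgen : ∀ w ∈ lat p b, ∃ x y : ℤ, w = x • w₁ + y • w₂) (χ ψ : IrrCharacter G) :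
    (disc w₁ w₂ : ℂ) * contrib p b x (χ : G → ℂ) (ψ : G → ℂ) =
      ((dp w₂ w₂ : ℂ) * X x (χ : G → ℂ) w₁ - (dp w₁ w₂ : ℂ) * X x (χ : G → ℂ) w₂) *
        conj (X x (ψ : G → ℂ) w₁) +
      ((dp w₁ w₁ : ℂ) * X x (χ : G → ℂ) w₂ - (dp w₁ w₂ : ℂ) * X x (χ : G → ℂ) w₁) *
        conj (X x (ψ : G → ℂ) w₂) := by
  classical
  have hp0 : ((p : ℂ) ^ blockDefect p b) ≠ 0 := pow_ne_zero _ (by exact_mod_cast hM.1.ne_zero)
  set t : H → ℂ := trunc p 1 (blockPart b (fun c : H => (χ : G → ℂ) (x * c))) with ht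
  have hspan : t ∈ Submodule.span ℂ {io w₁, io w₂} := by
    rw [ht, blockPart_eq_sum_smul, trunc_sum]
    apply Submodule.sum_mem
    intro ξ hξ
    apply Submodule.smul_mem
    obtain ⟨τ, hτ, hτe⟩ := exists_tau hM hb (Finset.mem_filter.1 hξ).2
    obtain ⟨r, s, hrs⟩ := hgen τ hτ
    have e : trunc p 1 (ξ : H → ℂ) = ((p : ℂ) ^ blockDefect p b)⁻¹ • io τ := by
      rw [hτe, smul_smul, inv_mul_cancel₀ hp0, one_smul]
    rw [e, hrs, io_add, io_smul, io_smul]
    apply Submodule.smul_mem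
    exact Submodule.add_mem _
      (Submodule.smul_mem _ _ (Submodule.subset_span (by simp)))
      (Submodule.smul_mem _ _ (Submodule.subset_span (by simp)))
  obtain ⟨α, β, hαβ⟩ := Submodule.mem_span_pair.mp hspan
  have h1 : contrib p b x (χ : G → ℂ) (ψ : G → ℂ) =
      α * conj (X x (ψ : G → ℂ) w₁) + β * conj (X x (ψ : G → ℂ) w₂) := by
    rw [contrib, classInner_trunc_blockPart_eq hM hb _
      (Cfsg.Agent.Lib.Helper23.Subsect.isClassFunction_shift' (isClassFunction_of_irr ψ.2) hxc),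
      ← ht, ← hαβ,
      classInner_add_left, classInner_smul_left, classInner_smul_left]
    unfold X
    rw [classInner_conj_symm, classInner_conj_symm]
  have h2 : ∀ w ∈ lat p b, X x (χ : G → ℂ) w = classInner t (io w) := by
    intro w hw
    rw [ht, classInner_trunc_io hw, classInner_blockPart_io hw]
    rfl
  have e1 : X x (χ : G → ℂ) w₁ = α * (dp w₁ w₁ : ℂ) + β * (dp w₁ w₂ : ℂ) := by
    rw [h2 w₁ hw₁, ← hαβ, classInner_add_left, classInner_smul_left, classInner_smul_left,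
      classInner_io_io, classInner_io_io, dp_comm w₂ w₁]
  have e2 : X x (χ : G → ℂ) w₂ = α * (dp w₁ w₂ : ℂ) + β * (dp w₂ w₂ : ℂ) := by
    rw [h2 w₂ hw₂, ← hαβ, classInner_add_left, classInner_smul_left, classInner_smul_left,
      classInner_io_io, classInner_io_io]
  rw [h1, e1, e2]
  simp only [disc]
  push_cast
  ring

end Cfsg.Agent.H6.RankTwo
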