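import Cfsg.Agent.H6.RankTwo

/-!
# Major subsections of rank two: counting
-/

set_option autoImplicit false
open Cfsg Cfsg.Agent.CharLib Cfsg.Agent.CharLib.L Cfsg.Agent.BlockLib Cfsg.Agent.Lib.Helper23
  Cfsg.Agent.Lib.Helper23.MinMax
  Cfsg.Agent.Lib.Helper23.Trunc Cfsg.Agent.H6.BlockSection Cfsg.Agent.Lib.Helper23.Sect
  Cfsg.Agent.Lib.Helper23.Subsect Cfsg.Agent.Lib.Helper23.Contrib Cfsg.Agent.H6.MajorSub
  Cfsg.Agent.H6.BinLattice Cfsg.Agent.H6.ProjLat Cfsg.Agent.H6.GalVanish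
  Cfsg.Agent.H6.HeightBound
open scoped ComplexConjugate

namespace Cfsg.Agent.H6.RankTwo

universe u
variable {G : Type u} [Group G] [Fintype G] {H : Subgroup G} [Fintype H]

theorem orderOf_pow_unit {p s : ℕ} {y : G} (hy : orderOf y = p ^ s) (v : (ZMod (p ^ s))ˣ) :
    orderOf (y ^ (v : ZMod (p ^ s)).val) = p ^ s := by
  have hcop : ((v : ZMod (p ^ s)).val).Coprime (orderOf y) := by
    rw [hy]; exact ZMod.val_coe_unit_coprime v
  rw [Nat.Coprime.orderOf_pow hcop.symm, hy]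

theorem centralizer_pow_unit {p s : ℕ} {y : G} (hy : orderOf y = p ^ s)
    (hH : H = Subgroup.centralizer ({y} : Set G)) (v : (ZMod (p ^ s))ˣ) :
    H = Subgroup.centralizer ({y ^ (v : ZMod (p ^ s)).val} : Set G) := by
  have hcop : ((v : ZMod (p ^ s)).val).Coprime (orderOf y) := by
    rw [hy]; exact ZMod.val_coe_unit_coprime v
  rw [hH]
  exact (centralizer_pow_of_coprime y hcop).symm

/-- vanishing of a generalized decomposition number is Galois invariant -/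
theorem X_pow_eq_zero_iff {p s : ℕ} (hp : p.Prime) {y : G} (hys : y ^ (p ^ s) = 1) (hyH : y ∈ H)
    (hyc : ∀ h ∈ H, y * h = h * y) (χ : IrrCharacter G) (w : IrrCharacter H → ℤ) {u : ℕ}
    (hu : u.Coprime (p ^ s)) : X (y ^ u) (χ : G → ℂ) w = 0 ↔ X y (χ : G → ℂ) w = 0 := by
  have : NeZero (p ^ s) := ⟨pow_ne_zero _ hp.ne_zero⟩
  obtain ⟨N, hN⟩ := X_galois χ hyH hyc w
  have hρ : ∀ ξ : IrrCharacter H, lam (ξ : H → ℂ) ⟨y, hyH⟩ ^ (p ^ s) = 1 := fun ξ =>
    lam_pow_eq_one hyH hyc hys ξ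
  have h1 := hN 1
  rw [pow_one] at h1
  rw [hN u, h1]
  exact ⟨fun h => gal_vanish (p ^ s) N _ hρ hu (Nat.coprime_one_left _) h,
    fun h => gal_vanish (p ^ s) N _ hρ (Nat.coprime_one_left _) hu h⟩

theorem sum_le_of_low {p s : ℕ} (hp : p.Prime) {y : G} (hy : orderOf y = p ^ s)
    (hH : H = Subgroup.centralizer ({y} : Set G)) {b : Set (IrrCharacter H)}
    {w : IrrCharacter H → ℤ} (hw : w ∈ lat p b) [NeZero (p ^ s)]
    (S : Finset (IrrCharacter G)) (c : ℝ)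
    (hS : ∀ χ ∈ S, (Fintype.card (ZMod (p ^ s))ˣ : ℝ) * c ≤
      ∑ v : (ZMod (p ^ s))ˣ, Complex.normSq (X (y ^ (v : ZMod (p ^ s)).val) (χ : G → ℂ) w)) :
    (S.card : ℝ) * c ≤ (dp w w : ℝ) := by
  have hφ : (0 : ℝ) < (Fintype.card (ZMod (p ^ s))ˣ : ℝ) := by
    exact_mod_cast Fintype.card_pos
  have h1 : (Fintype.card (ZMod (p ^ s))ˣ : ℝ) * ((S.card : ℝ) * c) ≤
      (Fintype.card (ZMod (p ^ s))ˣ : ℝ) * (dp w w : ℝ) := by
    calc (Fintype.card (ZMod (p ^ s))ˣ : ℝ) * ((S.card : ℝ) * c)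
        = ∑ χ ∈ S, (Fintype.card (ZMod (p ^ s))ˣ : ℝ) * c := by
          simp only [Finset.sum_const, nsmul_eq_mul]; ring
      _ ≤ ∑ χ ∈ S, ∑ v : (ZMod (p ^ s))ˣ,
            Complex.normSq (X (y ^ (v : ZMod (p ^ s)).val) (χ : G → ℂ) w) :=
          Finset.sum_le_sum hS
      _ = ∑ v : (ZMod (p ^ s))ˣ, ∑ χ ∈ S,
            Complex.normSq (X (y ^ (v : ZMod (p ^ s)).val) (χ : G → ℂ) w) := Finset.sum_comm
      _ ≤ ∑ v : (ZMod (p ^ s))ˣ, ∑ χ : IrrCharacter G,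
            Complex.normSq (X (y ^ (v : ZMod (p ^ s)).val) (χ : G → ℂ) w) :=
          Finset.sum_le_sum fun v _ => Finset.sum_le_sum_of_subset_of_nonneg (Finset.subset_univ _)
            fun χ _ _ => Complex.normSq_nonneg _
      _ = ∑ _v : (ZMod (p ^ s))ˣ, (dp w w : ℝ) :=
          Finset.sum_congr rfl fun v _ =>
            sum_X_sq hp (orderOf_pow_unit hy v) (centralizer_pow_unit hy hH v) hw
      _ = _ := by simp only [Finset.sum_const, nsmul_eq_mul, Finset.card_univ]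
  exact le_of_mul_le_mul_left h1 hφ

/-- at most `‖w‖²` characters have a nonzero decomposition number along `w` -/
theorem card_le_dp {p s : ℕ} (hp : p.Prime) {y : G} (hy : orderOf y = p ^ s)
    (hH : H = Subgroup.centralizer ({y} : Set G)) {b : Set (IrrCharacter H)}
    {w : IrrCharacter H → ℤ} (hw : w ∈ lat p b)
    (S : Finset (IrrCharacter G)) (hS : ∀ χ ∈ S, X y (χ : G → ℂ) w ≠ 0) :
    (S.card : ℝ) ≤ (dp w w : ℝ) := by
  have : NeZero (p ^ s) := ⟨pow_ne_zero _ hp.ne_zero⟩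
  have hyH : y ∈ H := by rw [hH, Subgroup.mem_centralizer_singleton_iff]
  have hyc : ∀ h ∈ H, y * h = h * y := by
    intro h hh
    rw [hH, Subgroup.mem_centralizer_singleton_iff] at hh
    exact hh.symm
  have hys : y ^ (p ^ s) = 1 := by rw [← hy, pow_orderOf_eq_one]
  have := sum_le_of_low hp hy hH hw S 1 (by
    intro χ hχ
    rw [mul_one]
    obtain ⟨N, hN⟩ := X_galois χ hyH hyc w
    simp only [hN]
    apply GalAvg.card_units_le_sum_normSq (p ^ s) N _ (fun ξ => lam_pow_eq_one hyH hyc hys ξ)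
    intro u hu
    rw [← hN]
    exact fun h => hS χ hχ ((X_pow_eq_zero_iff hp hys hyH hyc χ w hu).mp h))
  rwa [mul_one] at this

/-- the scaled version -/
theorem card_mul_sq_le_dp {p s : ℕ} {M : Ideal AlgInt} (hM : IsPModular p M) {y : G}
    (hy : orderOf y = p ^ s)
    (hH : H = Subgroup.centralizer ({y} : Set G)) {b : Set (IrrCharacter H)}
    {w : IrrCharacter H → ℤ} (hw : w ∈ lat p b)
    (S : Finset (IrrCharacter G))
    (hS : ∀ χ ∈ S, ∀ v : (ZMod (p ^ s))ˣ, X (y ^ (v : ZMod (p ^ s)).val) (χ : G → ℂ) w ≠ 0 ∧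
      MemLocalRing M (X (y ^ (v : ZMod (p ^ s)).val) (χ : G → ℂ) w / p) ∧
      MemLocalRing M (conj (X (y ^ (v : ZMod (p ^ s)).val) (χ : G → ℂ) w) / p)) :
    (S.card : ℝ) * (p : ℝ) ^ 2 ≤ (dp w w : ℝ) := by
  have hp := hM.1
  have hMp := isPrime_of_isPModular hM
  have : NeZero (p ^ s) := ⟨pow_ne_zero _ hp.ne_zero⟩
  have hyH : y ∈ H := by rw [hH, Subgroup.mem_centralizer_singleton_iff]
  have hyc : ∀ h ∈ H, y * h = h * y := by
    intro h hh
    rw [hH, Subgroup.mem_centralizer_singleton_iff] at hh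
    exact hh.symm
  have hys : y ^ (p ^ s) = 1 := by rw [← hy, pow_orderOf_eq_one]
  apply sum_le_of_low hp hy hH hw S
  intro χ hχ
  obtain ⟨N, hN⟩ := X_galois χ hyH hyc w
  apply card_units_mul_le_sum_of_pos hM (p ^ s)
    (fun i : IrrCharacter H × IrrCharacter H => N i.1 * N i.2)
    (fun i => lam (i.1 : H → ℂ) ⟨y, hyH⟩ * conj (lam (i.2 : H → ℂ) ⟨y, hyH⟩))
  · intro i
    rw [mul_pow, ← map_pow, lam_pow_eq_one hyH hyc hys, lam_pow_eq_one hyH hyc hys, map_one,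
      one_mul]
  · intro v
    exact Complex.normSq_pos.mpr (hS χ hχ v).1
  · intro v
    rw [← Complex.mul_conj, hN, map_sum, Finset.sum_mul_sum, Fintype.sum_prod_type]
    apply Finset.sum_congr rfl
    intro i _
    apply Finset.sum_congr rfl
    intro j _
    rw [map_mul, map_intCast, map_pow, mul_pow]
    push_cast
    ring
  · intro v
    rw [← Complex.mul_conj]
    have := memLocalRing_mul (hS χ hχ v).2.1 (hS χ hχ v).2.2
    have e : X (y ^ (v : ZMod (p ^ s)).val) (χ : G → ℂ) w *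
        conj (X (y ^ (v : ZMod (p ^ s)).val) (χ : G → ℂ) w) / (p : ℂ) ^ 2 =
        X (y ^ (v : ZMod (p ^ s)).val) (χ : G → ℂ) w / p *
        (conj (X (y ^ (v : ZMod (p ^ s)).val) (χ : G → ℂ) w) / p) := by
      rw [div_mul_div_comm, sq]
    rw [e]
    exact this

end Cfsg.Agent.H6.RankTwo
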