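import Cfsg.Agent.H6.RankTwo2

/-!
# Major subsections of rank two: `k(B) ≤ p^d`
-/

set_option autoImplicit false
open Cfsg Cfsg.Agent.CharLib Cfsg.Agent.CharLib.L Cfsg.Agent.BlockLib Cfsg.Agent.Lib.Helper23
  Cfsg.Agent.Lib.Helper23.MinMax
  Cfsg.Agent.Lib.Helper23.Trunc Cfsg.Agent.H6.BlockSection Cfsg.Agent.Lib.Helper23.Sect
  Cfsg.Agent.Lib.Helper23.Subsect Cfsg.Agent.Lib.Helper23.Contrib Cfsg.Agent.H6.MajorSub
  Cfsg.Agent.H6.BinLattice Cfsg.Agent.H6.ProjLat Cfsg.Agent.H6.GalVanish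
  Cfsg.Agent.H6.HeightBound
open scoped ComplexConjugate

namespace Cfsg.Agent.H6.RankTwo

universe u
variable {G : Type u} [Group G] [Fintype G] {H : Subgroup G} [Fintype H]

theorem centralizer_inv (x : G) :
    Subgroup.centralizer ({x⁻¹} : Set G) = Subgroup.centralizer ({x} : Set G) := by
  ext c
  rw [Subgroup.mem_centralizer_singleton_iff, Subgroup.mem_centralizer_singleton_iff]
  constructor
  · intro h
    have : Commute c x⁻¹ := h
    exact (Commute.inv_right_iff.mp this).eq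
  · intro h
    have : Commute c x := h
    exact this.inv_right.eq

/-- not both decomposition numbers vanish -/
theorem not_both_zero {p : ℕ} {M : Ideal AlgInt} (hM : IsPModular p M) {x : G} {k : ℕ}
    (hx : orderOf x = p ^ k) (hH : H = Subgroup.centralizer ({x} : Set G))
    {b : Set (IrrCharacter H)} {B : Set (IrrCharacter G)} (hind : IsInducedBlock M H b B)
    (hd : blockDefect p b = blockDefect p B)
    {w₁ w₂ : IrrCharacter H → ℤ} (hw₁ : w₁ ∈ lat p b) (hw₂ : w₂ ∈ lat p b)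
    (hgen : ∀ w ∈ lat p b, ∃ x y : ℤ, w = x • w₁ + y • w₂) (hdisc : disc w₁ w₂ ≠ 0)
    {χ : IrrCharacter G} (hχ : χ ∈ B) (h1 : X x (χ : G → ℂ) w₁ = 0)
    (h2 : X x (χ : G → ℂ) w₂ = 0) : False := by
  have htop := ne_top_of_isPModular hM
  have hxc : ∀ h ∈ H, x * h = h * x := by
    intro h hh
    rw [hH, Subgroup.mem_centralizer_singleton_iff] at hh
    exact hh.symm
  obtain ⟨ψ, hψ, hmin⟩ := exists_minExp (p := p) (nonempty_of_isPBlock htop hind.2.1)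
  have h3 := disc_mul_contrib hM hxc hind.1 hw₁ hw₂ hgen χ ψ
  rw [h1, h2] at h3
  simp only [mul_zero, sub_zero, zero_mul, add_zero] at h3
  have h4 : contrib p b x (χ : G → ℂ) (ψ : G → ℂ) = 0 :=
    (mul_eq_zero.mp h3).resolve_left (by exact_mod_cast hdisc)
  apply (contrib_major hM hx hH hind hd hχ hψ hmin).2
  rw [h4, mul_zero, zero_div]
  exact memLocalIdeal_zero htop

/-- the generic case -/
theorem card_le_generic {p s : ℕ} {M : Ideal AlgInt} (hM : IsPModular p M) {y : G}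
    (hy : orderOf y = p ^ s) (hH : H = Subgroup.centralizer ({y} : Set G))
    {b : Set (IrrCharacter H)} {B : Set (IrrCharacter G)} (hind : IsInducedBlock M H b B)
    (hd : blockDefect p b = blockDefect p B)
    {w₁ w₂ : IrrCharacter H → ℤ} (hw₁ : w₁ ∈ lat p b) (hw₂ : w₂ ∈ lat p b)
    (hgen : ∀ w ∈ lat p b, ∃ x y : ℤ, w = x • w₁ + y • w₂) (hdisc : disc w₁ w₂ ≠ 0)
    (F : Finset (IrrCharacter G)) (hF : ∀ χ ∈ F, χ ∈ B) :
    (F.card : ℝ) ≤ ((dp w₁ w₁ + dp w₂ w₂ - |dp w₁ w₂| : ℤ) : ℝ) := by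
  classical
  have hp := hM.1
  obtain ⟨ε, hε, hεb⟩ : ∃ ε : ℤ, ε ≠ 0 ∧ ε ^ 2 = 1 ∧ ε * dp w₁ w₂ = |dp w₁ w₂| := by
    rcases abs_cases (dp w₁ w₂) with ⟨h, _⟩ | ⟨h, _⟩
    · exact ⟨1, one_ne_zero, by norm_num, by rw [h, one_mul]⟩
    · exact ⟨-1, by norm_num, by norm_num, by rw [h]; ring⟩
  set w₃ : IrrCharacter H → ℤ := (1 : ℤ) • w₁ + (-ε) • w₂ with hw₃def
  have hw₃ : w₃ ∈ lat p b :=
    (lat p b).add_mem ((lat p b).zsmul_mem hw₁ _) ((lat p b).zsmul_mem hw₂ _)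
  have hn₃ : dp w₃ w₃ = dp w₁ w₁ + dp w₂ w₂ - 2 * |dp w₁ w₂| := by
    simp only [hw₃def, dp_add_left, dp_add_right, dp_smul_left, dp_smul_right, dp_comm w₂ w₁]
    rw [← hεb.2]
    linear_combination dp w₂ w₂ * hεb.1
  have hX₃ : ∀ χ : IrrCharacter G, X y (χ : G → ℂ) w₃ =
      X y (χ : G → ℂ) w₁ - ε * X y (χ : G → ℂ) w₂ := by
    intro χ
    rw [hw₃def, X_comb]
    push_cast
    ring
  have c1 := card_le_dp hp hy hH hw₁ (F.filter fun χ : IrrCharacter G => X y (χ : G → ℂ) w₁ ≠ 0)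
    (fun χ hχ => (Finset.mem_filter.1 hχ).2)
  have c2 := card_le_dp hp hy hH hw₂ (F.filter fun χ : IrrCharacter G => X y (χ : G → ℂ) w₂ ≠ 0)
    (fun χ hχ => (Finset.mem_filter.1 hχ).2)
  have c3 := card_le_dp hp hy hH hw₃ (F.filter fun χ : IrrCharacter G => X y (χ : G → ℂ) w₃ ≠ 0)
    (fun χ hχ => (Finset.mem_filter.1 hχ).2)
  have hcount : 2 * F.card ≤ (F.filter fun χ : IrrCharacter G => X y (χ : G → ℂ) w₁ ≠ 0).card +
      (F.filter fun χ : IrrCharacter G => X y (χ : G → ℂ) w₂ ≠ 0).card +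
      (F.filter fun χ : IrrCharacter G => X y (χ : G → ℂ) w₃ ≠ 0).card := by
    rw [Finset.card_filter, Finset.card_filter, Finset.card_filter, ← Finset.sum_add_distrib,
      ← Finset.sum_add_distrib, mul_comm, ← smul_eq_mul, ← Finset.sum_const]
    apply Finset.sum_le_sum
    intro χ hχ
    have hnb := fun h1 h2 => not_both_zero hM hy hH hind hd hw₁ hw₂ hgen hdisc (hF χ hχ) h1 h2
    by_cases h1 : X y (χ : G → ℂ) w₁ = 0
    · have h2 : X y (χ : G → ℂ) w₂ ≠ 0 := fun h2 => hnb h1 h2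
      have h3 : X y (χ : G → ℂ) w₃ ≠ 0 := by
        rw [hX₃, h1, zero_sub, neg_ne_zero]
        exact mul_ne_zero (by exact_mod_cast hε) h2
      simp [h1, h2, h3]
    · by_cases h2 : X y (χ : G → ℂ) w₂ = 0
      · have h3 : X y (χ : G → ℂ) w₃ ≠ 0 := by
          rw [hX₃, h2, mul_zero, sub_zero]
          exact h1
        simp [h1, h2, h3]
      · simp [h1, h2]
  have hcountR : 2 * (F.card : ℝ) ≤ ((F.filter fun χ : IrrCharacter G => X y (χ : G → ℂ) w₁ ≠ 0).card : ℝ) +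
      ((F.filter fun χ : IrrCharacter G => X y (χ : G → ℂ) w₂ ≠ 0).card : ℝ) +
      ((F.filter fun χ : IrrCharacter G => X y (χ : G → ℂ) w₃ ≠ 0).card : ℝ) := by exact_mod_cast hcount
  rw [hn₃] at c3
  push_cast at c3 ⊢
  linarith


/-- the contributions in the exceptional case -/
theorem exc_formula {p : ℕ} {M : Ideal AlgInt} (hM : IsPModular p M) {x : G}
    (hxc : ∀ h ∈ H, x * h = h * x) {b : Set (IrrCharacter H)} (hb : IsPBlock M b)
    {w₁ w₂ : IrrCharacter H → ℤ} (hw₁ : w₁ ∈ lat p b) (hw₂ : w₂ ∈ lat p b)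
    (hgen : ∀ w ∈ lat p b, ∃ x y : ℤ, w = x • w₁ + y • w₂)
    (h0 : dp w₁ w₂ = 0) (h2 : dp w₂ w₂ = (p : ℤ) ^ blockDefect p b) {i : ℕ}
    (hi : i < blockDefect p b) (h1 : dp w₁ w₁ = (p : ℤ) ^ i) (χ ψ : IrrCharacter G) :
    (p : ℂ) ^ blockDefect p b * contrib p b x (χ : G → ℂ) (ψ : G → ℂ) =
      (p : ℂ) ^ (blockDefect p b - i) * (X x (χ : G → ℂ) w₁ * conj (X x (ψ : G → ℂ) w₁)) +
      X x (χ : G → ℂ) w₂ * conj (X x (ψ : G → ℂ) w₂) := by
  have hp0 : (p : ℂ) ≠ 0 := by exact_mod_cast hM.1.ne_zero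
  have h3 := disc_mul_contrib hM hxc hb hw₁ hw₂ hgen χ ψ
  simp only [disc, h0, h1, h2] at h3
  push_cast at h3
  have e : (p : ℂ) ^ blockDefect p b = (p : ℂ) ^ i * (p : ℂ) ^ (blockDefect p b - i) := by
    rw [← pow_add, Nat.add_sub_cancel' hi.le]
  apply mul_left_cancel₀ (pow_ne_zero i hp0)
  have e2 : (p : ℂ) ^ i * ((p : ℂ) ^ (blockDefect p b - i) *
      (X x (χ : G → ℂ) w₁ * conj (X x (ψ : G → ℂ) w₁)) +
      X x (χ : G → ℂ) w₂ * conj (X x (ψ : G → ℂ) w₂)) =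
      (p : ℂ) ^ blockDefect p b * (X x (χ : G → ℂ) w₁ * conj (X x (ψ : G → ℂ) w₁)) +
      (p : ℂ) ^ i * (X x (χ : G → ℂ) w₂ * conj (X x (ψ : G → ℂ) w₂)) := by
    rw [e]; ring
  rw [e2]
  linear_combination h3

theorem exc_local {p : ℕ} {M : Ideal AlgInt} (hM : IsPModular p M) {x : G} {k : ℕ}
    (hx : orderOf x = p ^ k) (hH : H = Subgroup.centralizer ({x} : Set G))
    {b : Set (IrrCharacter H)} {B : Set (IrrCharacter G)} (hind : IsInducedBlock M H b B)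
    (hd : blockDefect p b = blockDefect p B)
    {w₁ w₂ : IrrCharacter H → ℤ} (hw₁ : w₁ ∈ lat p b) (hw₂ : w₂ ∈ lat p b)
    (hgen : ∀ w ∈ lat p b, ∃ x y : ℤ, w = x • w₁ + y • w₂) (hdisc : disc w₁ w₂ ≠ 0)
    (h0 : dp w₁ w₂ = 0) (h2 : dp w₂ w₂ = (p : ℤ) ^ blockDefect p b) {i : ℕ}
    (hi : i < blockDefect p b) (h1 : dp w₁ w₁ = (p : ℤ) ^ i)
    {χ : IrrCharacter G} (hχ : χ ∈ B)
    (hht : minExp p B < (charDegree (χ : G → ℂ)).factorization p)
    (hX1 : X x (χ : G → ℂ) w₁ = 0) :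
    X x (χ : G → ℂ) w₂ ≠ 0 ∧ MemLocalRing M (X x (χ : G → ℂ) w₂ / p) := by
  have hMp := isPrime_of_isPModular hM
  have htop := ne_top_of_isPModular hM
  have hp0 : (p : ℂ) ≠ 0 := by exact_mod_cast hM.1.ne_zero
  have hxH : x ∈ H := by rw [hH, Subgroup.mem_centralizer_singleton_iff]
  have hxc : ∀ h ∈ H, x * h = h * x := by
    intro h hh
    rw [hH, Subgroup.mem_centralizer_singleton_iff] at hh
    exact hh.symm
  have hxk : x ^ (p ^ k) = 1 := by rw [← hx, pow_orderOf_eq_one]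
  have hxc' : ∀ h ∈ H, x⁻¹ * h = h * x⁻¹ := fun h hh =>
    ((show Commute x h from hxc h hh).inv_left).eq
  have hxk' : x⁻¹ ^ (p ^ k) = 1 := by rw [inv_pow, hxk, inv_one]
  have hpk : 0 < p ^ k := pow_pos hM.1.pos _
  refine ⟨fun h => not_both_zero hM hx hH hind hd hw₁ hw₂ hgen hdisc hχ hX1 h, ?_⟩
  obtain ⟨ψ, hψ, hmin⟩ := exists_minExp (p := p) (nonempty_of_isPBlock htop hind.2.1)
  have hy0R : MemLocalRing M (conj (X x (ψ : G → ℂ) w₂)) := by
    rw [conj_X ψ hxH hxc]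
    exact memLocalRing_X ψ (H.inv_mem hxH) hxc' hpk hxk' w₂
  have hy0U : ¬ MemLocalIdeal M (conj (X x (ψ : G → ℂ) w₂)) := by
    intro hc
    apply contrib_unit hM hind hψ hmin hψ hmin hxH hxc hxk
    rw [exc_formula hM hxc hind.1 hw₁ hw₂ hgen h0 h2 hi h1]
    apply memLocalIdeal_add
    · apply memLocalIdeal_mul_right
      · obtain ⟨m, hm⟩ : ∃ m, blockDefect p b - i = m + 1 := ⟨blockDefect p b - i - 1, by omega⟩
        rw [hm, pow_succ]
        exact memLocalIdeal_mul_left (memLocalRing_pow (memLocalRing_natCast htop p) m)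
          (memLocalIdeal_p hM)
      · apply memLocalRing_mul (memLocalRing_X ψ hxH hxc hpk hxk w₁)
        rw [conj_X ψ hxH hxc]
        exact memLocalRing_X ψ (H.inv_mem hxH) hxc' hpk hxk' w₁
    · exact memLocalIdeal_mul_left (memLocalRing_X ψ hxH hxc hpk hxk w₂) hc
  have hf := exc_formula hM hxc hind.1 hw₁ hw₂ hgen h0 h2 hi h1 χ ψ
  rw [hX1, zero_mul, mul_zero, zero_add] at hf
  have hT := (contrib_major hM hx hH hind hd hχ hψ hmin).1
  have hs := memLocalRing_sdeg_div hM hχ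
  obtain ⟨m, hm⟩ : ∃ m, (charDegree (χ : G → ℂ)).factorization p - minExp p B = m + 1 :=
    ⟨(charDegree (χ : G → ℂ)).factorization p - minExp p B - 1, by omega⟩
  rw [hm] at hs
  have hs' : MemLocalRing M (sdeg p B (χ : G → ℂ) / p) := by
    have e : sdeg p B (χ : G → ℂ) / p = sdeg p B (χ : G → ℂ) / (p : ℂ) ^ (m + 1) * (p : ℂ) ^ m := by
      rw [pow_succ]
      field_simp
    rw [e]
    exact memLocalRing_mul hs (memLocalRing_pow (memLocalRing_natCast htop p) m)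
  have hy00 : conj (X x (ψ : G → ℂ) w₂) ≠ 0 := ne_zero_of_not_memLocalIdeal htop hy0U
  have e : X x (χ : G → ℂ) w₂ / p = (sdeg p B (χ : G → ℂ) / p *
      ((Nat.card G : ℂ) * contrib p b x (χ : G → ℂ) (ψ : G → ℂ) / (χ : G → ℂ) 1)) /
      conj (X x (ψ : G → ℂ) w₂) := by
    have hG : (Nat.card G : ℂ) ≠ 0 := card_ne_zero_complex
    have hχ1 : (χ : G → ℂ) 1 ≠ 0 := irr_apply_one_ne_zero χ
    rw [eq_div_iff hy00, sdeg, ← hd]
    have : X x (χ : G → ℂ) w₂ / p * conj (X x (ψ : G → ℂ) w₂) =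
        (X x (χ : G → ℂ) w₂ * conj (X x (ψ : G → ℂ) w₂)) / p := by ring
    rw [this, ← hf]
    field_simp
  rw [e]
  exact memLocalRing_div (memLocalRing_mul hs' hT) hy0R hy0U


/-- the exceptional case -/
theorem card_le_exc {p s : ℕ} {M : Ideal AlgInt} (hM : IsPModular p M) {y : G}
    (hy : orderOf y = p ^ s) (hH : H = Subgroup.centralizer ({y} : Set G))
    {b : Set (IrrCharacter H)} {B : Set (IrrCharacter G)} (hind : IsInducedBlock M H b B)
    (hd : blockDefect p b = blockDefect p B)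
    {w₁ w₂ : IrrCharacter H → ℤ} (hw₁ : w₁ ∈ lat p b) (hw₂ : w₂ ∈ lat p b)
    (hgen : ∀ w ∈ lat p b, ∃ x y : ℤ, w = x • w₁ + y • w₂) (hdisc : disc w₁ w₂ ≠ 0)
    (h0 : dp w₁ w₂ = 0) (h2 : dp w₂ w₂ = (p : ℤ) ^ blockDefect p b) {i : ℕ}
    (hi : i < blockDefect p b) (h1 : dp w₁ w₁ = (p : ℤ) ^ i)
    (F : Finset (IrrCharacter G)) (hF : ∀ χ ∈ F, χ ∈ B) :
    (F.card : ℝ) ≤ (p : ℝ) ^ blockDefect p b := by
  classical
  have hp := hM.1
  have htop := ne_top_of_isPModular hM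
  have hyH : y ∈ H := by rw [hH, Subgroup.mem_centralizer_singleton_iff]
  have hyc : ∀ h ∈ H, y * h = h * y := by
    intro h hh
    rw [hH, Subgroup.mem_centralizer_singleton_iff] at hh
    exact hh.symm
  have hys : y ^ (p ^ s) = 1 := by rw [← hy, pow_orderOf_eq_one]
  by_cases hA : ∀ χ ∈ F, X y (χ : G → ℂ) w₂ ≠ 0
  · have := card_le_dp hp hy hH hw₂ F hA
    rw [h2] at this
    exact_mod_cast this
  push_neg at hA
  obtain ⟨χ₁, hχ₁, hχ₁0⟩ := hA
  have cS := card_le_dp hp hy hH hw₁ (F.filter fun χ : IrrCharacter G => X y (χ : G → ℂ) w₁ ≠ 0)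
    (fun χ hχ => (Finset.mem_filter.1 hχ).2)
  have cR := card_mul_sq_le_dp hM hy hH hw₂
    (F.filter fun χ : IrrCharacter G => ¬ X y (χ : G → ℂ) w₁ ≠ 0) (by
    intro χ hχ v
    obtain ⟨hχF, hχ0⟩ := Finset.mem_filter.1 hχ
    rw [not_not] at hχ0
    have hχB := hF χ hχF
    have hht : minExp p B < (charDegree (χ : G → ℂ)).factorization p := by
      apply lt_of_le_of_ne (minExp_le hχB)
      intro hmin
      have hf := exc_formula hM hyc hind.1 hw₁ hw₂ hgen h0 h2 hi h1 χ₁ χ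
      rw [hχ₁0, hχ0, map_zero, mul_zero, mul_zero, zero_mul, add_zero] at hf
      have h4 : contrib p b y (χ₁ : G → ℂ) (χ : G → ℂ) = 0 :=
        (mul_eq_zero.mp hf).resolve_left (pow_ne_zero _ (by exact_mod_cast hp.ne_zero))
      apply (contrib_major hM hy hH hind hd (hF χ₁ hχ₁) hχB hmin.symm).2
      rw [h4, mul_zero, zero_div]
      exact memLocalIdeal_zero htop
    set x := y ^ (v : ZMod (p ^ s)).val with hxdef
    have hx := orderOf_pow_unit hy v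
    have hHx := centralizer_pow_unit hy hH v
    have hxH : x ∈ H := H.pow_mem hyH _
    have hxc : ∀ h ∈ H, x * h = h * x := fun h hh =>
      ((show Commute y h from hyc h hh).pow_left _).eq
    have hX1 : X x (χ : G → ℂ) w₁ = 0 :=
      (X_pow_eq_zero_iff hp hys hyH hyc χ w₁ (ZMod.val_coe_unit_coprime v)).mpr hχ0
    have L1 := exc_local hM hx hHx hind hd hw₁ hw₂ hgen hdisc h0 h2 hi h1 hχB hht hX1
    have hX1' : X x⁻¹ (χ : G → ℂ) w₁ = 0 := by
      rw [← conj_X χ hxH hxc, hX1, map_zero]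
    have L2 := exc_local hM (x := x⁻¹) (by rw [orderOf_inv]; exact hx)
      (by rw [centralizer_inv]; exact hHx) hind hd hw₁ hw₂ hgen hdisc h0 h2 hi h1 hχB hht hX1'
    refine ⟨L1.1, L1.2, ?_⟩
    rw [conj_X χ hxH hxc]
    exact L2.2)
  have hsplit := Finset.card_filter_add_card_filter_not (s := F)
    (fun χ : IrrCharacter G => X y (χ : G → ℂ) w₁ ≠ 0)
  have hsplitR : (F.card : ℝ) =
      ((F.filter fun χ : IrrCharacter G => X y (χ : G → ℂ) w₁ ≠ 0).card : ℝ) +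
      ((F.filter fun χ : IrrCharacter G => ¬ X y (χ : G → ℂ) w₁ ≠ 0).card : ℝ) := by
    exact_mod_cast hsplit.symm
  rw [h1] at cS
  rw [h2] at cR
  push_cast at cS cR
  have hp2 : (2 : ℝ) ≤ p := by exact_mod_cast hp.two_le
  obtain ⟨m, hm⟩ : ∃ m, blockDefect p b = i + 1 + m := ⟨blockDefect p b - (i + 1), by omega⟩
  have hpi : (0 : ℝ) < (p : ℝ) ^ i := by positivity
  have hpm : (1 : ℝ) ≤ (p : ℝ) ^ m := one_le_pow₀ (by linarith)
  have hP : (p : ℝ) ^ blockDefect p b = (p : ℝ) ^ i * p * (p : ℝ) ^ m := by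
    rw [hm, pow_add, pow_succ]
  have hsq : (0 : ℝ) < (p : ℝ) ^ 2 := by positivity
  have key : (p : ℝ) ^ 2 * (F.card : ℝ) ≤ (p : ℝ) ^ 2 * (p : ℝ) ^ blockDefect p b := by
    rw [hsplitR]
    have e1 : (p : ℝ) ^ 2 * (p : ℝ) ^ i ≤ p * (p : ℝ) ^ blockDefect p b := by
      rw [hP]
      have : (p : ℝ) ^ 2 * (p : ℝ) ^ i * 1 ≤ (p : ℝ) ^ 2 * (p : ℝ) ^ i * (p : ℝ) ^ m :=
        mul_le_mul_of_nonneg_left hpm (by positivity)
      nlinarith
    have e2 : (p + 1 : ℝ) * (p : ℝ) ^ blockDefect p b ≤ (p : ℝ) ^ 2 * (p : ℝ) ^ blockDefect p b := by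
      apply mul_le_mul_of_nonneg_right _ (by positivity)
      nlinarith
    nlinarith
  exact le_of_mul_le_mul_left key hsq

open Classical in
/-- **Olsson**: `k(B) ≤ p^d` if there is a major subsection `(y, b)` with `l(b) = 2` -/
theorem card_le_of_rank_two {p : ℕ} [Fact p.Prime] {M : Ideal AlgInt} (hM : IsPModular p M)
    {y : G} {s : ℕ} (hy : orderOf y = p ^ s) [Fintype (Subgroup.centralizer ({y} : Set G))]
    {b : Set (IrrCharacter (Subgroup.centralizer ({y} : Set G)))}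
    {B : Set (IrrCharacter G)}
    (hind : IsInducedBlock M (Subgroup.centralizer ({y} : Set G)) b B)
    (hd : blockDefect p b = blockDefect p B) (hrank : blockRank p b = 2) :
    Nat.card B ≤ p ^ blockDefect p B := by
  obtain ⟨w₁, hw₁, w₂, hw₂, -, hdisc, hgen, hcase⟩ := exists_basis hM hind.1 hrank
  set F := Finset.univ.filter (fun χ : IrrCharacter G => χ ∈ B) with hF
  have hFB : ∀ χ ∈ F, χ ∈ B := fun χ hχ => (Finset.mem_filter.1 hχ).2
  have h3 : Nat.card B = F.card := by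
    rw [Nat.card_eq_fintype_card, hF, ← Fintype.card_subtype]
  rw [h3, ← hd]
  have : (F.card : ℝ) ≤ (p : ℝ) ^ blockDefect p b := by
    rcases hcase with h | ⟨h0, h2, i, hi, h1⟩
    · have h4 := card_le_generic hM hy rfl hind hd hw₁ hw₂ hgen hdisc F hFB
      have h5 : ((dp w₁ w₁ + dp w₂ w₂ - |dp w₁ w₂| : ℤ) : ℝ) ≤
          (((p : ℤ) ^ blockDefect p b : ℤ) : ℝ) := by exact_mod_cast h
      push_cast at h5 h4 ⊢
      linarith
    · exact card_le_exc hM hy rfl hind hd hw₁ hw₂ hgen hdisc h0 h2 hi h1 F hFB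
  exact_mod_cast this

end Cfsg.Agent.H6.RankTwo
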