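import Mathlib
import Cfsg.Prelude.Def_ClassicalGeometry

set_option autoImplicit false

namespace Cfsg.Agent.H6

open Matrix
open scoped LinearAlgebra.Projectivization

theorem exists_vecMulVec_of_rank_one {ι : Type*} [Fintype ι] [DecidableEq ι] {F : Type*} [Field F]
    (N : Matrix ι ι F) (h : N.rank = 1) :
    ∃ u w : ι → F, u ≠ 0 ∧ w ≠ 0 ∧ N = vecMulVec u w := by
  have h1 : Module.finrank F (LinearMap.range N.mulVecLin) = 1 := h
  obtain ⟨⟨u, hu⟩, hu0, hall⟩ := finrank_eq_one_iff'.mp h1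
  have hex : ∀ j : ι, ∃ c : F, c • u = N *ᵥ (Pi.single j 1) := by
    intro j
    obtain ⟨c, hc⟩ := hall ⟨N *ᵥ (Pi.single j 1), ⟨Pi.single j 1, rfl⟩⟩
    exact ⟨c, congrArg Subtype.val hc⟩
  choose w hw using hex
  have hN : N = vecMulVec u w := by
    ext i j
    have := congrFun (hw j) i
    rw [Matrix.mulVec_single_one] at this
    rw [Matrix.vecMulVec_apply, mul_comm]
    simpa using this.symm
  refine ⟨u, w, fun h0 => hu0 (Subtype.ext h0), ?_, hN⟩
  intro hw0
  rw [hw0] at hN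
  rw [hN] at h
  simp at h

theorem exists_SL_mulVec_eq {ι : Type*} [Fintype ι] [DecidableEq ι] {F : Type*} [Field F]
    (w : ι → F) (hw : w ≠ 0) (i0 : ι) :
    ∃ (h : Matrix.SpecialLinearGroup ι F) (a : F), a ≠ 0 ∧
      (h : Matrix ι ι F) *ᵥ w = a • Pi.single i0 1 := by
  have he : (Pi.single i0 1 : ι → F) ≠ 0 := by
    intro h0
    have := congrFun h0 i0
    simp at this
  obtain ⟨h, hh⟩ := MulAction.exists_smul_eq (Matrix.SpecialLinearGroup ι F)
    (Projectivization.mk F w hw) (Projectivization.mk F (Pi.single i0 1 : ι → F) he)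
  rw [Projectivization.smul_mk, Projectivization.mk_eq_mk_iff] at hh
  obtain ⟨a, ha⟩ := hh
  exact ⟨h, a, a.ne_zero, ha.symm⟩

/-- conjugating `1 + u wᵀ` -/
theorem conj_one_add_vecMulVec {ι : Type*} [Fintype ι] [DecidableEq ι] {F : Type*} [Field F]
    (g t : Matrix.SpecialLinearGroup ι F) (u w : ι → F)
    (ht : (t : Matrix ι ι F) = 1 + vecMulVec u w) :
    ((g⁻¹ * t * g : Matrix.SpecialLinearGroup ι F) : Matrix ι ι F)
      = 1 + vecMulVec (((g⁻¹ : Matrix.SpecialLinearGroup ι F) : Matrix ι ι F) *ᵥ u)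
          (w ᵥ* (g : Matrix ι ι F)) := by
  rw [Matrix.SpecialLinearGroup.coe_mul, Matrix.SpecialLinearGroup.coe_mul, ht, mul_add, add_mul,
    mul_one, ← Matrix.SpecialLinearGroup.coe_mul, inv_mul_cancel, Matrix.SpecialLinearGroup.coe_one,
    Matrix.mul_vecMulVec, Matrix.vecMulVec_mul]

end Cfsg.Agent.H6
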