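import Cfsg.Agent.H6.HeightBound1
import Cfsg.Agent.Lib.Helper23.GalAvg2

/-!
# `2`-power cyclotomic integers: divisibility of coefficients and traces
-/

set_option autoImplicit false
open Cfsg Cfsg.Agent.CharLib Cfsg.Agent.CharLib.L Cfsg.Agent.BlockLib Cfsg.Agent.Lib.Helper23
  Cfsg.Agent.Lib.Helper23.Trunc Cfsg.Agent.H6.MajorSub Cfsg.Agent.H6.HeightBound
open scoped ComplexConjugate

namespace Cfsg.Agent.H6.TwoCyc

variable {M : Ideal AlgInt}

theorem memLocalRing_of_pow_eq_neg_one (hM : IsPModular 2 M) {ζ : ℂ} {s : ℕ}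
    (hζ : ζ ^ (2 ^ s) = -1) : MemLocalRing M ζ := by
  apply memLocalRing_of_isIntegral (ne_top_of_isPModular hM)
  apply isIntegral_of_pow_eq_one (n := 2 ^ (s + 1)) (by positivity)
  rw [pow_succ, pow_mul, hζ]; norm_num

theorem memLocalIdeal_sub_one (hM : IsPModular 2 M) {ζ : ℂ} {s : ℕ}
    (hζ : ζ ^ (2 ^ s) = -1) : MemLocalIdeal M (ζ - 1) := by
  apply memLocalIdeal_sub_one_of_pow_eq_one hM (k := s + 1)
  rw [pow_succ, pow_mul, hζ]; norm_num

theorem ne_one_of_pow_eq_neg_one {ζ : ℂ} {s : ℕ} (hζ : ζ ^ (2 ^ s) = -1) : ζ - 1 ≠ 0 := by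
  intro h
  rw [sub_eq_zero] at h
  rw [h, one_pow] at hζ
  norm_num at hζ

/-- `2` is associated to `(ζ - 1)^(2^s)` -/
theorem memLocalRing_two_div (hM : IsPModular 2 M) : ∀ (s : ℕ) (ζ : ℂ), ζ ^ (2 ^ s) = -1 →
    MemLocalRing M (2 / (ζ - 1) ^ (2 ^ s))
  | 0, ζ, hζ => by
    have htop := ne_top_of_isPModular hM
    rw [pow_zero, pow_one] at hζ
    rw [hζ]
    norm_num
    exact memLocalRing_neg (memLocalRing_one htop)
  | s + 1, ζ, hζ => by
    have hMp := isPrime_of_isPModular hM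
    have htop := ne_top_of_isPModular hM
    have hζ2 : (ζ ^ 2) ^ (2 ^ s) = -1 := by rw [← pow_mul, ← pow_succ']; exact hζ
    have ih := memLocalRing_two_div hM s (ζ ^ 2) hζ2
    have hπ := ne_one_of_pow_eq_neg_one hζ
    have hπ2 := ne_one_of_pow_eq_neg_one hζ2
    have hζR := memLocalRing_of_pow_eq_neg_one hM hζ
    have hfac : ζ ^ 2 - 1 = (ζ - 1) * (ζ + 1) := by ring
    have hp1 : ζ + 1 ≠ 0 := by
      intro h
      apply hπ2
      rw [hfac, h, mul_zero]
    have hπR : MemLocalRing M (ζ - 1) := memLocalRing_sub hζR (memLocalRing_one htop)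
    have hp1R : MemLocalRing M (ζ + 1) := memLocalRing_add hζR (memLocalRing_one htop)
    obtain ⟨k, hk⟩ : ∃ k, 2 ^ s = k + 1 := ⟨2 ^ s - 1, by
      have : 0 < 2 ^ s := by positivity
      omega⟩
    have h2π : MemLocalRing M (2 / (ζ - 1)) := by
      have e : 2 / (ζ - 1) = 2 / (ζ ^ 2 - 1) ^ (2 ^ s) * ((ζ - 1) ^ k * (ζ + 1) ^ (2 ^ s)) := by
        have e0 : (ζ - 1) ^ (2 ^ s) = (ζ - 1) ^ k * (ζ - 1) := by rw [hk, pow_succ]
        rw [hfac, mul_pow, e0]
        have := pow_ne_zero k hπ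
        have := pow_ne_zero (2 ^ s) hp1
        field_simp
      rw [e]
      exact memLocalRing_mul ih (memLocalRing_mul (memLocalRing_pow hπR _)
        (memLocalRing_pow hp1R _))
    have hq : MemLocalRing M ((ζ + 1) / (ζ - 1)) := by
      have e : (ζ + 1) / (ζ - 1) = 1 + 2 / (ζ - 1) := by
        field_simp
        ring
      rw [e]
      exact memLocalRing_add (memLocalRing_one htop) h2π
    have e : 2 / (ζ - 1) ^ (2 ^ (s + 1)) =
        2 / (ζ ^ 2 - 1) ^ (2 ^ s) * ((ζ + 1) / (ζ - 1)) ^ (2 ^ s) := by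
      have e0 : (ζ - 1) ^ (2 ^ (s + 1)) = (ζ - 1) ^ (2 ^ s) * (ζ - 1) ^ (2 ^ s) := by
        rw [← pow_add, pow_succ]; ring_nf
      rw [hfac, mul_pow, div_pow, e0]
      have := pow_ne_zero (2 ^ s) hπ
      have := pow_ne_zero (2 ^ s) hp1
      field_simp
    rw [e]
    exact memLocalRing_mul ih (memLocalRing_pow hq _)

/-- the `π`-adic expansion of an element divisible by `2` has even coefficients -/
theorem even_of_shift (hM : IsPModular 2 M) {s : ℕ} {ζ : ℂ} (hζ : ζ ^ (2 ^ s) = -1) :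
    ∀ (k : ℕ), k ≤ 2 ^ s → ∀ t : ℕ → ℤ,
      MemLocalRing M ((∑ i ∈ Finset.range k, (t i : ℂ) * (ζ - 1) ^ i) * (ζ - 1) ^ (2 ^ s - k) / 2) →
      ∀ i < k, (2 : ℤ) ∣ t i
  | 0, _, _, _ => fun i hi => absurd hi (Nat.not_lt_zero i)
  | k + 1, hk, t, h => by
    have hMp := isPrime_of_isPModular hM
    have htop := ne_top_of_isPModular hM
    have hπ := ne_one_of_pow_eq_neg_one hζ
    have hπI := memLocalIdeal_sub_one hM hζ
    have hπR := memLocalRing_of_memLocalIdeal hπI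
    have hε := memLocalRing_two_div hM s ζ hζ
    set π := ζ - 1 with hπdef
    set Sg := ∑ i ∈ Finset.range k, (t (i + 1) : ℂ) * π ^ i with hSg
    have hSgR : MemLocalRing M Sg := memLocalRing_sum _ _ fun i _ =>
      memLocalRing_mul (memLocalRing_intCast htop _) (memLocalRing_pow hπR _)
    have hsplit : ∑ i ∈ Finset.range (k + 1), (t i : ℂ) * π ^ i = π * Sg + t 0 := by
      rw [Finset.sum_range_succ', hSg, Finset.mul_sum, pow_zero, mul_one]
      congr 1
      apply Finset.sum_congr rfl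
      intro i _
      rw [pow_succ]; ring
    rw [hsplit] at h
    set γ := (π * Sg + t 0) * π ^ (2 ^ s - (k + 1)) / 2 with hγ
    have hpow : π ^ (2 ^ s) = π ^ (2 ^ s - (k + 1)) * π ^ (k + 1) := by
      rw [← pow_add, Nat.sub_add_cancel hk]
    have ht0 : (t 0 : ℂ) = 2 / π ^ (2 ^ s) * γ * π ^ (k + 1) - π * Sg := by
      rw [hγ, hpow]
      have := pow_ne_zero (2 ^ s - (k + 1)) hπ
      have := pow_ne_zero (k + 1) hπ
      field_simp
      ring
    have ht0I : MemLocalIdeal M (t 0 : ℂ) := by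
      rw [ht0]
      apply memLocalIdeal_sub
      · rw [pow_succ, ← mul_assoc]
        exact memLocalIdeal_mul_left
          (memLocalRing_mul (memLocalRing_mul hε h) (memLocalRing_pow hπR _)) hπI
      · exact memLocalIdeal_mul_right hπI hSgR
    have ht0d : (2 : ℤ) ∣ t 0 := by
      have := (memLocalIdeal_intCast_iff hM _).mp ht0I
      exact_mod_cast this
    obtain ⟨t0', ht0'⟩ := ht0d
    have hnext : MemLocalRing M (Sg * π ^ (2 ^ s - k) / 2) := by
      have e : Sg * π ^ (2 ^ s - k) / 2 = γ - t0' * π ^ (2 ^ s - (k + 1)) := by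
        have e1 : 2 ^ s - k = (2 ^ s - (k + 1)) + 1 := by omega
        rw [hγ, e1, pow_succ, ht0']
        push_cast
        ring
      rw [e]
      exact memLocalRing_sub h (memLocalRing_mul (memLocalRing_intCast htop _)
        (memLocalRing_pow hπR _))
    have ih := even_of_shift hM hζ k (by omega) (fun i => t (i + 1)) hnext
    intro i hi
    rcases i with _ | i
    · exact ⟨t0', ht0'⟩
    · exact ih i (by omega)


open Polynomial in
/-- a polynomial of degree `< 2^s` whose value at `ζ` is divisible by `2` is divisible by `2` -/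
theorem C_two_dvd (hM : IsPModular 2 M) {s : ℕ} {ζ : ℂ} (hζ : ζ ^ (2 ^ s) = -1) (P : ℤ[X])
    (hdeg : P.natDegree < 2 ^ s) (h : MemLocalRing M (aeval ζ P / 2)) : C (2 : ℤ) ∣ P := by
  set T := taylor 1 P with hT
  have hTdeg : T.natDegree < 2 ^ s := by rw [hT, natDegree_taylor]; exact hdeg
  have hP : P = taylor (-1) T := by
    rw [hT, taylor_taylor]; simp
  have hev : aeval ζ P = ∑ i ∈ Finset.range (2 ^ s), (T.coeff i : ℂ) * (ζ - 1) ^ i := by
    conv_lhs => rw [hP, taylor_apply, aeval_comp]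
    have : aeval ζ (X + C (-1 : ℤ)) = ζ - 1 := by simp [sub_eq_add_neg]
    rw [this, aeval_eq_sum_range' hTdeg]
    apply Finset.sum_congr rfl
    intro i _
    rw [zsmul_eq_mul]
  have hT2 : C (2 : ℤ) ∣ T := by
    rw [C_dvd_iff_dvd_coeff]
    intro i
    by_cases hi : i < 2 ^ s
    · apply even_of_shift hM hζ (2 ^ s) le_rfl (fun i => T.coeff i) _ i hi
      rw [Nat.sub_self, pow_zero, mul_one, ← hev]
      exact h
    · rw [coeff_eq_zero_of_natDegree_lt (by omega)]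
      exact dvd_zero _
  obtain ⟨T', hT'⟩ := hT2
  rw [hP, hT', taylor_mul, taylor_C]
  exact Dvd.intro _ rfl

open Polynomial in
theorem C_two_pow_dvd (hM : IsPModular 2 M) {s : ℕ} {ζ : ℂ} (hζ : ζ ^ (2 ^ s) = -1) :
    ∀ (c : ℕ) (P : ℤ[X]), P.natDegree < 2 ^ s → MemLocalRing M (aeval ζ P / 2 ^ c) →
      C ((2 : ℤ) ^ c) ∣ P
  | 0, P, _, _ => by simp
  | c + 1, P, hdeg, h => by
    have hMp := isPrime_of_isPModular hM
    have htop := ne_top_of_isPModular hM
    have h1 : MemLocalRing M (aeval ζ P / 2) := by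
      have e : aeval ζ P / 2 = aeval ζ P / 2 ^ (c + 1) * 2 ^ c := by
        rw [pow_succ]; field_simp
      rw [e]
      exact memLocalRing_mul h (memLocalRing_pow (by exact_mod_cast memLocalRing_natCast htop 2) c)
    obtain ⟨P', hP'⟩ := C_two_dvd hM hζ P hdeg h1
    have hdeg' : P'.natDegree < 2 ^ s := by
      rw [hP', natDegree_C_mul (by norm_num)] at hdeg
      exact hdeg
    have h2 : MemLocalRing M (aeval ζ P' / 2 ^ c) := by
      have e : aeval ζ P' / 2 ^ c = aeval ζ P / 2 ^ (c + 1) := by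
        rw [hP', map_mul, aeval_C, pow_succ]
        simp
        field_simp
      rw [e]; exact h
    obtain ⟨Q, hQ⟩ := C_two_pow_dvd hM hζ c P' hdeg' h2
    refine ⟨Q, ?_⟩
    rw [hP', hQ, ← mul_assoc, ← C_mul, pow_succ, mul_comm 2]

theorem int_pow_dvd_of_memLocalRing (hM : IsPModular 2 M) (c : ℕ) (k : ℤ)
    (h : MemLocalRing M ((k : ℂ) / 2 ^ c)) : (2 : ℤ) ^ c ∣ k := by
  have h2 : MemLocalRing M ((k.natAbs : ℂ) / ((2 : ℕ) : ℂ) ^ c) := by
    rcases Int.natAbs_eq k with e | e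
    · have : ((k.natAbs : ℕ) : ℂ) = (k : ℂ) := by
        conv_rhs => rw [e]
        simp
      rw [this]; exact_mod_cast h
    · have : ((k.natAbs : ℕ) : ℂ) = -(k : ℂ) := by
        conv_rhs => rw [e]
        simp
      rw [this, neg_div]
      exact memLocalRing_neg (by exact_mod_cast h)
  have := pow_dvd_of_memLocalRing hM c k.natAbs h2
  rw [← Int.natAbs_dvd_natAbs]
  simpa [Int.natAbs_pow] using this

theorem sq_eq_one_iff_of_side_cond {x : ℂ} (h : x ^ 2 = 1) : x = -1 ∨ x = 1 := by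
  have : (x - 1) * (x + 1) = 0 := by linear_combination h
  rcases mul_eq_zero.mp this with h | h
  · right; linear_combination h
  · left; linear_combination h

open Polynomial in
/-- the trace of a `2`-power cyclotomic integer divisible by `2^c` -/
theorem exists_avg (hM : IsPModular 2 M) {ι : Type*} [Fintype ι] (s : ℕ) (N : ι → ℤ)
    (ρ : ι → ℂ) (hρ : ∀ i, ρ i ^ (2 ^ s) = 1) (c : ℕ)
    (h : MemLocalRing M ((∑ i, (N i : ℂ) * ρ i ^ 1) / 2 ^ c)) :
    ∃ a : ℤ, ∑ v : (ZMod (2 ^ s))ˣ, ∑ i, (N i : ℂ) * ρ i ^ (v : ZMod (2 ^ s)).val =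
      (Fintype.card (ZMod (2 ^ s))ˣ : ℂ) * ((2 : ℂ) ^ c * a) := by
  classical
  rcases s with _ | s
  · have hρ1 : ∀ i, ρ i = 1 := fun i => by simpa using hρ i
    simp only [hρ1, one_pow, mul_one] at h ⊢
    have h' : MemLocalRing M (((∑ i, N i : ℤ) : ℂ) / 2 ^ c) := by push_cast; exact h
    obtain ⟨a, ha⟩ := int_pow_dvd_of_memLocalRing hM c _ h'
    refine ⟨a, ?_⟩
    have e : (∑ i, (N i : ℂ)) = (2 : ℂ) ^ c * a := by
      have := congrArg (fun z : ℤ => (z : ℂ)) ha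
      push_cast at this
      exact this
    rw [e]
    simp
  have hn0 : 2 ^ (s + 1) ≠ 0 := by positivity
  have hζ := Complex.isPrimitiveRoot_exp (2 ^ (s + 1)) hn0
  set ζ := Complex.exp (2 * Real.pi * Complex.I / ((2 ^ (s + 1) : ℕ) : ℂ)) with hζdef
  have hζm : ζ ^ (2 ^ s) = -1 := by
    have h1 : (ζ ^ (2 ^ s)) ^ 2 = 1 := by rw [← pow_mul, ← pow_succ]; exact hζ.pow_eq_one
    rcases sq_eq_one_iff_of_side_cond h1 with h2 | h2
    · exact h2
    · exfalso
      have := hζ.dvd_of_pow_eq_one _ h2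
      have h3 := Nat.le_of_dvd (by positivity) this
      rw [pow_succ] at h3
      have : 0 < 2 ^ s := by positivity
      omega
  have hk : ∀ i, ∃ k : ℕ, ζ ^ k = ρ i := fun i => by
    obtain ⟨k, _, hk⟩ := hζ.eq_pow_of_pow_eq_one (hρ i)
    exact ⟨k, hk⟩
  choose k hk using hk
  set P0 : ℤ[X] := ∑ i, C (N i) * X ^ k i with hP0
  have hev0 : ∀ w : ℕ, aeval (ζ ^ w) P0 = ∑ i, (N i : ℂ) * ρ i ^ w := by
    intro w
    rw [hP0, map_sum]
    apply Finset.sum_congr rfl
    intro i _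
    rw [map_mul, aeval_C, map_pow, aeval_X, ← hk i, ← pow_mul, ← pow_mul, mul_comm w]
    simp
  set q : ℤ[X] := X ^ (2 ^ s) + C 1 with hq
  have hqm : q.Monic := monic_X_pow_add_C 1 (by positivity)
  have hqdeg : q.natDegree = 2 ^ s := natDegree_X_pow_add_C
  have hq1 : q ≠ 1 := by
    intro h1
    rw [h1, natDegree_one] at hqdeg
    have : 0 < 2 ^ s := by positivity
    omega
  set P := P0 %ₘ q with hP
  have hPdeg : P.natDegree < 2 ^ s := by
    rw [← hqdeg]; exact natDegree_modByMonic_lt P0 hqm hq1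
  have hev : ∀ w : ℕ, Odd w → aeval (ζ ^ w) P = ∑ i, (N i : ℂ) * ρ i ^ w := by
    intro w hw
    rw [← hev0 w]
    conv_rhs => rw [← modByMonic_add_div P0 q]
    rw [map_add, map_mul]
    have : aeval (ζ ^ w) q = 0 := by
      rw [hq]
      simp only [map_add, map_pow, aeval_X, aeval_C, map_one]
      rw [← pow_mul, mul_comm, pow_mul, hζm, hw.neg_one_pow]
      ring
    rw [this, zero_mul, add_zero]
  have h1 : MemLocalRing M (aeval ζ P / 2 ^ c) := by
    have := hev 1 odd_one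
    rw [pow_one] at this
    rw [this]; exact h
  obtain ⟨Q, hQ⟩ := C_two_pow_dvd hM hζm c P hPdeg h1
  refine ⟨Q.coeff 0, ?_⟩
  have hodd : ∀ v : (ZMod (2 ^ (s + 1)))ˣ, Odd (v : ZMod (2 ^ (s + 1))).val :=
    fun v => GalAvg.odd_val_unit (Nat.succ_ne_zero s) v
  have e1 : ∀ v : (ZMod (2 ^ (s + 1)))ˣ,
      ∑ i, (N i : ℂ) * ρ i ^ (v : ZMod (2 ^ (s + 1))).val =
      ∑ j ∈ Finset.range (2 ^ s), (P.coeff j : ℂ) * (ζ ^ j) ^ (v : ZMod (2 ^ (s + 1))).val := by
    intro v
    rw [← hev _ (hodd v), aeval_eq_sum_range' hPdeg]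
    apply Finset.sum_congr rfl
    intro j _
    rw [zsmul_eq_mul, ← pow_mul, ← pow_mul, mul_comm j]
  simp only [e1]
  rw [Finset.sum_comm]
  simp only [← Finset.mul_sum]
  have e2 : ∀ j ∈ Finset.range (2 ^ s), (P.coeff j : ℂ) *
      ∑ v : (ZMod (2 ^ (s + 1)))ˣ, (ζ ^ j) ^ (v : ZMod (2 ^ (s + 1))).val =
      if j = 0 then (Fintype.card (ZMod (2 ^ (s + 1)))ˣ : ℂ) * (P.coeff 0 : ℂ) else 0 := by
    intro j hj
    have hj' := Finset.mem_range.mp hj
    rw [GalAvg.sum_units_pow_two (s + 1) (ζ ^ j) (by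
      rw [← pow_mul, mul_comm, pow_mul, hζ.pow_eq_one, one_pow])]
    by_cases hj0 : j = 0
    · subst hj0
      simp
      ring
    · rw [if_neg hj0]
      have hlt : j < 2 ^ (s + 1) := by rw [pow_succ]; omega
      have hne1 : ζ ^ j ≠ 1 := hζ.pow_ne_one_of_pos_of_lt hj0 hlt
      have hne2 : ζ ^ j ≠ -1 := by
        rw [← hζm]
        intro he
        have := hζ.pow_inj hlt (by rw [pow_succ]; omega) he
        omega
      rw [if_neg hne1, if_neg hne2]
      ring
  rw [Finset.sum_congr rfl e2, Finset.sum_ite_eq' (Finset.range (2 ^ s)) 0,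
    if_pos (Finset.mem_range.mpr (by positivity))]
  rw [hQ, coeff_C_mul]
  push_cast
  ring

end Cfsg.Agent.H6.TwoCyc
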