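import Cfsg.Agent.H6.TwoCyc

/-!
# Cyclotomic integers: traces and norms, continued
-/

set_option autoImplicit false
open Cfsg Cfsg.Agent.CharLib Cfsg.Agent.CharLib.L Cfsg.Agent.BlockLib Cfsg.Agent.Lib.Helper23
  Cfsg.Agent.Lib.Helper23.Trunc Cfsg.Agent.H6.MajorSub Cfsg.Agent.H6.HeightBound
open scoped ComplexConjugate

namespace Cfsg.Agent.H6.TwoCyc

variable {M : Ideal AlgInt}

theorem conj_root {ρ : ℂ} {n : ℕ} (hn : n ≠ 0) (hρ : ρ ^ n = 1) : conj ρ = ρ ^ (n - 1) := by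
  have h1 : ‖ρ‖ = 1 := Complex.norm_eq_one_of_pow_eq_one hρ hn
  rw [← Complex.inv_eq_conj h1]
  apply inv_eq_of_mul_eq_one_right
  rw [← pow_succ', Nat.sub_add_cancel (Nat.pos_of_ne_zero hn), hρ]

theorem conj_family {ι : Type*} [Fintype ι] {n : ℕ} (hn : n ≠ 0) (N : ι → ℤ)
    (ρ : ι → ℂ) (hρ : ∀ i, ρ i ^ n = 1) (u : ℕ) :
    conj (∑ i, (N i : ℂ) * ρ i ^ u) = ∑ i, (N i : ℂ) * ρ i ^ ((n - 1) * u) := by
  rw [map_sum]
  apply Finset.sum_congr rfl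
  intro i _
  rw [map_mul, map_intCast, map_pow, conj_root hn (hρ i), ← pow_mul]

theorem coprime_pred_mul {n u : ℕ} (hn : n ≠ 0) (hu : u.Coprime n) :
    ((n - 1) * u).Coprime n := by
  apply Nat.Coprime.mul_left _ hu
  obtain ⟨m, rfl⟩ : ∃ m, n = m + 1 := ⟨n - 1, by omega⟩
  simp

/-- scaled arithmetic-geometric mean inequality for the square norms of the conjugates -/
theorem card_units_mul_le_sum_normSq {p : ℕ} (hM : IsPModular p M) {ι : Type*} [Fintype ι]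
    (n : ℕ) [NeZero n] (N : ι → ℤ) (ρ : ι → ℂ) (hρ : ∀ i, ρ i ^ n = 1) (c : ℕ)
    (h : ∀ u : ℕ, u.Coprime n → (∑ i, (N i : ℂ) * ρ i ^ u ≠ 0 ∧
      MemLocalRing M ((∑ i, (N i : ℂ) * ρ i ^ u) / (p : ℂ) ^ c))) :
    (Fintype.card (ZMod n)ˣ : ℝ) * (p : ℝ) ^ (2 * c) ≤
      ∑ v : (ZMod n)ˣ, Complex.normSq (∑ i, (N i : ℂ) * ρ i ^ (v : ZMod n).val) := by
  have hMp := isPrime_of_isPModular hM
  have hn : n ≠ 0 := NeZero.ne n
  apply card_units_mul_le_sum_of_pos hM n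
    (fun i : ι × ι => N i.1 * N i.2) (fun i => ρ i.1 * conj (ρ i.2))
  · intro i
    rw [mul_pow, ← map_pow, hρ, hρ, map_one, one_mul]
  · intro v
    exact Complex.normSq_pos.mpr (h _ (ZMod.val_coe_unit_coprime v)).1
  · intro v
    rw [← Complex.mul_conj, map_sum, Finset.sum_mul_sum, Fintype.sum_prod_type]
    apply Finset.sum_congr rfl
    intro i _
    apply Finset.sum_congr rfl
    intro j _
    rw [map_mul, map_intCast, map_pow, mul_pow]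
    push_cast
    ring
  · intro v
    rw [← Complex.mul_conj, conj_family hn N ρ hρ]
    have h1 := (h _ (ZMod.val_coe_unit_coprime v)).2
    have h2 := (h _ (coprime_pred_mul hn (ZMod.val_coe_unit_coprime v))).2
    have := memLocalRing_mul h1 h2
    rw [div_mul_div_comm, ← pow_add, ← two_mul] at this
    exact this

theorem prod_le_exp {α : Type*} (s : Finset α) (x : α → ℝ) (hx : ∀ a ∈ s, 0 ≤ x a) :
    ∏ a ∈ s, x a ≤ Real.exp (∑ a ∈ s, (x a - 1)) := by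
  rw [Real.exp_sum]
  apply Finset.prod_le_prod hx
  intro a _
  have := Real.add_one_le_exp (x a - 1)
  linarith

/-- a totally positive `2`-power cyclotomic integer which is `2^c` times a non-unit has
trace at least `2^(c+1)` times the degree -/
theorem two_le_avg (hM : IsPModular 2 M) {ι : Type*} [Fintype ι] (s : ℕ) (N : ι → ℤ)
    (ρ : ι → ℂ) (hρ : ∀ i, ρ i ^ (2 ^ s) = 1) (c : ℕ) (r : (ZMod (2 ^ s))ˣ → ℝ)
    (hr : ∀ v, 0 < r v)
    (hβ : ∀ v : (ZMod (2 ^ s))ˣ, ∑ i, (N i : ℂ) * ρ i ^ (v : ZMod (2 ^ s)).val = (r v : ℂ))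
    (h1 : MemLocalRing M ((∑ i, (N i : ℂ) * ρ i ^ 1) / 2 ^ c))
    (hI : ∀ v, MemLocalIdeal M ((r v : ℂ) / 2 ^ c)) :
    ∃ a : ℤ, 2 ≤ a ∧ ∑ v, r v = (Fintype.card (ZMod (2 ^ s))ˣ : ℝ) * ((2 : ℝ) ^ c * a) := by
  classical
  have hMp := isPrime_of_isPModular hM
  have htop := ne_top_of_isPModular hM
  have : NeZero (2 ^ s) := ⟨by positivity⟩
  obtain ⟨a, ha⟩ := exists_avg hM s N ρ hρ c h1
  simp only [hβ] at ha
  have haR : ∑ v, r v = (Fintype.card (ZMod (2 ^ s))ˣ : ℝ) * ((2 : ℝ) ^ c * a) := by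
    have : ((∑ v, r v : ℝ) : ℂ) =
        (((Fintype.card (ZMod (2 ^ s))ˣ : ℝ) * ((2 : ℝ) ^ c * a) : ℝ) : ℂ) := by
      push_cast
      exact ha
    exact_mod_cast this
  refine ⟨a, ?_, haR⟩
  obtain ⟨K, hK⟩ := exists_int_prod (2 ^ s) N ρ hρ
  simp only [hβ] at hK
  set φ := Fintype.card (ZMod (2 ^ s))ˣ with hφ
  have hprodI : MemLocalIdeal M (∏ v : (ZMod (2 ^ s))ˣ, ((r v : ℂ) / 2 ^ c)) := by
    rw [← Finset.mul_prod_erase Finset.univ _ (Finset.mem_univ (1 : (ZMod (2 ^ s))ˣ))]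
    exact memLocalIdeal_mul_right (hI 1) (memLocalRing_prod _ _ fun v _ =>
      memLocalRing_of_memLocalIdeal (hI v))
  have hprodE : ∏ v : (ZMod (2 ^ s))ˣ, ((r v : ℂ) / 2 ^ c) = (K : ℂ) / 2 ^ (c * φ) := by
    rw [Finset.prod_div_distrib, hK, Finset.prod_const, Finset.card_univ, ← pow_mul]
  rw [hprodE] at hprodI
  obtain ⟨K', hK'⟩ := int_pow_dvd_of_memLocalRing hM _ K (memLocalRing_of_memLocalIdeal hprodI)
  have h2 : ((2 : ℂ) ^ (c * φ)) ≠ 0 := pow_ne_zero _ two_ne_zero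
  have hKK' : (K : ℂ) / 2 ^ (c * φ) = (K' : ℂ) := by
    rw [hK']
    push_cast
    field_simp
  rw [hKK'] at hprodI hprodE
  have hK'2 : (2 : ℤ) ∣ K' := by
    have := (memLocalIdeal_intCast_iff hM _).mp hprodI
    exact_mod_cast this
  have hprodR : ∏ v : (ZMod (2 ^ s))ˣ, (r v / 2 ^ c) = (K' : ℝ) := by
    have : ((∏ v : (ZMod (2 ^ s))ˣ, (r v / 2 ^ c) : ℝ) : ℂ) = ((K' : ℝ) : ℂ) := by
      push_cast
      exact hprodE
    exact_mod_cast this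
  have hpos : 0 < ∏ v : (ZMod (2 ^ s))ˣ, (r v / 2 ^ c) :=
    Finset.prod_pos fun v _ => div_pos (hr v) (by positivity)
  have hK'pos : 0 < K' := by
    rw [hprodR] at hpos
    exact_mod_cast hpos
  have hK'ge : (2 : ℝ) ≤ K' := by
    have := Int.le_of_dvd hK'pos hK'2
    exact_mod_cast this
  have hexp := prod_le_exp Finset.univ (fun v : (ZMod (2 ^ s))ˣ => r v / 2 ^ c)
    (fun v _ => (div_pos (hr v) (by positivity)).le)
  rw [hprodR, Finset.sum_sub_distrib, ← Finset.sum_div, haR] at hexp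
  by_contra hcon
  have ha1 : (a : ℝ) ≤ 1 := by
    have : a ≤ 1 := by omega
    exact_mod_cast this
  have hφ0 : (0 : ℝ) ≤ (φ : ℝ) := by positivity
  have hle : (φ : ℝ) * ((2 : ℝ) ^ c * a) / 2 ^ c - ∑ _v : (ZMod (2 ^ s))ˣ, (1 : ℝ) ≤ 0 := by
    have e : (φ : ℝ) * ((2 : ℝ) ^ c * a) / 2 ^ c = φ * a := by field_simp
    rw [e]
    simp only [Finset.sum_const, Finset.card_univ, nsmul_eq_mul, mul_one]
    nlinarith
  have := Real.exp_le_one_iff.mpr hle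
  linarith

end Cfsg.Agent.H6.TwoCyc
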