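import Cfsg.Agent.H6.TwoCyc2
import Cfsg.Agent.H6.RankTwo3

/-!
# Valuations of the contributions of a major subsection
-/

set_option autoImplicit false
open Cfsg Cfsg.Agent.CharLib Cfsg.Agent.CharLib.L Cfsg.Agent.BlockLib Cfsg.Agent.Lib.Helper23
  Cfsg.Agent.Lib.Helper23.MinMax
  Cfsg.Agent.Lib.Helper23.Trunc Cfsg.Agent.H6.BlockSection Cfsg.Agent.Lib.Helper23.Sect
  Cfsg.Agent.Lib.Helper23.Subsect Cfsg.Agent.Lib.Helper23.Contrib Cfsg.Agent.H6.MajorSub
  Cfsg.Agent.H6.HeightBound Cfsg.Agent.H6.TwoCyc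
open scoped ComplexConjugate

namespace Cfsg.Agent.H6.TwoMajor

universe u
variable {G : Type u} [Group G] [Fintype G] {H : Subgroup G} [Fintype H]

theorem conj_contrib_inv {p : ℕ} (hp : p.Prime) (b : Set (IrrCharacter H))
    (χ ψ : IrrCharacter G) {x : G} (hxH : x ∈ H) (hxc : ∀ h ∈ H, x * h = h * x) {n : ℕ}
    (hn : n ≠ 0) (hxn : x ^ n = 1) :
    conj (contrib p b x (χ : G → ℂ) (ψ : G → ℂ)) = contrib p b x⁻¹ (χ : G → ℂ) (ψ : G → ℂ) := by
  obtain ⟨N, hN⟩ := exists_galois_form hp b χ ψ hxH hxc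
  have hp0 : ((p : ℂ) ^ blockDefect p b) ≠ 0 := pow_ne_zero _ (by exact_mod_cast hp.ne_zero)
  have hρ : ∀ i : IrrCharacter H × IrrCharacter H,
      (lam (i.1 : H → ℂ) ⟨x, hxH⟩ * conj (lam (i.2 : H → ℂ) ⟨x, hxH⟩)) ^ n = 1 := by
    intro i
    rw [mul_pow, ← map_pow, lam_pow_eq_one hxH hxc hxn, lam_pow_eq_one hxH hxc hxn, map_one,
      one_mul]
  have h1 := hN 1
  have h2 := hN ((n - 1) * 1)
  have hinv : x ^ ((n - 1) * 1) = x⁻¹ := by
    rw [mul_one]
    apply eq_inv_of_mul_eq_one_left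
    rw [← pow_succ, Nat.sub_add_cancel (Nat.pos_of_ne_zero hn), hxn]
  rw [pow_one] at h1
  rw [hinv, ← conj_family hn N _ hρ 1, ← h1, map_mul, map_pow, Complex.conj_natCast] at h2
  exact (mul_left_cancel₀ hp0 h2).symm

/-- `p^d m_{χψ} = (p^d χ(1) / |G|) (|G| m_{χψ} / χ(1))` -/
theorem scaled_eq {p : ℕ} {b : Set (IrrCharacter H)} {B : Set (IrrCharacter G)}
    (hd : blockDefect p b = blockDefect p B) (x : G) (χ ψ : IrrCharacter G) :
    (p : ℂ) ^ blockDefect p b * contrib p b x (χ : G → ℂ) (ψ : G → ℂ) =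
    sdeg p B (χ : G → ℂ) *
      ((Nat.card G : ℂ) * contrib p b x (χ : G → ℂ) (ψ : G → ℂ) / (χ : G → ℂ) 1) := by
  rw [sdeg, hd]
  have h4 : (Nat.card G : ℂ) ≠ 0 := card_ne_zero_complex
  have h5 := irr_apply_one_ne_zero χ
  field_simp

theorem memLocalRing_scaled_div {p : ℕ} {M : Ideal AlgInt} (hM : IsPModular p M) {x : G}
    {k : ℕ} (hx : orderOf x = p ^ k) (hH : H = Subgroup.centralizer ({x} : Set G))
    {b : Set (IrrCharacter H)} {B : Set (IrrCharacter G)} (hb : IsPBlock M b)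
    (hd : blockDefect p b = blockDefect p B) {χ : IrrCharacter G} (hχ : χ ∈ B)
    (ψ : IrrCharacter G) :
    MemLocalRing M ((p : ℂ) ^ blockDefect p b * contrib p b x (χ : G → ℂ) (ψ : G → ℂ) /
      (p : ℂ) ^ ((charDegree (χ : G → ℂ)).factorization p - minExp p B)) := by
  have hMp := isPrime_of_isPModular hM
  rw [scaled_eq hd, mul_div_right_comm]
  exact memLocalRing_mul (memLocalRing_sdeg_div hM hχ) (memLocalRing_scaled_contrib hM hx hH hb χ ψ)

theorem memLocalIdeal_sdeg {p : ℕ} {M : Ideal AlgInt} (hM : IsPModular p M)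
    {B : Set (IrrCharacter G)} {χ : IrrCharacter G} (hχ : χ ∈ B)
    (hht : minExp p B < (charDegree (χ : G → ℂ)).factorization p) :
    MemLocalIdeal M (sdeg p B (χ : G → ℂ)) := by
  have hMp := isPrime_of_isPModular hM
  have htop := ne_top_of_isPModular hM
  have hp0 : (p : ℂ) ≠ 0 := by exact_mod_cast hM.1.ne_zero
  have hs := memLocalRing_sdeg_div hM hχ
  obtain ⟨m, hm⟩ : ∃ m, (charDegree (χ : G → ℂ)).factorization p - minExp p B = m + 1 :=
    ⟨(charDegree (χ : G → ℂ)).factorization p - minExp p B - 1, by omega⟩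
  rw [hm] at hs
  have e : sdeg p B (χ : G → ℂ) = sdeg p B (χ : G → ℂ) / (p : ℂ) ^ (m + 1) * (p : ℂ) ^ m * p := by
    rw [pow_succ]
    field_simp
  rw [e]
  exact memLocalIdeal_mul_left (memLocalRing_mul hs (memLocalRing_pow (memLocalRing_natCast htop p) m))
    (memLocalIdeal_p hM)

/-- **Brauer**: `|G| m_{χψ} / χ(1)` is a non-unit if `ψ` has positive height -/
theorem memLocalIdeal_contrib {p : ℕ} {M : Ideal AlgInt} (hM : IsPModular p M) {x : G} {k : ℕ}
    (hx : orderOf x = p ^ k) (hH : H = Subgroup.centralizer ({x} : Set G))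
    {b : Set (IrrCharacter H)} {B : Set (IrrCharacter G)} (hind : IsInducedBlock M H b B)
    (hd : blockDefect p b = blockDefect p B) {χ ψ : IrrCharacter G} (hχ : χ ∈ B) (hψ : ψ ∈ B)
    (hht : minExp p B < (charDegree (ψ : G → ℂ)).factorization p) :
    MemLocalIdeal M
      ((Nat.card G : ℂ) * contrib p b x (χ : G → ℂ) (ψ : G → ℂ) / (χ : G → ℂ) 1) := by
  have hMp := isPrime_of_isPModular hM
  have htop := ne_top_of_isPModular hM
  have hxH : x ∈ H := by rw [hH, Subgroup.mem_centralizer_singleton_iff]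
  have hxc : ∀ h ∈ H, x * h = h * x := by
    intro h hh
    rw [hH, Subgroup.mem_centralizer_singleton_iff] at hh
    exact hh.symm
  have hxk : x ^ (p ^ k) = 1 := by rw [← hx, pow_orderOf_eq_one]
  obtain ⟨ψ₀, hψ₀, hmin⟩ := exists_minExp (p := p) (nonempty_of_isPBlock htop hind.2.1)
  have hcl := isClassFunction_transp H x (cpart p b x (ψ : G → ℂ))
  have hR := memLocalRing_transp hM hx hH (isClassFunction_cpart p b x (ψ : G → ℂ))
    (cpart_singular p b x (ψ : G → ℂ)) (memLocalRing_cpart hM b hxH hxc hxk ψ)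
  have hsub := memLocalIdeal_omega_sub (isClassFunction_of_irr χ.2) (isClassFunction_of_irr ψ₀.2)
    (sameBlock_of_mem hind.2.1 hχ hψ₀) hcl hR
  rw [omega_transp_cpart hM hind.1 hxc χ ψ, omega_transp_cpart hM hind.1 hxc ψ₀ ψ] at hsub
  -- the value at `ψ₀`
  have h0 : MemLocalIdeal M
      ((p : ℂ) ^ blockDefect p b * contrib p b x (ψ₀ : G → ℂ) (ψ : G → ℂ)) := by
    rw [← contrib_conj, conj_contrib_inv hM.1 b ψ ψ₀ hxH hxc (pow_ne_zero k hM.1.ne_zero) hxk,
      scaled_eq hd]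
    exact memLocalIdeal_mul_right (memLocalIdeal_sdeg hM hψ hht)
      (memLocalRing_scaled_contrib hM (z := x⁻¹) (by rw [orderOf_inv]; exact hx)
        (by rw [Cfsg.Agent.H6.RankTwo.centralizer_inv]; exact hH) hind.1 ψ ψ₀)
  rw [scaled_eq hd] at h0
  have h1 : MemLocalIdeal M
      ((Nat.card G : ℂ) * contrib p b x (ψ₀ : G → ℂ) (ψ : G → ℂ) / (ψ₀ : G → ℂ) 1) := by
    rcases memLocalIdeal_or_of_mul (memLocalRing_sdeg hM hψ₀)
      (memLocalRing_scaled_contrib hM hx hH hind.1 ψ₀ ψ) h0 with h | h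
    · exact absurd h (not_memLocalIdeal_sdeg hM hψ₀ hmin)
    · exact h
  have := memLocalIdeal_add hsub h1
  rwa [sub_add_cancel] at this

theorem memLocalIdeal_scaled_div {p : ℕ} {M : Ideal AlgInt} (hM : IsPModular p M) {x : G}
    {k : ℕ} (hx : orderOf x = p ^ k) (hH : H = Subgroup.centralizer ({x} : Set G))
    {b : Set (IrrCharacter H)} {B : Set (IrrCharacter G)} (hind : IsInducedBlock M H b B)
    (hd : blockDefect p b = blockDefect p B) {χ ψ : IrrCharacter G} (hχ : χ ∈ B) (hψ : ψ ∈ B)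
    (hht : minExp p B < (charDegree (ψ : G → ℂ)).factorization p) :
    MemLocalIdeal M ((p : ℂ) ^ blockDefect p b * contrib p b x (χ : G → ℂ) (ψ : G → ℂ) /
      (p : ℂ) ^ ((charDegree (χ : G → ℂ)).factorization p - minExp p B)) := by
  have hMp := isPrime_of_isPModular hM
  rw [scaled_eq hd, mul_div_right_comm]
  exact memLocalIdeal_mul_left (memLocalRing_sdeg_div hM hχ)
    (memLocalIdeal_contrib hM hx hH hind hd hχ hψ hht)

end Cfsg.Agent.H6.TwoMajor
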