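import Cfsg.Agent.H6.TwoMajor

/-!
# Galois averages of the diagonal contributions of a major subsection, `p = 2`
-/

set_option autoImplicit false
open Cfsg Cfsg.Agent.CharLib Cfsg.Agent.CharLib.L Cfsg.Agent.BlockLib Cfsg.Agent.Lib.Helper23
  Cfsg.Agent.Lib.Helper23.MinMax
  Cfsg.Agent.Lib.Helper23.Trunc Cfsg.Agent.H6.BlockSection Cfsg.Agent.Lib.Helper23.Sect
  Cfsg.Agent.Lib.Helper23.Subsect Cfsg.Agent.Lib.Helper23.Contrib Cfsg.Agent.H6.MajorSub
  Cfsg.Agent.H6.HeightBound Cfsg.Agent.H6.TwoCyc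
open scoped ComplexConjugate

namespace Cfsg.Agent.H6.TwoMajor

universe u
variable {G : Type u} [Group G] [Fintype G] {H : Subgroup G} [Fintype H]

/-- the scaled contribution -/
noncomputable def mm (b : Set (IrrCharacter H)) (y : G) (u : ℕ) (χ ψ : IrrCharacter G) : ℂ :=
  (2 : ℂ) ^ blockDefect 2 b * contrib 2 b (y ^ u) (χ : G → ℂ) (ψ : G → ℂ)

theorem mm_eq (b : Set (IrrCharacter H)) (y : G) (u : ℕ) (χ ψ : IrrCharacter G) :
    mm b y u χ ψ = ((2 : ℕ) : ℂ) ^ blockDefect 2 b * contrib 2 b (y ^ u) (χ : G → ℂ) (ψ : G → ℂ) := by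
  rw [mm, Nat.cast_ofNat]

open Classical in
/-- the scaled diagonal contribution as a real number -/
noncomputable def dg (b : Set (IrrCharacter H)) (B : Set (IrrCharacter G)) (y : G) (u : ℕ)
    (χ : IrrCharacter G) : ℝ :=
  (2 : ℝ) ^ blockDefect 2 b * ∑ ψ ∈ Finset.univ.filter (· ∈ B),
    Complex.normSq (contrib 2 b (y ^ u) (χ : G → ℂ) (ψ : G → ℂ))

/-- the height -/
noncomputable def ht (B : Set (IrrCharacter G)) (χ : IrrCharacter G) : ℕ :=
  (charDegree (χ : G → ℂ)).factorization 2 - minExp 2 B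

theorem orderOf_pow_cop {s : ℕ} {y : G} (hy : orderOf y = 2 ^ s) {u : ℕ}
    (hu : u.Coprime (2 ^ s)) : orderOf (y ^ u) = 2 ^ s := by
  rw [Nat.Coprime.orderOf_pow (by rw [hy]; exact hu.symm), hy]

theorem centralizer_pow_cop {s : ℕ} {y : G} (hy : orderOf y = 2 ^ s)
    (hH : H = Subgroup.centralizer ({y} : Set G)) {u : ℕ} (hu : u.Coprime (2 ^ s)) :
    H = Subgroup.centralizer ({y ^ u} : Set G) := by
  rw [hH]
  exact (centralizer_pow_of_coprime y (by rw [hy]; exact hu)).symm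

section
variable {M : Ideal AlgInt} (hM : IsPModular 2 M) {y : G} {s : ℕ} (hy : orderOf y = 2 ^ s)
  (hH : H = Subgroup.centralizer ({y} : Set G)) {b : Set (IrrCharacter H)}
  {B : Set (IrrCharacter G)} (hind : IsInducedBlock M H b B)

include hM hy hH hind

theorem mm_self {u : ℕ} (hu : u.Coprime (2 ^ s)) (χ : IrrCharacter G) :
    mm b y u χ χ = (dg b B y u χ : ℂ) := by
  classical
  have : Fact (Nat.Prime 2) := ⟨hM.1⟩
  rw [mm, dg, contrib_self_eq hM (orderOf_pow_cop hy hu) (centralizer_pow_cop hy hH hu) hind χ]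
  push_cast
  rfl

open Classical in
theorem sum_normSq_mm {u : ℕ} (hu : u.Coprime (2 ^ s)) (χ : IrrCharacter G) :
    ∑ ψ ∈ Finset.univ.filter (· ∈ B), Complex.normSq (mm b y u χ ψ) =
      (2 : ℝ) ^ blockDefect 2 b * dg b B y u χ := by
  rw [dg, ← mul_assoc, Finset.mul_sum]
  apply Finset.sum_congr rfl
  intro ψ _
  rw [mm, map_mul, map_pow]
  have : Complex.normSq (2 : ℂ) = 2 * 2 := by
    rw [show (2 : ℂ) = ((2 : ℝ) : ℂ) by norm_num, Complex.normSq_ofReal]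
  rw [this, mul_pow]

open Classical in
theorem sum_dg {u : ℕ} (hu : u.Coprime (2 ^ s)) :
    ∑ χ ∈ Finset.univ.filter (· ∈ B), dg b B y u χ =
      (2 : ℝ) ^ blockDefect 2 b * (blockRank 2 b : ℝ) := by
  have : Fact (Nat.Prime 2) := ⟨hM.1⟩
  simp only [dg]
  rw [← Finset.mul_sum,
    sum_normSq_contrib hM (orderOf_pow_cop hy hu) (centralizer_pow_cop hy hH hu) hind]

theorem mm_ne_zero (hd : blockDefect 2 b = blockDefect 2 B) {u : ℕ} (hu : u.Coprime (2 ^ s))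
    {χ ψ : IrrCharacter G} (hχ : χ ∈ B) (hψ : ψ ∈ B) (hψ0 : ht B ψ = 0) :
    mm b y u χ ψ ≠ 0 := by
  have htop := ne_top_of_isPModular hM
  have hmin : (charDegree (ψ : G → ℂ)).factorization 2 = minExp 2 B := by
    have := minExp_le (p := 2) hψ
    unfold ht at hψ0
    omega
  intro h0
  have h4 : contrib 2 b (y ^ u) (χ : G → ℂ) (ψ : G → ℂ) = 0 :=
    (mul_eq_zero.mp h0).resolve_left (pow_ne_zero _ two_ne_zero)
  apply (contrib_major hM (orderOf_pow_cop hy hu) (centralizer_pow_cop hy hH hu) hind hd hχ hψ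
    hmin).2
  rw [h4, mul_zero, zero_div]
  exact memLocalIdeal_zero htop

theorem dg_pos (hd : blockDefect 2 b = blockDefect 2 B) {u : ℕ} (hu : u.Coprime (2 ^ s))
    {χ : IrrCharacter G} (hχ : χ ∈ B) : 0 < dg b B y u χ := by
  classical
  have htop := ne_top_of_isPModular hM
  obtain ⟨ψ, hψ, hmin⟩ := exists_minExp (p := 2) (nonempty_of_isPBlock htop hind.2.1)
  have hne := mm_ne_zero hM hy hH hind hd hu hχ hψ (by unfold ht; omega)
  have h2 : contrib 2 b (y ^ u) (χ : G → ℂ) (ψ : G → ℂ) ≠ 0 := fun h => hne (by rw [mm, h, mul_zero])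
  unfold dg
  apply mul_pos (by positivity)
  calc 0 < Complex.normSq (contrib 2 b (y ^ u) (χ : G → ℂ) (ψ : G → ℂ)) :=
        Complex.normSq_pos.mpr h2
    _ ≤ _ := Finset.single_le_sum
        (f := fun ψ : IrrCharacter G =>
          Complex.normSq (contrib 2 b (y ^ u) (χ : G → ℂ) (ψ : G → ℂ)))
        (fun ψ _ => Complex.normSq_nonneg _) (Finset.mem_filter.2 ⟨Finset.mem_univ _, hψ⟩)

theorem memLocalRing_mm_div (hd : blockDefect 2 b = blockDefect 2 B) {u : ℕ}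
    (hu : u.Coprime (2 ^ s)) {χ : IrrCharacter G} (hχ : χ ∈ B) (ψ : IrrCharacter G) :
    MemLocalRing M (mm b y u χ ψ / 2 ^ ht B χ) := by
  have := memLocalRing_scaled_div hM (orderOf_pow_cop hy hu) (centralizer_pow_cop hy hH hu)
    hind.1 hd hχ ψ
  rw [Nat.cast_ofNat] at this
  exact this

theorem memLocalIdeal_mm_div (hd : blockDefect 2 b = blockDefect 2 B) {u : ℕ}
    (hu : u.Coprime (2 ^ s)) {χ ψ : IrrCharacter G} (hχ : χ ∈ B) (hψ : ψ ∈ B)
    (hht : 1 ≤ ht B ψ) : MemLocalIdeal M (mm b y u χ ψ / 2 ^ ht B χ) := by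
  have := memLocalIdeal_scaled_div hM (orderOf_pow_cop hy hu) (centralizer_pow_cop hy hH hu)
    hind hd hχ hψ (by unfold ht at hht; omega)
  rw [Nat.cast_ofNat] at this
  exact this

end

theorem normSq_mm_swap (b : Set (IrrCharacter H)) (y : G) (u : ℕ) (χ ψ : IrrCharacter G) :
    Complex.normSq (mm b y u χ ψ) = Complex.normSq (mm b y u ψ χ) := by
  rw [mm, mm, ← contrib_conj, map_mul, map_mul, Complex.normSq_conj]

/-- the Galois form of the scaled contributions -/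
theorem mm_galois (b : Set (IrrCharacter H)) (χ ψ : IrrCharacter G) {y : G} (hyH : y ∈ H)
    (hyc : ∀ h ∈ H, y * h = h * y) :
    ∃ N : IrrCharacter H × IrrCharacter H → ℤ, ∀ u : ℕ, mm b y u χ ψ =
        ∑ i : IrrCharacter H × IrrCharacter H, (N i : ℂ) *
          (lam (i.1 : H → ℂ) ⟨y, hyH⟩ * conj (lam (i.2 : H → ℂ) ⟨y, hyH⟩)) ^ u := by
  obtain ⟨N, hN⟩ := exists_galois_form Nat.prime_two b χ ψ hyH hyc
  exact ⟨N, fun u => by rw [mm_eq, hN]⟩

theorem rho_pow {y : G} (hyH : y ∈ H) (hyc : ∀ h ∈ H, y * h = h * y) {n : ℕ} (hyn : y ^ n = 1)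
    (i : IrrCharacter H × IrrCharacter H) :
    (lam (i.1 : H → ℂ) ⟨y, hyH⟩ * conj (lam (i.2 : H → ℂ) ⟨y, hyH⟩)) ^ n = 1 := by
  rw [mul_pow, ← map_pow, lam_pow_eq_one hyH hyc hyn, lam_pow_eq_one hyH hyc hyn, map_one,
    one_mul]

end Cfsg.Agent.H6.TwoMajor
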