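import Cfsg.Agent.H6.TwoMajor2

/-!
# Galois averages of the diagonal contributions, continued
-/

set_option autoImplicit false
open Cfsg Cfsg.Agent.CharLib Cfsg.Agent.CharLib.L Cfsg.Agent.BlockLib Cfsg.Agent.Lib.Helper23
  Cfsg.Agent.Lib.Helper23.MinMax
  Cfsg.Agent.Lib.Helper23.Trunc Cfsg.Agent.H6.BlockSection Cfsg.Agent.Lib.Helper23.Sect
  Cfsg.Agent.Lib.Helper23.Subsect Cfsg.Agent.Lib.Helper23.Contrib Cfsg.Agent.H6.MajorSub
  Cfsg.Agent.H6.HeightBound Cfsg.Agent.H6.TwoCyc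
open scoped ComplexConjugate

namespace Cfsg.Agent.H6.TwoMajor

universe u
variable {G : Type u} [Group G] [Fintype G] {H : Subgroup G} [Fintype H]

theorem mem_of_eq {y : G} (hH : H = Subgroup.centralizer ({y} : Set G)) : y ∈ H := by
  rw [hH, Subgroup.mem_centralizer_singleton_iff]

theorem comm_of_eq {y : G} (hH : H = Subgroup.centralizer ({y} : Set G)) :
    ∀ h ∈ H, y * h = h * y := by
  intro h hh
  rw [hH, Subgroup.mem_centralizer_singleton_iff] at hh
  exact hh.symm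

theorem card_units_pos (s : ℕ) : (0 : ℝ) < (Fintype.card (ZMod (2 ^ s))ˣ : ℝ) := by
  exact_mod_cast Fintype.card_pos

section
variable {M : Ideal AlgInt} (hM : IsPModular 2 M) {y : G} {s : ℕ} (hy : orderOf y = 2 ^ s)
  (hH : H = Subgroup.centralizer ({y} : Set G)) {b : Set (IrrCharacter H)}
  {B : Set (IrrCharacter G)} (hind : IsInducedBlock M H b B)

include hM hy hH hind

theorem exists_avg_dg (χ : IrrCharacter G) :
    ∃ a : ℤ, ∑ v : (ZMod (2 ^ s))ˣ, dg b B y (v : ZMod (2 ^ s)).val χ =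
      (Fintype.card (ZMod (2 ^ s))ˣ : ℝ) * a := by
  have hMp := isPrime_of_isPModular hM
  have htop := ne_top_of_isPModular hM
  have hyH := mem_of_eq hH
  have hyc := comm_of_eq hH
  have hys : y ^ (2 ^ s) = 1 := by rw [← hy, pow_orderOf_eq_one]
  obtain ⟨N, hN⟩ := mm_galois b χ χ hyH hyc
  obtain ⟨a, ha⟩ := exists_avg hM s N _ (rho_pow hyH hyc hys) 0 (by
    rw [pow_zero, div_one]
    exact memLocalRing_sum _ _ fun i _ => memLocalRing_mul (memLocalRing_intCast htop _)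
      (memLocalRing_pow (memLocalRing_of_isIntegral htop
        (isIntegral_of_pow_eq_one (by positivity) (rho_pow hyH hyc hys i))) _))
  refine ⟨a, ?_⟩
  simp only [← hN] at ha
  have : ((∑ v : (ZMod (2 ^ s))ˣ, dg b B y (v : ZMod (2 ^ s)).val χ : ℝ) : ℂ) =
      (((Fintype.card (ZMod (2 ^ s))ˣ : ℝ) * a : ℝ) : ℂ) := by
    push_cast
    rw [← Finset.sum_congr rfl (fun v _ =>
      mm_self hM hy hH hind (ZMod.val_coe_unit_coprime v) χ), ha]
    ring
  exact_mod_cast this

theorem two_pow_le_avg (hd : blockDefect 2 b = blockDefect 2 B) {χ : IrrCharacter G}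
    (hχ : χ ∈ B) (hht : 1 ≤ ht B χ) {a : ℤ}
    (ha : ∑ v : (ZMod (2 ^ s))ˣ, dg b B y (v : ZMod (2 ^ s)).val χ =
      (Fintype.card (ZMod (2 ^ s))ˣ : ℝ) * a) : (2 : ℤ) ^ (ht B χ + 1) ≤ a := by
  have hyH := mem_of_eq hH
  have hyc := comm_of_eq hH
  have hys : y ^ (2 ^ s) = 1 := by rw [← hy, pow_orderOf_eq_one]
  obtain ⟨N, hN⟩ := mm_galois b χ χ hyH hyc
  obtain ⟨a', ha', hsum⟩ := two_le_avg hM s N _ (rho_pow hyH hyc hys) (ht B χ)
    (fun v => dg b B y (v : ZMod (2 ^ s)).val χ)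
    (fun v => dg_pos hM hy hH hind hd (ZMod.val_coe_unit_coprime v) hχ)
    (fun v => by rw [← hN, mm_self hM hy hH hind (ZMod.val_coe_unit_coprime v)])
    (by rw [← hN]; exact memLocalRing_mm_div hM hy hH hind hd (Nat.coprime_one_left _) hχ χ)
    (fun v => by
      rw [← mm_self hM hy hH hind (ZMod.val_coe_unit_coprime v)]
      exact memLocalIdeal_mm_div hM hy hH hind hd (ZMod.val_coe_unit_coprime v) hχ hχ hht)
  rw [ha] at hsum
  have h1 := mul_left_cancel₀ (card_units_pos s).ne' hsum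
  have h2 : a = 2 ^ ht B χ * a' := by exact_mod_cast h1
  rw [h2, pow_succ]
  exact mul_le_mul_of_nonneg_left ha' (by positivity)

theorem dg_lt (hd : blockDefect 2 b = blockDefect 2 B) {u : ℕ} (hu : u.Coprime (2 ^ s))
    {χ : IrrCharacter G} (hχ : χ ∈ B) (hht : 1 ≤ ht B χ) :
    dg b B y u χ < (2 : ℝ) ^ blockDefect 2 b := by
  classical
  have htop := ne_top_of_isPModular hM
  obtain ⟨ψ, hψ, hmin⟩ := exists_minExp (p := 2) (nonempty_of_isPBlock htop hind.2.1)
  have hψ0 : ht B ψ = 0 := by unfold ht; omega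
  have hne : χ ≠ ψ := by
    rintro rfl
    omega
  have hnz := mm_ne_zero hM hy hH hind hd hu hχ hψ hψ0
  have h1 := sum_normSq_mm hM hy hH hind hu χ
  have h2 : Complex.normSq (mm b y u χ χ) + Complex.normSq (mm b y u χ ψ) ≤
      ∑ ψ ∈ Finset.univ.filter (· ∈ B), Complex.normSq (mm b y u χ ψ) := by
    rw [← Finset.sum_pair (f := fun ψ' : IrrCharacter G => Complex.normSq (mm b y u χ ψ')) hne]
    apply Finset.sum_le_sum_of_subset_of_nonneg
    · intro x hx
      rw [Finset.mem_insert, Finset.mem_singleton] at hx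
      rcases hx with rfl | rfl
      · exact Finset.mem_filter.2 ⟨Finset.mem_univ _, hχ⟩
      · exact Finset.mem_filter.2 ⟨Finset.mem_univ _, hψ⟩
    · intro x _ _
      exact Complex.normSq_nonneg _
  rw [h1, mm_self hM hy hH hind hu, Complex.normSq_ofReal] at h2
  have h3 := Complex.normSq_pos.mpr hnz
  have h4 := dg_pos hM hy hH hind hd hu hχ
  by_contra hcon
  push_neg at hcon
  nlinarith

theorem two_pow_le_compl (hd : blockDefect 2 b = blockDefect 2 B) {χ : IrrCharacter G}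
    (hχ : χ ∈ B) (hht : 1 ≤ ht B χ) {a : ℤ}
    (ha : ∑ v : (ZMod (2 ^ s))ˣ, dg b B y (v : ZMod (2 ^ s)).val χ =
      (Fintype.card (ZMod (2 ^ s))ˣ : ℝ) * a) :
    (2 : ℤ) ^ (ht B χ + 1) ≤ 2 ^ blockDefect 2 b - a := by
  have hMp := isPrime_of_isPModular hM
  have htop := ne_top_of_isPModular hM
  have hyH := mem_of_eq hH
  have hyc := comm_of_eq hH
  have hys : y ^ (2 ^ s) = 1 := by rw [← hy, pow_orderOf_eq_one]
  have hlow := two_pow_le_avg hM hy hH hind hd hχ hht ha
  -- `a < 2^d`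
  have halt : a < 2 ^ blockDefect 2 b := by
    have h1 : ∑ v : (ZMod (2 ^ s))ˣ, dg b B y (v : ZMod (2 ^ s)).val χ <
        ∑ _v : (ZMod (2 ^ s))ˣ, (2 : ℝ) ^ blockDefect 2 b :=
      Finset.sum_lt_sum_of_nonempty Finset.univ_nonempty fun v _ =>
        dg_lt hM hy hH hind hd (ZMod.val_coe_unit_coprime v) hχ hht
    rw [ha, Finset.sum_const, Finset.card_univ, nsmul_eq_mul] at h1
    have h2 := lt_of_mul_lt_mul_left h1 (card_units_pos s).le
    exact_mod_cast h2
  have hcd : ht B χ + 1 < blockDefect 2 b := by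
    have : (2 : ℤ) ^ (ht B χ + 1) < 2 ^ blockDefect 2 b := lt_of_le_of_lt hlow halt
    exact (pow_lt_pow_iff_right₀ (by norm_num)).mp this
  obtain ⟨e, he⟩ : ∃ e, blockDefect 2 b = ht B χ + (e + 1) :=
    ⟨blockDefect 2 b - ht B χ - 1, by omega⟩
  have h2I : MemLocalIdeal M ((2 : ℂ) ^ blockDefect 2 b / 2 ^ ht B χ) := by
    have e1 : (2 : ℂ) ^ blockDefect 2 b / 2 ^ ht B χ = 2 ^ e * ((2 : ℕ) : ℂ) := by
      rw [he, pow_add, pow_succ]
      have : (2 : ℂ) ^ ht B χ ≠ 0 := pow_ne_zero _ two_ne_zero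
      field_simp
      norm_num
    rw [e1]
    exact memLocalIdeal_mul_left
      (memLocalRing_pow (by exact_mod_cast memLocalRing_natCast htop 2) e) (memLocalIdeal_p hM)
  obtain ⟨N, hN⟩ := mm_galois b χ χ hyH hyc
  have hfam : ∀ u : ℕ, ∑ o : Option (IrrCharacter H × IrrCharacter H),
      (((fun o : Option (IrrCharacter H × IrrCharacter H) =>
        o.elim ((2 : ℤ) ^ blockDefect 2 b) (fun i => - N i)) o : ℤ) : ℂ) *
      ((fun o : Option (IrrCharacter H × IrrCharacter H) => o.elim (1 : ℂ) (fun i =>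
        lam (i.1 : H → ℂ) ⟨y, hyH⟩ * conj (lam (i.2 : H → ℂ) ⟨y, hyH⟩))) o) ^ u =
      (2 : ℂ) ^ blockDefect 2 b - mm b y u χ χ := by
    intro u
    rw [Fintype.sum_option, hN u]
    simp only [Option.elim, one_pow, mul_one]
    push_cast
    rw [sub_eq_add_neg, ← Finset.sum_neg_distrib]
    congr 1
    apply Finset.sum_congr rfl
    intro i _
    ring
  obtain ⟨a', ha', hsum⟩ := two_le_avg hM s
    (fun o : Option (IrrCharacter H × IrrCharacter H) =>
        o.elim ((2 : ℤ) ^ blockDefect 2 b) (fun i => - N i))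
    (fun o : Option (IrrCharacter H × IrrCharacter H) => o.elim (1 : ℂ) (fun i =>
        lam (i.1 : H → ℂ) ⟨y, hyH⟩ * conj (lam (i.2 : H → ℂ) ⟨y, hyH⟩)))
    (by
      rintro (_ | i)
      · simp
      · exact rho_pow hyH hyc hys i)
    (ht B χ)
    (fun v => (2 : ℝ) ^ blockDefect 2 b - dg b B y (v : ZMod (2 ^ s)).val χ)
    (fun v => sub_pos.mpr (dg_lt hM hy hH hind hd (ZMod.val_coe_unit_coprime v) hχ hht))
    (fun v => by
      rw [hfam, mm_self hM hy hH hind (ZMod.val_coe_unit_coprime v)]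
      push_cast
      rfl)
    (by
      rw [hfam, sub_div]
      exact memLocalRing_sub (memLocalRing_of_memLocalIdeal h2I)
        (memLocalRing_mm_div hM hy hH hind hd (Nat.coprime_one_left _) hχ χ))
    (fun v => by
      push_cast
      rw [← mm_self hM hy hH hind (ZMod.val_coe_unit_coprime v), sub_div]
      exact memLocalIdeal_sub h2I
        (memLocalIdeal_mm_div hM hy hH hind hd (ZMod.val_coe_unit_coprime v) hχ hχ hht))
  rw [Finset.sum_sub_distrib, ha, Finset.sum_const, Finset.card_univ, nsmul_eq_mul,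
    ← mul_sub] at hsum
  have h1 := mul_left_cancel₀ (card_units_pos s).ne' hsum
  have h2 : 2 ^ blockDefect 2 b - a = 2 ^ ht B χ * a' := by exact_mod_cast h1
  rw [h2, pow_succ]
  exact mul_le_mul_of_nonneg_left ha' (by positivity)

end

end Cfsg.Agent.H6.TwoMajor
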