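import Cfsg.Agent.H6.TwoMajor3

/-!
# Galois averages of the diagonal contributions: characters of height zero
-/

set_option autoImplicit false
open Cfsg Cfsg.Agent.CharLib Cfsg.Agent.CharLib.L Cfsg.Agent.BlockLib Cfsg.Agent.Lib.Helper23
  Cfsg.Agent.Lib.Helper23.MinMax
  Cfsg.Agent.Lib.Helper23.Trunc Cfsg.Agent.H6.BlockSection Cfsg.Agent.Lib.Helper23.Sect
  Cfsg.Agent.Lib.Helper23.Subsect Cfsg.Agent.Lib.Helper23.Contrib Cfsg.Agent.H6.MajorSub
  Cfsg.Agent.H6.HeightBound Cfsg.Agent.H6.TwoCyc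
open scoped ComplexConjugate

namespace Cfsg.Agent.H6.TwoMajor

universe u
variable {G : Type u} [Group G] [Fintype G] {H : Subgroup G} [Fintype H]

section
variable {M : Ideal AlgInt} (hM : IsPModular 2 M) {y : G} {s : ℕ} (hy : orderOf y = 2 ^ s)
  (hH : H = Subgroup.centralizer ({y} : Set G)) {b : Set (IrrCharacter H)}
  {B : Set (IrrCharacter G)} (hind : IsInducedBlock M H b B)

include hM hy hH hind

open Classical in
theorem sum_avg {a : IrrCharacter G → ℤ}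
    (ha : ∀ χ, ∑ v : (ZMod (2 ^ s))ˣ, dg b B y (v : ZMod (2 ^ s)).val χ =
      (Fintype.card (ZMod (2 ^ s))ˣ : ℝ) * a χ) :
    ∑ χ ∈ Finset.univ.filter (· ∈ B), a χ = 2 ^ blockDefect 2 b * (blockRank 2 b : ℤ) := by
  have h1 : (Fintype.card (ZMod (2 ^ s))ˣ : ℝ) *
      ((∑ χ ∈ Finset.univ.filter (· ∈ B), a χ : ℤ) : ℝ) =
      (Fintype.card (ZMod (2 ^ s))ˣ : ℝ) * ((2 : ℝ) ^ blockDefect 2 b * (blockRank 2 b : ℝ)) := by
    push_cast
    rw [Finset.mul_sum]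
    calc ∑ χ ∈ Finset.univ.filter (· ∈ B), (Fintype.card (ZMod (2 ^ s))ˣ : ℝ) * (a χ : ℝ)
        = ∑ χ ∈ Finset.univ.filter (· ∈ B),
            ∑ v : (ZMod (2 ^ s))ˣ, dg b B y (v : ZMod (2 ^ s)).val χ :=
          Finset.sum_congr rfl fun χ _ => (ha χ).symm
      _ = ∑ v : (ZMod (2 ^ s))ˣ, ∑ χ ∈ Finset.univ.filter (· ∈ B),
            dg b B y (v : ZMod (2 ^ s)).val χ := Finset.sum_comm
      _ = ∑ _v : (ZMod (2 ^ s))ˣ, (2 : ℝ) ^ blockDefect 2 b * (blockRank 2 b : ℝ) :=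
          Finset.sum_congr rfl fun v _ => sum_dg hM hy hH hind (ZMod.val_coe_unit_coprime v)
      _ = _ := by simp only [Finset.sum_const, nsmul_eq_mul, Finset.card_univ]
  have h2 := mul_left_cancel₀ (card_units_pos s).ne' h1
  exact_mod_cast h2

theorem avg_pos (hd : blockDefect 2 b = blockDefect 2 B) {χ : IrrCharacter G}
    (hχ : χ ∈ B) {a : ℤ}
    (ha : ∑ v : (ZMod (2 ^ s))ˣ, dg b B y (v : ZMod (2 ^ s)).val χ =
      (Fintype.card (ZMod (2 ^ s))ˣ : ℝ) * a) : 0 < a := by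
  have h1 : 0 < ∑ v : (ZMod (2 ^ s))ˣ, dg b B y (v : ZMod (2 ^ s)).val χ :=
    Finset.sum_pos (fun v _ => dg_pos hM hy hH hind hd (ZMod.val_coe_unit_coprime v) hχ)
      Finset.univ_nonempty
  rw [ha] at h1
  have := (mul_pos_iff_of_pos_left (card_units_pos s)).mp h1
  exact_mod_cast this

theorem avg_odd_of_ht {χ : IrrCharacter G}
    (hχ : χ ∈ B) (hχ0 : ht B χ = 0) {a : ℤ}
    (ha : ∑ v : (ZMod (2 ^ s))ˣ, dg b B y (v : ZMod (2 ^ s)).val χ =
      (Fintype.card (ZMod (2 ^ s))ˣ : ℝ) * a) : Odd a := by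
  have hMp := isPrime_of_isPModular hM
  have htop := ne_top_of_isPModular hM
  have hyH := mem_of_eq hH
  have hyc := comm_of_eq hH
  have hys : y ^ (2 ^ s) = 1 := by rw [← hy, pow_orderOf_eq_one]
  have hmin : (charDegree (χ : G → ℂ)).factorization 2 = minExp 2 B := by
    have := minExp_le (p := 2) hχ
    unfold ht at hχ0
    omega
  obtain ⟨N, hNsym, hN⟩ := exists_galois_form_self Nat.prime_two b χ hyH hyc
  have hρ := rho_pow hyH hyc hys
  have hsumodd : Odd (∑ i, N i) := by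
    have h1 := contrib_unit hM hind hχ hmin hχ hmin (Subgroup.pow_mem _ hyH 1)
      (fun h hh => ((show Commute y h from hyc h hh).pow_left 1).eq) (k := s)
      (by rw [pow_one]; exact hys)
    rw [hN 1] at h1
    have h2 : MemLocalIdeal M (∑ i : IrrCharacter H × IrrCharacter H, (N i : ℂ) *
        (lam (i.1 : H → ℂ) ⟨y, hyH⟩ * conj (lam (i.2 : H → ℂ) ⟨y, hyH⟩)) ^ 1 -
        ((∑ i, N i : ℤ) : ℂ)) := by
      push_cast
      rw [← Finset.sum_sub_distrib]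
      apply memLocalIdeal_sum
      intro i _
      rw [pow_one, ← mul_sub_one]
      exact memLocalIdeal_mul_left (memLocalRing_intCast htop _)
        (memLocalIdeal_sub_one_of_pow_eq_one hM (hρ i))
    rw [← Int.not_even_iff_odd, even_iff_two_dvd]
    intro hd
    apply h1
    have h3 : MemLocalIdeal M ((∑ i, N i : ℤ) : ℂ) :=
      (memLocalIdeal_intCast_iff hM _).2 (by exact_mod_cast hd)
    have := memLocalIdeal_add h2 h3
    rwa [sub_add_cancel] at this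
  obtain ⟨a', ha', hsum⟩ := GalAvg.avg_odd s N _ hρ Prod.swap (fun i => Prod.swap_swap i) hNsym
    (by
      rintro ⟨ξ, ξ'⟩
      simp only [Prod.swap, map_mul, Complex.conj_conj]
      ring) hsumodd
  have hc : (((Fintype.card (ZMod (2 ^ s))ˣ : ℝ) * a : ℝ) : ℂ) =
      (((Fintype.card (ZMod (2 ^ s))ˣ : ℝ) * a' : ℝ) : ℂ) := by
    rw [← ha]
    push_cast
    rw [← hsum]
    apply Finset.sum_congr rfl
    intro v _
    rw [← hN, ← mm_eq, mm_self hM hy hH hind (ZMod.val_coe_unit_coprime v)]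
  have hr : (Fintype.card (ZMod (2 ^ s))ˣ : ℝ) * a = (Fintype.card (ZMod (2 ^ s))ˣ : ℝ) * a' := by
    exact_mod_cast hc
  have h2 := mul_left_cancel₀ (card_units_pos s).ne' hr
  have h3 : a = a' := by exact_mod_cast h2
  rw [h3]; exact ha'

theorem low_normSq (hd : blockDefect 2 b = blockDefect 2 B) {χ ψ : IrrCharacter G}
    (hχ : χ ∈ B) (hψ : ψ ∈ B) (hψ0 : ht B ψ = 0) :
    (Fintype.card (ZMod (2 ^ s))ˣ : ℝ) * (2 : ℝ) ^ (2 * ht B χ) ≤
      ∑ v : (ZMod (2 ^ s))ˣ, Complex.normSq (mm b y (v : ZMod (2 ^ s)).val χ ψ) := by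
  have hyH := mem_of_eq hH
  have hyc := comm_of_eq hH
  have hys : y ^ (2 ^ s) = 1 := by rw [← hy, pow_orderOf_eq_one]
  have : NeZero (2 ^ s) := ⟨by positivity⟩
  obtain ⟨N, hN⟩ := mm_galois b χ ψ hyH hyc
  have := card_units_mul_le_sum_normSq hM (2 ^ s) N _ (rho_pow hyH hyc hys) (ht B χ) (by
    intro u hu
    rw [← hN, Nat.cast_ofNat]
    exact ⟨mm_ne_zero hM hy hH hind hd hu hχ hψ hψ0, memLocalRing_mm_div hM hy hH hind hd hu hχ ψ⟩)
  simp only [← hN] at this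
  rw [Nat.cast_ofNat] at this
  exact this

open Classical in
theorem sum_four_pow_le (hd : blockDefect 2 b = blockDefect 2 B) {ψ : IrrCharacter G}
    (hψ : ψ ∈ B) (hψ0 : ht B ψ = 0) {a : ℤ}
    (ha : ∑ v : (ZMod (2 ^ s))ˣ, dg b B y (v : ZMod (2 ^ s)).val ψ =
      (Fintype.card (ZMod (2 ^ s))ˣ : ℝ) * a) :
    ((∑ χ ∈ Finset.univ.filter (· ∈ B), 2 ^ (2 * ht B χ) : ℕ) : ℤ) ≤ 2 ^ blockDefect 2 b * a := by
  have h1 : (Fintype.card (ZMod (2 ^ s))ˣ : ℝ) *
      (∑ χ ∈ Finset.univ.filter (· ∈ B), (2 : ℝ) ^ (2 * ht B χ)) ≤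
      (Fintype.card (ZMod (2 ^ s))ˣ : ℝ) * ((2 : ℝ) ^ blockDefect 2 b * a) := by
    rw [Finset.mul_sum]
    calc ∑ χ ∈ Finset.univ.filter (· ∈ B),
          (Fintype.card (ZMod (2 ^ s))ˣ : ℝ) * (2 : ℝ) ^ (2 * ht B χ)
        ≤ ∑ χ ∈ Finset.univ.filter (· ∈ B), ∑ v : (ZMod (2 ^ s))ˣ,
            Complex.normSq (mm b y (v : ZMod (2 ^ s)).val χ ψ) :=
          Finset.sum_le_sum fun χ hχ =>
            low_normSq hM hy hH hind hd (Finset.mem_filter.1 hχ).2 hψ hψ0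
      _ = ∑ v : (ZMod (2 ^ s))ˣ, ∑ χ ∈ Finset.univ.filter (· ∈ B),
            Complex.normSq (mm b y (v : ZMod (2 ^ s)).val χ ψ) := Finset.sum_comm
      _ = ∑ v : (ZMod (2 ^ s))ˣ, (2 : ℝ) ^ blockDefect 2 b * dg b B y (v : ZMod (2 ^ s)).val ψ := by
          apply Finset.sum_congr rfl
          intro v _
          rw [← sum_normSq_mm hM hy hH hind (ZMod.val_coe_unit_coprime v) ψ]
          exact Finset.sum_congr rfl fun χ _ => normSq_mm_swap b y _ χ ψ
      _ = _ := by rw [← Finset.mul_sum, ha]; ring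
  have h2 := le_of_mul_le_mul_left h1 (card_units_pos s)
  exact_mod_cast h2

open Classical in
theorem card_le_one_add (hd : blockDefect 2 b = blockDefect 2 B) {ψ : IrrCharacter G}
    (hψ : ψ ∈ B) (hψ0 : ht B ψ = 0) {a : ℤ}
    (ha : ∑ v : (ZMod (2 ^ s))ˣ, dg b B y (v : ZMod (2 ^ s)).val ψ =
      (Fintype.card (ZMod (2 ^ s))ˣ : ℝ) * a) :
    ((Finset.univ.filter (· ∈ B)).card : ℤ) ≤ 1 + a * (2 ^ blockDefect 2 b - a) := by
  set F := Finset.univ.filter (fun χ : IrrCharacter G => χ ∈ B) with hF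
  set φ := (Fintype.card (ZMod (2 ^ s))ˣ : ℝ) with hφ
  have hψF : ψ ∈ F := Finset.mem_filter.2 ⟨Finset.mem_univ _, hψ⟩
  have hsq : φ * (a : ℝ) ^ 2 ≤ ∑ v : (ZMod (2 ^ s))ˣ, dg b B y (v : ZMod (2 ^ s)).val ψ ^ 2 := by
    have h := sq_sum_le_card_mul_sum_sq (s := (Finset.univ : Finset (ZMod (2 ^ s))ˣ))
      (f := fun v => dg b B y (v : ZMod (2 ^ s)).val ψ)
    rw [ha, Finset.card_univ, mul_pow, sq φ, mul_assoc] at h
    exact le_of_mul_le_mul_left h (card_units_pos s)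
  have h1 : φ * ((F.erase ψ).card : ℝ) ≤ φ * ((2 : ℝ) ^ blockDefect 2 b * a - (a : ℝ) ^ 2) := by
    calc φ * ((F.erase ψ).card : ℝ) = ∑ χ ∈ F.erase ψ, φ * 1 := by
          simp only [Finset.sum_const, nsmul_eq_mul, mul_one]; ring
      _ ≤ ∑ χ ∈ F.erase ψ, ∑ v : (ZMod (2 ^ s))ˣ,
            Complex.normSq (mm b y (v : ZMod (2 ^ s)).val χ ψ) := by
          apply Finset.sum_le_sum
          intro χ hχ
          have hχB : χ ∈ B := (Finset.mem_filter.1 (Finset.mem_of_mem_erase hχ)).2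
          refine le_trans ?_ (low_normSq hM hy hH hind hd hχB hψ hψ0)
          apply mul_le_mul_of_nonneg_left _ (card_units_pos s).le
          exact one_le_pow₀ (by norm_num)
      _ = ∑ v : (ZMod (2 ^ s))ˣ, ∑ χ ∈ F.erase ψ,
            Complex.normSq (mm b y (v : ZMod (2 ^ s)).val χ ψ) := Finset.sum_comm
      _ = ∑ v : (ZMod (2 ^ s))ˣ, ((2 : ℝ) ^ blockDefect 2 b * dg b B y (v : ZMod (2 ^ s)).val ψ -
            dg b B y (v : ZMod (2 ^ s)).val ψ ^ 2) := by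
          apply Finset.sum_congr rfl
          intro v _
          rw [← sum_normSq_mm hM hy hH hind (ZMod.val_coe_unit_coprime v) ψ, ← hF,
            ← Finset.add_sum_erase F _ hψF, mm_self hM hy hH hind (ZMod.val_coe_unit_coprime v),
            Complex.normSq_ofReal, ← sq, add_sub_cancel_left]
          exact Finset.sum_congr rfl fun χ _ => normSq_mm_swap b y _ χ ψ
      _ ≤ _ := by
          rw [Finset.sum_sub_distrib, ← Finset.mul_sum, ha]
          nlinarith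
  have h2 := le_of_mul_le_mul_left h1 (card_units_pos s)
  have h3 : ((F.erase ψ).card : ℤ) ≤ 2 ^ blockDefect 2 b * a - a ^ 2 := by exact_mod_cast h2
  have h4 : (F.erase ψ).card + 1 = F.card := Finset.card_erase_add_one hψF
  have h5 : (F.card : ℤ) = (F.erase ψ).card + 1 := by exact_mod_cast h4.symm
  rw [h5]
  nlinarith

end

end Cfsg.Agent.H6.TwoMajor
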