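import Cfsg.Agent.H6.TwoMajor4

/-!
# Bounds for `2`-blocks from a major subsection
-/

set_option autoImplicit false
open Cfsg Cfsg.Agent.CharLib Cfsg.Agent.CharLib.L Cfsg.Agent.BlockLib Cfsg.Agent.Lib.Helper23
  Cfsg.Agent.Lib.Helper23.MinMax
  Cfsg.Agent.Lib.Helper23.Trunc Cfsg.Agent.H6.BlockSection Cfsg.Agent.Lib.Helper23.Sect
  Cfsg.Agent.Lib.Helper23.Subsect Cfsg.Agent.Lib.Helper23.Contrib Cfsg.Agent.H6.MajorSub
  Cfsg.Agent.H6.HeightBound Cfsg.Agent.H6.TwoCyc
open scoped ComplexConjugate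

namespace Cfsg.Agent.H6.TwoMajor

universe u
variable {G : Type u} [Group G] [Fintype G] {H : Subgroup G} [Fintype H]

section
variable {M : Ideal AlgInt} (hM : IsPModular 2 M) {y : G} {s : ℕ} (hy : orderOf y = 2 ^ s)
  (hH : H = Subgroup.centralizer ({y} : Set G)) {b : Set (IrrCharacter H)}
  {B : Set (IrrCharacter G)} (hind : IsInducedBlock M H b B)

include hM hy hH hind

open Classical in
/-- `3 k₀ + 2 ∑ 2^h ≤ 3·2^d` if `l(b) ≤ 3` -/
theorem weighted_le (hd : blockDefect 2 b = blockDefect 2 B) (hl : blockRank 2 b ≤ 3) :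
    ∑ χ ∈ Finset.univ.filter (· ∈ B), (if ht B χ = 0 then 3 else 2 * 2 ^ ht B χ) ≤
      3 * 2 ^ blockDefect 2 b := by
  choose a ha using fun χ => exists_avg_dg hM hy hH hind χ
  set F := Finset.univ.filter (fun χ : IrrCharacter G => χ ∈ B) with hF
  have hFB : ∀ χ ∈ F, χ ∈ B := fun χ hχ => (Finset.mem_filter.1 hχ).2
  have goalZ : ((∑ χ ∈ F, (if ht B χ = 0 then 3 else 2 * 2 ^ ht B χ) : ℕ) : ℤ) ≤
      3 * 2 ^ blockDefect 2 b := by
    by_cases hA : ∃ ψ ∈ F, ht B ψ = 0 ∧ a ψ = 1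
    · obtain ⟨ψ, hψ, hψ0, hψ1⟩ := hA
      have h1 := sum_four_pow_le hM hy hH hind hd (hFB ψ hψ) hψ0 (ha ψ)
      rw [hψ1, mul_one, ← hF] at h1
      have h2 : ∑ χ ∈ F, (if ht B χ = 0 then 3 else 2 * 2 ^ ht B χ) ≤
          3 * ∑ χ ∈ F, 2 ^ (2 * ht B χ) := by
        rw [Finset.mul_sum]
        apply Finset.sum_le_sum
        intro χ _
        split_ifs with h0
        · rw [h0]; norm_num
        · have e : 2 ^ (2 * ht B χ) = 2 ^ ht B χ * 2 ^ ht B χ := by rw [two_mul, pow_add]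
          rw [e]
          have : 1 ≤ 2 ^ ht B χ := Nat.one_le_two_pow
          nlinarith
      have h3 : ((∑ χ ∈ F, (if ht B χ = 0 then 3 else 2 * 2 ^ ht B χ) : ℕ) : ℤ) ≤
          3 * ((∑ χ ∈ F, 2 ^ (2 * ht B χ) : ℕ) : ℤ) := by exact_mod_cast h2
      linarith
    · push_neg at hA
      have h1 := sum_avg hM hy hH hind ha
      rw [← hF] at h1
      have h2 : ((∑ χ ∈ F, (if ht B χ = 0 then 3 else 2 * 2 ^ ht B χ) : ℕ) : ℤ) ≤ ∑ χ ∈ F, a χ := by
        push_cast
        apply Finset.sum_le_sum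
        intro χ hχ
        split_ifs with h0
        · have hodd := avg_odd_of_ht hM hy hH hind (hFB χ hχ) h0 (ha χ)
          have hpos := avg_pos hM hy hH hind hd (hFB χ hχ) (ha χ)
          have hne := hA χ hχ h0
          obtain ⟨t, ht⟩ := hodd
          push_cast
          omega
        · have := two_pow_le_avg hM hy hH hind hd (hFB χ hχ) (by omega) (ha χ)
          rw [pow_succ] at this
          push_cast
          linarith
      have h3 : (2 : ℤ) ^ blockDefect 2 b * (blockRank 2 b : ℤ) ≤ 2 ^ blockDefect 2 b * 3 :=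
        mul_le_mul_of_nonneg_left (by exact_mod_cast hl) (by positivity)
      linarith
  exact_mod_cast goalZ

open Classical in
/-- `k(B) ≤ 2^d` if `k(B) - l(b) ≤ 3` -/
theorem card_le_of_sub_le (hd : blockDefect 2 b = blockDefect 2 B)
    (hk : (Finset.univ.filter (· ∈ B)).card ≤ blockRank 2 b + 3) :
    (Finset.univ.filter (· ∈ B)).card ≤ 2 ^ blockDefect 2 b := by
  choose a ha using fun χ => exists_avg_dg hM hy hH hind χ
  set F := Finset.univ.filter (fun χ : IrrCharacter G => χ ∈ B) with hF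
  have hFB : ∀ χ ∈ F, χ ∈ B := fun χ hχ => (Finset.mem_filter.1 hχ).2
  have hP : (1 : ℤ) ≤ 2 ^ blockDefect 2 b := one_le_pow₀ (by norm_num)
  have goalZ : (F.card : ℤ) ≤ 2 ^ blockDefect 2 b := by
    by_cases hA : ∃ ψ ∈ F, ht B ψ = 0 ∧ 2 ^ blockDefect 2 b - a ψ ≤ 1
    · obtain ⟨ψ, hψ, hψ0, hψ1⟩ := hA
      have h1 := card_le_one_add hM hy hH hind hd (hFB ψ hψ) hψ0 (ha ψ)
      rw [← hF] at h1
      have hpos := avg_pos hM hy hH hind hd (hFB ψ hψ) (ha ψ)
      rcases (show 2 ^ blockDefect 2 b - a ψ ≤ 0 ∨ 2 ^ blockDefect 2 b - a ψ = 1 by omega) with h | h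
      · have : a ψ * (2 ^ blockDefect 2 b - a ψ) ≤ 0 := mul_nonpos_of_nonneg_of_nonpos hpos.le h
        linarith
      · rw [h, mul_one] at h1
        linarith
    · push_neg at hA
      have h1 := sum_avg hM hy hH hind ha
      rw [← hF] at h1
      have h2 : ∑ χ ∈ F, (3 : ℤ) ≤ ∑ χ ∈ F, (2 ^ blockDefect 2 b - a χ) := by
        apply Finset.sum_le_sum
        intro χ hχ
        by_cases h0 : ht B χ = 0
        · have hodd := avg_odd_of_ht hM hy hH hind (hFB χ hχ) h0 (ha χ)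
          have hpos := avg_pos hM hy hH hind hd (hFB χ hχ) (ha χ)
          have hgt := hA χ hχ h0
          rcases Nat.eq_zero_or_pos (blockDefect 2 b) with hd0 | hd0
          · rw [hd0, pow_zero] at hgt
            omega
          · obtain ⟨e, he⟩ : ∃ e, blockDefect 2 b = e + 1 := ⟨blockDefect 2 b - 1, by omega⟩
            rw [he, pow_succ] at hgt ⊢
            obtain ⟨t, ht⟩ := hodd
            omega
        · have := two_pow_le_compl hM hy hH hind hd (hFB χ hχ) (by omega) (ha χ)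
          have h4 : (4 : ℤ) ≤ 2 ^ (ht B χ + 1) := by
            obtain ⟨e, he⟩ : ∃ e, ht B χ = e + 1 := ⟨ht B χ - 1, by omega⟩
            rw [he, pow_succ, pow_succ]
            have : (1 : ℤ) ≤ 2 ^ e := one_le_pow₀ (by norm_num)
            linarith
          linarith
      rw [Finset.sum_sub_distrib, h1, Finset.sum_const, Finset.sum_const, nsmul_eq_mul,
        nsmul_eq_mul] at h2
      have hk' : (F.card : ℤ) ≤ blockRank 2 b + 3 := by exact_mod_cast hk
      nlinarith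
  exact_mod_cast goalZ

end

end Cfsg.Agent.H6.TwoMajor
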